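import Mathlib.Algebra.Order.Field.Rat
import Mathlib.Tactic.FieldSimp
import Mathlib.Tactic.Linarith
import Mathlib.Tactic.LinearCombination
import Mathlib.Tactic.Ring
import Mathlib.Tactic.Positivity
import Mathlib.Tactic.IntervalCases

/-!
The equations of the class algebra for the two possible configurations.
-/

set_option autoImplicit false
set_option maxHeartbeats 800000

namespace Cfsg.Agent.LAE62.NineBig.Algebra

/-- The two forms of a pair, with the values prescribed for the classes. -/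
theorem pair_equations {e X a ue uX ua we wX wa k σ : ℚ} (he : e ≠ 0) (hX : X ≠ 0) (ha : a ≠ 0)
    (hZ : e + X + a ≠ 0) (hW : e + X - a ≠ 0) (hk : k ≠ 0) (hσ : σ * σ = 1)
    (p1 : ue * ue / e + uX * uX / X + ua * ua / a - (ue + uX + ua) * (ue + uX + ua) / (e + X + a) = k / 2)
    (p2 : ue * we / e + uX * wX / X + ua * wa / a - (ue + uX + ua) * (we + wX + wa) / (e + X + a) = σ * k / 2)
    (p3 : we * we / e + wX * wX / X + wa * wa / a - (we + wX + wa) * (we + wX + wa) / (e + X + a) = 3 * k / 2)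
    (m1 : ue * ue / e + uX * uX / X - ua * ua / a - (ue + uX - ua) * (ue + uX - ua) / (e + X - a) = 0)
    (m2 : ue * we / e + uX * wX / X - ua * wa / a - (ue + uX - ua) * (we + wX - wa) / (e + X - a) = σ * k)
    (m3 : we * we / e + wX * wX / X - wa * wa / a - (we + wX - wa) * (we + wX - wa) / (e + X - a) = k) :
    e + X = 3 * a ∧ (ue * X - uX * e) ^ 2 = k * e * X * a ∧
      (ue * X - uX * e) * (we * X - wX * e) = 2 * σ * k * e * X * a ∧ ((ue + uX) - 3 * ua) ^ 2 = 2 * k * a := by
  have hs : e + X ≠ 0 := by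
    intro hs
    have hXe : X = -e := by linear_combination hs
    subst hXe
    simp only [show e + -e + a = a by ring, show e + -e - a = -a by ring] at p1 p2 p3 m1 m2 m3
    field_simp at p1 p2 p3 m1 m2 m3
    have hUU : 4 * (ue + uX) * (ue + uX) * e = -k * a * e := by linear_combination -(p1 - 2 * m1)
    have hUW : 4 * (ue + uX) * (we + wX) * e = σ * k * a * e := by linear_combination -(p2 - 2 * m2)
    have hU0 : ue + uX ≠ 0 := fun h => mul_ne_zero (mul_ne_zero hk ha) he (by rw [h] at hUU; linear_combination hUU)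
    have hWU : we + wX = -σ * (ue + uX) := mul_left_cancel₀ (mul_ne_zero (mul_ne_zero four_ne_zero hU0) he) (by
      linear_combination hUW + σ * hUU)
    obtain rfl : we = -σ * (ue + uX) - wX := by linear_combination hWU
    have : k * a * e = 0 := by
      rcases mul_self_eq_one_iff.1 hσ with rfl | rfl
      · linear_combination -((p1 + 2 * m1) + 2 * (p2 + 2 * m2) + (p3 + 2 * m3)) / 12
      · linear_combination -((p1 + 2 * m1) - 2 * (p2 + 2 * m2) + (p3 + 2 * m3)) / 12
    exact mul_ne_zero (mul_ne_zero hk ha) he this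
  set s := e + X with hsdef
  set S11 := (ue * X - uX * e) * (ue * X - uX * e) / (e * X * s) with hS11
  set S12 := (ue * X - uX * e) * (we * X - wX * e) / (e * X * s) with hS12
  set S22 := (we * X - wX * e) * (we * X - wX * e) / (e * X * s) with hS22
  set D11 := ((ue + uX) * a - s * ua) * ((ue + uX) * a - s * ua) / (a * s) with hD11
  set D12 := ((ue + uX) * a - s * ua) * ((we + wX) * a - s * wa) / (a * s) with hD12
  set D22 := ((we + wX) * a - s * wa) * ((we + wX) * a - s * wa) / (a * s) with hD22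
  have idp : ∀ u v w x y z : ℚ, u * v / e + w * x / X + y * z / a - (u + w + y) * (v + x + z) / (s + a) =
      (u * X - w * e) * (v * X - x * e) / (e * X * s) +
        ((u + w) * a - s * y) * ((v + x) * a - s * z) / (a * s) / (s + a) := by
    intro u v w x y z
    have : s + a ≠ 0 := hZ
    field_simp
    rw [hsdef]
    ring
  have idm : ∀ u v w x y z : ℚ, u * v / e + w * x / X - y * z / a - (u + w - y) * (v + x - z) / (s - a) =
      (u * X - w * e) * (v * X - x * e) / (e * X * s) -
        ((u + w) * a - s * y) * ((v + x) * a - s * z) / (a * s) / (s - a) := by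
    intro u v w x y z
    have : s - a ≠ 0 := hW
    field_simp
    rw [hsdef]
    ring
  rw [idp, ← hS11, ← hD11] at p1
  rw [idp, ← hS12, ← hD12] at p2
  rw [idp, ← hS22, ← hD22] at p3
  rw [idm, ← hS11, ← hD11] at m1
  rw [idm, ← hS12, ← hD12] at m2
  rw [idm, ← hS22, ← hD22] at m3
  have clear : ∀ S D z r : ℚ, z ≠ 0 → S + D / z = r → z * S + D = z * r := fun S D z r hz h => by
    rw [← h]; field_simp
  have clear' : ∀ S D z r : ℚ, z ≠ 0 → S - D / z = r → z * S - D = z * r := fun S D z r hz h => by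
    rw [← h]; field_simp
  replace p1 := clear _ _ _ _ hZ p1
  replace p2 := clear _ _ _ _ hZ p2
  replace p3 := clear _ _ _ _ hZ p3
  replace m1 := clear' _ _ _ _ hW m1
  replace m2 := clear' _ _ _ _ hW m2
  replace m3 := clear' _ _ _ _ hW m3
  have e1 : 4 * s * S11 = k * (s + a) := by linear_combination 2 * p1 + 2 * m1
  have e2 : 4 * s * S12 = σ * k * (3 * s - a) := by linear_combination 2 * p2 + 2 * m2
  have e3 : 4 * s * S22 = k * (5 * s + a) := by linear_combination 2 * p3 + 2 * m3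
  have hrank : S11 * S22 = S12 * S12 := by simp only [hS11, hS12, hS22]; ring
  have h3 : s = 3 * a := by
    have h : k * k * (4 * s * (s - 3 * a)) = 0 := by
      linear_combination (4 * s * S22) * e1 + k * (s + a) * e3 - (4 * s * S12 + σ * k * (3 * s - a)) * e2
        - 16 * s * s * hrank - k * k * (3 * s - a) ^ 2 * hσ
    rcases mul_eq_zero.1 h with h | h
    · exact absurd h (mul_ne_zero hk hk)
    rcases mul_eq_zero.1 h with h | h
    · exact absurd h (mul_ne_zero four_ne_zero hs)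
    exact sub_eq_zero.1 h
  have v1 : S11 = k / 3 := by
    rw [h3] at e1
    exact mul_left_cancel₀ (mul_ne_zero (by norm_num : (12 : ℚ) ≠ 0) ha) (by linear_combination e1)
  have v2 : S12 = 2 * σ * k / 3 := by
    rw [h3] at e2
    exact mul_left_cancel₀ (mul_ne_zero (by norm_num : (12 : ℚ) ≠ 0) ha) (by linear_combination e2)
  have d1 : D11 = 2 * a * (k / 3) := by
    rw [h3, v1] at m1
    linear_combination -m1
  simp only [hS11, hS12, hD11, h3] at v1 v2 d1
  have h3a : (3 : ℚ) * a ≠ 0 := mul_ne_zero (by norm_num) ha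
  rw [div_eq_iff (mul_ne_zero (mul_ne_zero he hX) h3a)] at v1 v2
  rw [div_eq_iff (mul_ne_zero ha h3a)] at d1
  exact ⟨h3, by linear_combination v1, by linear_combination v2,
    mul_left_cancel₀ (mul_ne_zero ha ha) (by linear_combination d1)⟩

/-- What both configurations have in common. -/
structure Data (k a ua wa t ut wt Y uY wY X uX wX : ℚ) : Prop where
  hk : 0 < k
  ha : a ≠ 0
  ht : t ≠ 0
  hY : Y ≠ 0
  hX : X ≠ 0
  hZ : 1 + X + a ≠ 0
  hW : 1 + X - a ≠ 0
  eX : X = t + Y
  euX : uX = ut + uY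
  ewX : wX = wt + wY
  two : ua * Y = uY * a
  three : uY * uY / Y + ut * ut / t - uX * uX / X = k
  three' : wY * wY / Y + wt * wt / t - wX * wX / X = 0
  six : uX * uX / X + ua * ua / a - (uX + ua) * (uX + ua) / (1 + X + a) = k / 2
  six' : uX * wX / X + ua * wa / a - (uX + ua) * (wX + wa) / (1 + X + a) = k / 2
  six'' : wX * wX / X + wa * wa / a - (wX + wa) * (wX + wa) / (1 + X + a) = 3 * k / 2
  seven : uX * uX / X - ua * ua / a - (uX - ua) * (uX - ua) / (1 + X - a) = 0
  seven' : uX * wX / X - ua * wa / a - (uX - ua) * (wX - wa) / (1 + X - a) = k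
  seven'' : wX * wX / X - wa * wa / a - (wX - wa) * (wX - wa) / (1 + X - a) = k

theorem Data.core {k a ua wa t ut wt Y uY wY X uX wX : ℚ} (h : Data k a ua wa t ut wt Y uY wY X uX wX) :
    3 * a = 1 + X ∧ uX * uX = k * X * a ∧ wX = 2 * uX ∧ (uX - 3 * ua) ^ 2 = 2 * k * a ∧ uX ≠ 0 ∧
      0 < a ∧ 0 < X ∧ wY * X = Y * wX := by
  obtain ⟨hk, ha, ht, hY, hX, hZ, hW, rfl, euX, ewX, two, three, three', six, six', six'', seven, seven', seven''⟩ := h
  obtain ⟨h3, e1, e2, e3⟩ := pair_equations (σ := 1) (e := 1) (ue := 0) (we := 0) one_ne_zero hX ha hZ hW hk.ne'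
    (by norm_num) (by simpa using six) (by simpa using six') (by simpa using six'') (by simpa using seven)
    (by simpa using seven') (by simpa using seven'')
  have e1' : uX * uX = k * (t + Y) * a := by linear_combination e1
  have hu : uX ≠ 0 := fun h => mul_ne_zero (mul_ne_zero hk.ne' hX) ha (by rw [← e1', h, mul_zero])
  have hw : wX = 2 * uX := mul_left_cancel₀ hu (by linear_combination e2 - 2 * e1')
  have hsq : (uX - 3 * ua) ^ 2 = 2 * k * a := by linear_combination e3
  have hapos : 0 < a := by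
    rcases lt_or_gt_of_ne ha with h | h
    · nlinarith [sq_nonneg (uX - 3 * ua)]
    · exact h
  refine ⟨h3.symm, e1', hw, hsq, hu, hapos, ?_, ?_⟩
  · rcases lt_or_gt_of_ne hX with h | h
    · nlinarith [sq_nonneg uX, mul_pos hk hapos]
    · exact h
  · subst ewX
    field_simp at three'
    have : (wt * Y - wY * t) * (wt * Y - wY * t) = 0 := by linear_combination three'
    linear_combination -(mul_self_eq_zero.1 this)

/-- A rational number with integral square is an integer. -/
theorem exists_int_of_sq {w : ℚ} {z : ℤ} (h : w * w = z) : ∃ n : ℤ, w = n := by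
  refine ⟨w.num, ((Rat.den_eq_one_iff w).1 ?_).symm⟩
  have h1 : (w * w).den = w.den * w.den := Rat.mul_self_den w
  rw [h, Rat.den_intCast] at h1
  exact Nat.eq_one_of_mul_eq_one_right h1.symm

/-- The factor left by the class algebra. -/
def g (w : ℤ) : ℤ :=
  w ^ 12 - 112 * w ^ 11 + 6320 * w ^ 10 + 29056 * w ^ 9 + 20112 * w ^ 8 + 63744 * w ^ 7 + 85632 * w ^ 6 +
    204288 * w ^ 5 + 412224 * w ^ 4 + 431104 * w ^ 3 + 702464 * w ^ 2 + 376832 * w + 409600

theorem g_eq_zero {w : ℤ} (h : g w = 0) : w = -4 := by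
  by_cases hb : 12 ≤ |w|
  · exfalso
    set m := |w| with hm
    have hm0 : 0 ≤ m := abs_nonneg w
    have hodd : ∀ n : ℕ, -(m ^ n) ≤ w ^ n := fun n => by
      rw [hm, ← abs_pow]; exact neg_abs_le _
    have hev : ∀ n : ℕ, w ^ (2 * n) = m ^ (2 * n) := fun n => by rw [hm, pow_mul, pow_mul, sq_abs]
    have h12 : 3184 * m ^ 10 ≤ w ^ 12 - 112 * w ^ 11 + 6320 * w ^ 10 := by
      have h10 : m ^ 10 = w ^ 10 := by have := hev 5; norm_num at this; exact this.symm
      rw [h10]
      have : 0 ≤ w ^ 10 := by positivity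
      nlinarith [mul_nonneg this (sq_nonneg (w - 56))]
    have q8 : (0 : ℤ) ≤ w ^ 8 := by positivity
    have q6 : (0 : ℤ) ≤ w ^ 6 := by positivity
    have q4 : (0 : ℤ) ≤ w ^ 4 := by positivity
    have q2 : (0 : ℤ) ≤ w ^ 2 := by positivity
    have up : ∀ i j : ℕ, i ≤ j → 12 ^ (j - i) * m ^ i ≤ m ^ j := fun i j hij => by
      rw [← Nat.sub_add_cancel hij, pow_add, Nat.add_sub_cancel]
      exact mul_le_mul_of_nonneg_right (pow_le_pow_left₀ (by norm_num) hb _) (pow_nonneg hm0 _)
    have u1 := up 7 9 (by norm_num)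
    have u2 := up 5 9 (by norm_num)
    have u3 := up 3 9 (by norm_num)
    have u4 := up 1 9 (by norm_num)
    have u5 := up 9 10 (by norm_num)
    norm_num at u1 u2 u3 u4 u5
    have m9 : 0 < m ^ 9 := pow_pos (by omega) 9
    have m7 := pow_nonneg hm0 7
    have m5 := pow_nonneg hm0 5
    have m3 := pow_nonneg hm0 3
    have o9 := hodd 9
    have o7 := hodd 7
    have o5 := hodd 5
    have o3 := hodd 3
    have o1 := hodd 1
    rw [pow_one] at o1
    simp only [g] at h
    linarith
  · have h1 : -12 < w ∧ w < 12 := abs_lt.1 (not_le.1 hb)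
    obtain ⟨h1, h2⟩ := h1
    interval_cases w <;> first | rfl | (exfalso; revert h; decide)

theorem disc_pos (x : ℚ) : 0 < 10 * x ^ 2 + 8 * x + 16 := by nlinarith [sq_nonneg (5 * x + 2)]

theorem finish {P t X : ℚ} (hX : X = (-4 : ℚ) ^ 2 / 2)
    (hP : P * (10 * (-4 : ℚ) ^ 2 + 8 * (-4) + 16) = (-4 : ℚ) ^ 2 * (2 - 8 * (-4) - (-4 : ℚ) ^ 2))
    (ht : 3 * t = X - P) : t = 2 := by
  linarith

/-- The configuration of the group itself. -/
theorem caseA {k a ua wa t ut wt Y uY wY X uX wX : ℚ} (h : Data k a ua wa t ut wt Y uY wY X uX wX)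
    {b ub wb c uc wc : ℚ} (eY : Y = a + b) (euY : uY = ua + ub) (ewY : wY = wa + wb) (hc : c ≠ 0) (hb : b ≠ 0)
    (hP : c + X + b ≠ 0) (hM : c + X - b ≠ 0) (hR : 1 + c + Y ≠ 0)
    (four : uc * uc / c + uX * uX / X + ub * ub / b - (uc + uX + ub) * (uc + uX + ub) / (c + X + b) = k / 2)
    (four' : uc * wc / c + uX * wX / X + ub * wb / b - (uc + uX + ub) * (wc + wX + wb) / (c + X + b) = -k / 2)
    (four'' : wc * wc / c + wX * wX / X + wb * wb / b - (wc + wX + wb) * (wc + wX + wb) / (c + X + b) = 3 * k / 2)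
    (five : uc * uc / c + uX * uX / X - ub * ub / b - (uc + uX - ub) * (uc + uX - ub) / (c + X - b) = 0)
    (five' : uc * wc / c + uX * wX / X - ub * wb / b - (uc + uX - ub) * (wc + wX - wb) / (c + X - b) = -k)
    (five'' : wc * wc / c + wX * wX / X - wb * wb / b - (wc + wX - wb) * (wc + wX - wb) / (c + X - b) = k)
    (eight : wc * wc / c + wY * wY / Y - (wc + wY) * (wc + wY) / (1 + c + Y) = 3 * k)
    (hint : ∃ z : ℤ, X = z) : t = 2 := by
  obtain ⟨e3a, eu, ew, esq, hu, hapos, hXpos, eYX⟩ := h.core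
  obtain ⟨hk, ha, ht, hY, hX, -, -, eX, euX, -, two, three, -, -, -, -, -, -, -⟩ := h
  obtain ⟨f3, f1, f2, -⟩ := pair_equations (σ := -1) hc hX hb hP hM hk.ne' (by norm_num)
    four (by linear_combination four') four'' five (by linear_combination five') five''
  set ξ := uX - 3 * ua with hξ
  have hξ0 : ξ ≠ 0 := fun e => mul_ne_zero (mul_ne_zero two_ne_zero hk.ne') ha (by rw [← esq, e]; ring)
  set v := 2 * uX / ξ with hv
  have hvξ : v * ξ = 2 * uX := div_mul_cancel₀ _ hξ0
  have hv2 : v * v = 2 * X := by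
    rw [hv, div_mul_div_comm, div_eq_iff (mul_ne_zero hξ0 hξ0)]
    linear_combination 4 * eu - 2 * X * esq
  -- the third vector
  have hthree : Y * (v + 1) ^ 2 = 9 * a * t := by
    subst euX eX
    field_simp at three
    have h1 : (ut * Y - uY * t) * (ut * Y - uY * t) = k * (t * Y * (t + Y)) := by linear_combination three
    have h2 : ut * Y - uY * t = Y * ξ * v * (1 + v) / (6 * a) := by
      rw [eq_div_iff (mul_ne_zero (by norm_num) ha)]
      linear_combination 6 * (t + Y) * two + 2 * Y * (ut + uY) * e3a - Y * hvξ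
        - Y * ξ * hv2 - 2 * (t + Y) * Y * hξ
    rw [h2, div_mul_div_comm, div_eq_iff (mul_ne_zero (mul_ne_zero (by norm_num) ha) (mul_ne_zero (by norm_num) ha))] at h1
    have h3 : k * a * Y * (t + Y) * 4 * (Y * (1 + v) ^ 2 - 9 * a * t) = 0 := by
      linear_combination h1 - Y * Y * v * v * (1 + v) ^ 2 * esq - 2 * k * a * Y * Y * (1 + v) ^ 2 * hv2
    rcases mul_eq_zero.1 h3 with h | h
    · exact absurd h (mul_ne_zero (mul_ne_zero (mul_ne_zero (mul_ne_zero hk.ne' ha) hY) hX) four_ne_zero)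
    · linear_combination h
  -- the fourth and eighth vectors
  set ε := -(uc * X - uX * c) / uX with hε
  have hεu : ε * uX = -(uc * X - uX * c) := div_mul_cancel₀ _ hu
  have hε2 : ε * ε * a = c * b := mul_left_cancel₀ (mul_ne_zero hk.ne' hX) (by
    linear_combination f1 - ε * ε * eu + (ε * uX - (uc * X - uX * c)) * hεu)
  have hwc : wc * X = wX * (c + ε) := mul_left_cancel₀
    (a := uc * X - uX * c) (fun e => mul_ne_zero (mul_ne_zero (mul_ne_zero hk.ne' hc) hX) hb (by
      rw [← f1, e]; ring)) (by linear_combination f2 + 2 * f1 - ((uc * X - uX * c) * ε) * ew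
        - 2 * (uc * X - uX * c) * hεu)
  have key : 4 * a * (ε * ε / c + 1 - (ε - 1) * (ε - 1) / (1 + c + Y)) = 3 * X := by
    have e1 : wc = wX * (c + ε) / X := by rw [eq_div_iff hX]; exact hwc
    have e2 : wY = wX * Y / X := by rw [eq_div_iff hX]; linear_combination eYX
    have hid : ∀ z : ℚ, (z * (c + ε) / X) * (z * (c + ε) / X) / c + (z * Y / X) * (z * Y / X) / Y -
        (z * (c + ε) / X + z * Y / X) * (z * (c + ε) / X + z * Y / X) / (1 + c + Y) =
        z * z * (ε * ε / c + 1 - (ε - 1) * (ε - 1) / (1 + c + Y)) / (X * X) := fun z => by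
      field_simp
      ring
    rw [e1, e2, hid, ew, div_eq_iff (mul_ne_zero hX hX)] at eight
    apply mul_left_cancel₀ (mul_ne_zero hk.ne' hX)
    linear_combination eight - 4 * (ε * ε / c + 1 - (ε - 1) * (ε - 1) / (1 + c + Y)) * eu
  set P := 1 + c with hPdef
  have hY3 : 3 * Y = P + 2 * X := by
    rw [hPdef]; linear_combination 3 * eY + e3a - f3
  have ht3 : 3 * t = X - P := by linear_combination -3 * eX - hY3
  have hT : 36 * ε * a = X ^ 2 + 4 * P * X - 12 * c - 2 * P ^ 2 := by
    have key' : 4 * a * (ε * ε * (1 + c + Y) + c * (1 + c + Y) - c * ((ε - 1) * (ε - 1))) = 3 * X * c * (1 + c + Y) := by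
      rw [← key]; field_simp; rw [hPdef]; ring
    have hΦ : 8 * a * ε - 3 * X * (1 + c + Y) + 4 * (1 + c + Y) * (a + b) - 4 * c * b - 4 * a = 0 :=
      mul_left_cancel₀ hc (by linear_combination key' - 4 * (1 + Y) * hε2)
    have va : a = (1 + X) / 3 := by linear_combination e3a / 3
    have vb : b = (c + X) / 3 := by linear_combination -f3 / 3
    have vY : Y = (1 + c + 2 * X) / 3 := by linear_combination hY3 / 3 + hPdef / 3
    rw [va, vb, vY] at hΦ
    rw [va, hPdef]
    linear_combination (9 / 2) * hΦ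
  have hT2 : (X ^ 2 + 4 * P * X - 12 * c - 2 * P ^ 2) ^ 2 = 144 * c * (1 + X) * (c + X) := by
    rw [← hT, f3, ← e3a]; linear_combination 1296 * a * hε2
  obtain ⟨zX, hzX⟩ := hint
  obtain ⟨w, hw⟩ := exists_int_of_sq (w := v) (z := 2 * zX) (by rw [hv2, hzX]; push_cast; rfl)
  have hXw : X = (w : ℚ) ^ 2 / 2 := by rw [hw] at hv2; linear_combination -hv2 / 2
  have hD0 : (10 : ℚ) * (w : ℚ) ^ 2 + 8 * w + 16 ≠ 0 := (disc_pos (w : ℚ)).ne'
  have hPw : P * (10 * (w : ℚ) ^ 2 + 8 * w + 16) = (w : ℚ) ^ 2 * (2 - 8 * w - (w : ℚ) ^ 2) := by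
    rw [hw] at hthree
    rw [hXw] at hY3 e3a ht3
    linear_combination 12 * hthree - 4 * ((w : ℚ) + 1) ^ 2 * hY3 + 36 * t * e3a + 6 * (2 + (w : ℚ) ^ 2) * ht3
  have hw0 : w ≠ 0 := fun e => hX (by rw [hXw, e]; norm_num)
  have hg : g w = 0 := by
    have hcP : c = P - 1 := by rw [hPdef]; ring
    rw [hcP, hXw] at hT2
    have hsub : ∀ X D N : ℚ, P * D = N → (X ^ 2 + 4 * P * X - 12 * (P - 1) - 2 * P ^ 2) ^ 2 =
        144 * (P - 1) * (1 + X) * (P - 1 + X) → (X ^ 2 * D ^ 2 + 4 * N * X * D - 12 * (N - D) * D - 2 * N ^ 2) ^ 2 =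
        144 * (N - D) * (1 + X) * (N - D + X * D) * D ^ 2 := by
      intro X D N h h'
      rw [← h]
      linear_combination D ^ 4 * h'
    have hD4 := hsub _ _ _ hPw hT2
    have h9 : (9 : ℚ) * (w : ℚ) ^ 4 * (g w : ℤ) = 0 := by
      simp only [g]
      push_cast
      linear_combination hD4
    rcases mul_eq_zero.1 h9 with h | h
    · exact absurd h (mul_ne_zero (by norm_num) (pow_ne_zero _ (Int.cast_ne_zero.2 hw0)))
    · exact_mod_cast h
  obtain rfl := g_eq_zero hg
  push_cast at hXw hPw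
  exact finish hXw hPw ht3

/-- The other configuration does not occur. -/
theorem caseB {k a ua wa t ut wt Y uY wY X uX wX : ℚ} (h : Data k a ua wa t ut wt Y uY wY X uX wX)
    {q uq wq : ℚ} (eq' : 2 * q = 1 + Y - 2 * X) (ewq : 2 * wq = wY - 2 * wX) (hq : q ≠ 0)
    (mix : 2 * (wX * wX / X) + 2 * (wq * wq / q) - wY * wY / Y = -k / 2)
    (hint : ∃ z : ℤ, 2 * X - Y = z) : False := by
  obtain ⟨e3a, eu, ew, -, hu, -, hXpos, eYX⟩ := h.core
  obtain ⟨hk, ha, -, hY, hX, -, -, -, -, -, -, -, -, -, -, -, -, -, -⟩ := h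
  set D := 2 * X - Y with hD
  have hD1 : 1 - D ≠ 0 := fun e => hq (by linear_combination eq' / 2 + e / 2 + hD / 2)
  have e1 : wY = 2 * uX * Y / X := by rw [eq_div_iff hX]; linear_combination eYX + Y * ew
  have e2 : wq = -(uX * D) / X := by
    rw [eq_div_iff hX, hD]; linear_combination X * ewq / 2 + eYX / 2 + (Y / 2 - X) * ew
  have e3 : q = (1 - D) / 2 := by rw [hD]; linear_combination eq' / 2
  have vY : Y = 2 * X - D := by rw [hD]; ring
  rw [e1, e2, e3, ew] at mix
  have mix' : 4 * uX * uX * D / (X * X * (1 - D)) = -k / 2 := by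
    have hY' : 2 * X - D ≠ 0 := vY ▸ hY
    rw [← mix, vY]
    field_simp
    ring
  rw [div_eq_iff (mul_ne_zero (mul_ne_zero hX hX) hD1)] at mix'
  have key : D * (5 * X + 8) = -3 * X := by
    refine mul_left_cancel₀ (mul_ne_zero hk.ne' hX) ?_
    linear_combination 6 * mix' - 24 * D * eu - 8 * k * X * D * e3a
  obtain ⟨z, hz⟩ := hint
  rw [hz] at key
  have h1 : (z : ℚ) < 0 := by nlinarith
  have h2 : (-1 : ℚ) < z := by nlinarith
  have h1' : z < 0 := by exact_mod_cast h1
  have h2' : -1 < z := by exact_mod_cast h2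
  omega

end Cfsg.Agent.LAE62.NineBig.Algebra
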