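import Cfsg.Agent.LAE62.Nine.Model
import Mathlib.GroupTheory.SemidirectProduct
import Mathlib.Data.Sym.Card

/-!
The group of order 648 permuting three blocks of three points, and some functions on it.
-/

set_option autoImplicit false

namespace Cfsg.Agent.LAE62.NineBig

open Cfsg DihedralGroup Nine

/-- Triples of elements of the group of order six. -/
abbrev N3 := D3 × D3 × D3

/-- The components of a triple. -/
def get (n : N3) : ZMod 3 → D3
  | 0 => n.1
  | 1 => n.2.1
  | 2 => n.2.2

/-- A triple from its components. -/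
def mk (f : ZMod 3 → D3) : N3 := (f 0, f 1, f 2)

theorem get_mk (f : ZMod 3 → D3) (k : ZMod 3) : get (mk f) k = f k := by
  fin_cases k <;> rfl

theorem mk_get (n : N3) : mk (get n) = n := rfl

theorem get_mul (a b : N3) (k : ZMod 3) : get (a * b) k = get a k * get b k := by
  fin_cases k <;> rfl

/-- Permutation of the components. -/
def blockAut (p : D3) : MulAut N3 where
  toFun n := mk fun k => get n ((actHom p).symm k)
  invFun n := mk fun k => get n (actHom p k)
  left_inv n := by
    simp only [get_mk, Equiv.symm_apply_apply]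
    exact mk_get n
  right_inv n := by
    simp only [get_mk, Equiv.apply_symm_apply]
    exact mk_get n
  map_mul' a b := by
    simp only [get_mul]
    rfl

/-- Permutation of the components, as a homomorphism. -/
def blockHom : D3 →* MulAut N3 where
  toFun := blockAut
  map_one' := MulEquiv.ext fun n => by
    show mk (fun k => get n ((actHom 1).symm k)) = n
    rw [map_one]
    exact mk_get n
  map_mul' p q := MulEquiv.ext fun n => by
    show mk (fun k => get n ((actHom (p * q)).symm k)) =
      mk fun k => get (mk fun l => get n ((actHom q).symm l)) ((actHom p).symm k)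
    simp only [map_mul, get_mk]
    rfl

/-- The wreath product. -/
abbrev Wr := N3 ⋊[blockHom] D3

instance instFintypeWr : Fintype Wr := Fintype.ofEquiv (N3 × D3) SemidirectProduct.equivProd.symm

/-- The parity of a permutation. -/
def parity2 : Wr →* ℤˣ where
  toFun g := Nine.parity g.left * sgnHom g.right
  map_one' := by rw [SemidirectProduct.one_left, SemidirectProduct.one_right, map_one, map_one, one_mul]
  map_mul' a b := by
    have key : ∀ (p : D3) (n : N3), Nine.parity (blockHom p n) = Nine.parity n := by decide +kernel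
    rw [SemidirectProduct.mul_left, SemidirectProduct.mul_right, map_mul, map_mul, key]
    exact mul_mul_mul_comm _ _ _ _

/-- The even elements. -/
abbrev M2 : Subgroup Wr := parity2.ker

instance instDecidablePredMemM2 : DecidablePred (· ∈ M2) :=
  fun x => decidable_of_iff (parity2 x = 1) MonoidHom.mem_ker.symm

/-- The blocks' permutation. -/
def blk : M2 →* D3 := SemidirectProduct.rightHom.comp M2.subtype

/-- The component at a block. -/
def comp (x : M2) (k : ZMod 3) : D3 := get (x : Wr).left k

/-- The action on nine points. -/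
def pt (x : M2) (v : ZMod 3 × ZMod 3) : ZMod 3 × ZMod 3 :=
  (actHom (blk x) v.1, actHom (comp x (actHom (blk x) v.1)) v.2)

theorem pt_one (v : ZMod 3 × ZMod 3) : pt 1 v = v := by revert v; decide +kernel

theorem comp_mul (x y : M2) (k : ZMod 3) : comp (x * y) k = comp x k * comp y ((actHom (blk x)).symm k) := by
  show get ((x : Wr) * (y : Wr)).left k = _
  rw [SemidirectProduct.mul_left, get_mul]
  congr 1
  exact get_mk _ k

theorem pt_mul (x y : M2) (v : ZMod 3 × ZMod 3) : pt (x * y) v = pt x (pt y v) := by
  simp only [pt, map_mul, comp_mul, Equiv.Perm.coe_mul, Function.comp_apply, Equiv.symm_apply_apply]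

instance instMulActionPoints : MulAction M2 (ZMod 3 × ZMod 3) where
  smul := pt
  one_smul := pt_one
  mul_smul := pt_mul

/-- The action on signed blocks. -/
def sgnPt (x : M2) (v : ZMod 3 × ℤˣ) : ZMod 3 × ℤˣ :=
  (actHom (blk x) v.1, sgn (comp x (actHom (blk x) v.1)) * v.2)

theorem sgn_mul (a b : D3) : sgn (a * b) = sgn a * sgn b := sgnHom.map_mul a b

theorem sgnPt_one (v : ZMod 3 × ℤˣ) : sgnPt 1 v = v := by revert v; decide +kernel

theorem sgnPt_mul (x y : M2) (v : ZMod 3 × ℤˣ) : sgnPt (x * y) v = sgnPt x (sgnPt y v) := by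
  simp only [sgnPt, map_mul, comp_mul, Equiv.Perm.coe_mul, Function.comp_apply, Equiv.symm_apply_apply, sgn_mul,
    mul_assoc]

instance instMulActionSigned : MulAction M2 (ZMod 3 × ℤˣ) where
  smul := sgnPt
  one_smul := sgnPt_one
  mul_smul := sgnPt_mul

/-- The components of a transversal. -/
def sel (f : ZMod 3 × ZMod 3 × ZMod 3) : ZMod 3 → ZMod 3
  | 0 => f.1
  | 1 => f.2.1
  | 2 => f.2.2

theorem sel_mk (h : ZMod 3 → ZMod 3) (k : ZMod 3) : sel (h 0, h 1, h 2) k = h k := by
  fin_cases k <;> rfl

/-- The action on transversals of the blocks. -/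
def trPt (x : M2) (f : ZMod 3 × ZMod 3 × ZMod 3) : ZMod 3 × ZMod 3 × ZMod 3 :=
  let h : ZMod 3 → ZMod 3 := fun k => actHom (comp x k) (sel f ((actHom (blk x)).symm k))
  (h 0, h 1, h 2)

theorem trPt_one (f : ZMod 3 × ZMod 3 × ZMod 3) : trPt 1 f = f := by revert f; decide +kernel

theorem trPt_mul (x y : M2) (f : ZMod 3 × ZMod 3 × ZMod 3) : trPt (x * y) f = trPt x (trPt y f) := by
  set h : ZMod 3 → ZMod 3 := fun k => actHom (comp y k) (sel f ((actHom (blk y)).symm k)) with hh
  have e : ∀ k, sel (trPt y f) k = h k := fun k => sel_mk h k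
  have e' : ∀ k, actHom (comp (x * y) k) (sel f ((actHom (blk (x * y))).symm k)) =
      actHom (comp x k) (sel (trPt y f) ((actHom (blk x)).symm k)) := fun k => by
    rw [e, hh, comp_mul, map_mul blk, map_mul actHom, map_mul actHom]
    rfl
  show (_, _, _) = (_, _, _)
  exact Prod.ext (e' 0) (Prod.ext (e' 1) (e' 2))

instance instMulActionTransversals : MulAction M2 (ZMod 3 × ZMod 3 × ZMod 3) where
  smul := trPt
  one_smul := trPt_one
  mul_smul := trPt_mul

theorem pt_fst_eq (x : M2) (v w : ZMod 3 × ZMod 3) : (pt x v).1 = (pt x w).1 ↔ v.1 = w.1 :=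
  (actHom (blk x)).injective.eq_iff

/-- Pairs of points in different blocks. -/
abbrev Pairs := {z : Sym2 (ZMod 3 × ZMod 3) // ¬ (z.map Prod.fst).IsDiag}

theorem pair_mem (x : M2) (z : Pairs) : ¬ ((z.1.map (pt x)).map Prod.fst).IsDiag := by
  obtain ⟨z, hz⟩ := z
  induction z using Sym2.ind with | _ a b =>
  rw [Sym2.map_mk, Sym2.map_mk, Sym2.mk_isDiag_iff] at *
  exact fun h => hz ((pt_fst_eq x a b).1 h)

instance instMulActionPairs : MulAction M2 Pairs where
  smul x z := ⟨z.1.map (pt x), pair_mem x z⟩
  one_smul z := Subtype.ext (by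
    show z.1.map (pt 1) = z.1
    rw [show pt 1 = id from funext pt_one, Sym2.map_id]
    rfl)
  mul_smul x y z := Subtype.ext (by
    show z.1.map (pt (x * y)) = (z.1.map (pt y)).map (pt x)
    rw [Sym2.map_map]
    exact congrArg (fun f => Sym2.map f z.1) (funext fun v => pt_mul x y v))

/-- Sum over the blocks fixed by `x`. -/
def sumFix (x : M2) (f : ZMod 3 → ℤ) : ℤ :=
  (if actHom (blk x) 0 = 0 then f 0 else 0) + (if actHom (blk x) 1 = 1 then f 1 else 0) +
    (if actHom (blk x) 2 = 2 then f 2 else 0)

/-- The ten rational irreducible characters (indices as in the tables). -/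
def tab : Fin 10 → M2 → ℤ
  | 0, _ => 1
  | 1, x => dchar 1 (blk x)
  | 2, x => dchar 2 (blk x)
  | 3, x => dchar 1 (blk x) * sumFix x fun k => dchar 1 (comp x k)
  | 4, x => sumFix x fun k => dchar 1 (comp x k)
  | 5, x => sumFix x fun k => dchar 2 (comp x k)
  | 6, x => dchar 1 (blk x) * sumFix x fun k => dchar 2 (comp x k)
  | 7, x => sumFix x fun k => if blk x = 1 then dchar 2 (comp x (k + 1)) * dchar 2 (comp x (k + 2))
      else dchar 2 (comp x (k + 1) * comp x (k + 2))
  | 8, x => dchar 1 (blk x) * sumFix x fun k => if blk x = 1 then dchar 2 (comp x (k + 1)) * dchar 2 (comp x (k + 2))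
      else dchar 2 (comp x (k + 1) * comp x (k + 2))
  | 9, x =>
      if blk x = 1 then dchar 2 (comp x 0) * dchar 2 (comp x 1) * dchar 2 (comp x 2)
      else if blk x = r 1 then dchar 2 (comp x 2 * comp x 1 * comp x 0)
      else if blk x = r 2 then dchar 2 (comp x 0 * comp x 1 * comp x 2)
      else sumFix x fun k => dchar 2 (comp x k) * dchar 2 (comp x (k + 1) * comp x (k + 2))

/-- The two sums of two remaining characters. -/
def pairTab : Fin 2 → M2 → ℤ
  | 0, x => (tab 4 x - 1) * tab 5 x
  | 1, x => tab 9 x * tab 2 x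

/-- The number of fixed points. -/
def nfix (X : Type) [Fintype X] [DecidableEq X] [MulAction M2 X] (x : M2) : ℤ :=
  ((Finset.univ.filter fun v : X => x • v = v).card : ℕ)

set_option maxHeartbeats 2000000 in
theorem nfix_points : ∀ x : M2, nfix (ZMod 3 × ZMod 3) x = 1 + tab 2 x + tab 5 x := by decide +kernel

set_option maxHeartbeats 2000000 in
theorem nfix_signed : ∀ x : M2, nfix (ZMod 3 × ℤˣ) x = 1 + tab 2 x + tab 4 x := by decide +kernel

set_option maxHeartbeats 2000000 in
theorem nfix_transversals : ∀ x : M2, nfix (ZMod 3 × ZMod 3 × ZMod 3) x = 1 + tab 5 x + tab 7 x + tab 9 x := by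
  decide +kernel

set_option maxHeartbeats 2000000 in
theorem nfix_pairs : ∀ x : M2, nfix Pairs x = 1 + tab 2 x + tab 5 x + tab 6 x + tab 7 x := by decide +kernel

theorem card_M2 : Fintype.card M2 = 648 := by decide +kernel

theorem tab_one : ∀ t : Fin 10, tab t 1 = ![1, 1, 2, 3, 3, 6, 6, 12, 12, 8] t := by decide +kernel

set_option maxHeartbeats 2000000 in
theorem tab_norm : ∀ t : Fin 10, ∑ x : M2, tab t x * tab t x = 648 := by decide +kernel

set_option maxHeartbeats 2000000 in
theorem pairTab_norm : ∀ s : Fin 2, ∑ x : M2, pairTab s x * pairTab s x = 1296 := by decide +kernel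

set_option maxHeartbeats 2000000 in
theorem pairTab_orth : ∀ (s : Fin 2) (t : Fin 10), ∑ x : M2, pairTab s x * tab t x = 0 := by decide +kernel

set_option maxHeartbeats 2000000 in
theorem pairTab_orth_pair : ∑ x : M2, pairTab 0 x * pairTab 1 x = 0 := by decide +kernel

theorem tab_injective : ∀ t t' : Fin 10, t ≠ t' → ∃ x : M2, tab t x ≠ tab t' x := by decide +kernel

end Cfsg.Agent.LAE62.NineBig
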