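import Cfsg.Agent.LAE62.NineBig.Basic
import Cfsg.Agent.Char.PermChar
import Cfsg.Agent.Char.Kernel

/-!
The character table of the group of order 648, as far as needed.
-/

set_option autoImplicit false
set_option linter.style.haveILetI false

namespace Cfsg.Agent.LAE62.NineBig

open Cfsg DihedralGroup Nine

/-- Representatives of the classes of elements whose order is prime to three, and one of order three. -/
def regEl : Fin 5 → M2 :=
  ![1, ⟨⟨(r 0, sr 0, sr 0), r 0⟩, by decide +kernel⟩, ⟨⟨(1, 1, sr 0), sr 0⟩, by decide +kernel⟩,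
    ⟨⟨(sr 0, 1, 1), sr 0⟩, by decide +kernel⟩, ⟨⟨1, r 1⟩, by decide +kernel⟩]

/-- The values at `regEl`. -/
def regTab : Fin 14 → Fin 5 → ℤ :=
  ![![1, 1, 1, 1, 1], ![1, 1, -1, -1, 1], ![2, 2, 0, 0, -1], ![3, -1, -1, 1, 0], ![3, -1, 1, -1, 0],
    ![6, 2, 2, 0, 0], ![6, 2, -2, 0, 0], ![6, -2, 0, 0, 0], ![6, -2, 0, 0, 0], ![12, 0, 0, 2, 0],
    ![12, 0, 0, -2, 0], ![8, 0, 0, 0, 2], ![8, 0, 0, 0, -1], ![8, 0, 0, 0, -1]]

/-- The positions of the rational characters. -/
def ratIdx : Fin 10 → Fin 14 := ![0, 1, 2, 3, 4, 5, 6, 9, 10, 11]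

/-- The first member of a pair. -/
def pairFst : Fin 2 → Fin 14 := ![7, 12]

/-- The second member of a pair. -/
def pairSnd : Fin 2 → Fin 14 := ![8, 13]

theorem tab_regEl : ∀ (t : Fin 10) (j : Fin 5), tab t (regEl j) = regTab (ratIdx t) j := by decide +kernel

theorem pairTab_regEl : ∀ (s : Fin 2) (j : Fin 5),
    pairTab s (regEl j) = regTab (pairFst s) j + regTab (pairSnd s) j := by decide +kernel

theorem pairTab_inner_five : ∑ x : M2, (tab 4 x * tab 5 x) * tab 5 x = 648 := by decide +kernel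

theorem tab_orth : ∀ t t' : Fin 10, t ≠ t' → ∑ x : M2, tab t x * tab t' x = 0 := by decide +kernel

/-- A function with values in `ℂ` from one with values in `ℤ`. -/
def cast' (a : M2 → ℤ) : M2 → ℂ := fun x => (a x : ℂ)

theorem classInner_cast {K : Type*} [Group K] [Fintype K] (a b : K → ℤ) :
    classInner (fun x => (a x : ℂ)) (fun x => (b x : ℂ)) = ((∑ x : K, a x * b x : ℤ) : ℂ) / (Fintype.card K : ℕ) := by
  rw [classInner, Nat.card_eq_fintype_card, div_eq_inv_mul, Int.cast_sum]
  congr 1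
  exact Finset.sum_congr rfl fun x _ => by simp only [map_intCast, Int.cast_mul]

theorem classInner_int (a b : M2 → ℤ) : classInner (cast' a) (cast' b) = ((∑ x : M2, a x * b x : ℤ) : ℂ) / 648 := by
  show classInner (fun x => (a x : ℂ)) (fun x => (b x : ℂ)) = _
  rw [classInner_cast, card_M2, Nat.cast_ofNat]

theorem isCharacter_nfix (X : Type) [Fintype X] [DecidableEq X] [MulAction M2 X] :
    IsCharacter M2 (cast' (nfix X)) := by
  classical
  have h := Char.isCharacter_permChar (G := M2) X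
  convert h using 1
  funext x
  simp only [cast', nfix, Char.permChar, Int.cast_natCast]
  rw [Nat.card_eq_fintype_card]
  congr 1
  exact (Fintype.card_ofFinset _ (fun v => by simp [MulAction.mem_fixedBy])).symm.trans
    (Fintype.card_congr (Equiv.refl _))

theorem isCharacter_blk (i : Fin 3) : IsCharacter M2 (cast' fun x => dchar i (blk x)) :=
  Char.isCharacter_comp (Nine.isCharacter_dchar i) blk

theorem isGen_tab : ∀ t : Fin 10, IsGeneralizedCharacter M2 (cast' (tab t)) := by
  have G1 : ∀ i, IsGeneralizedCharacter M2 (cast' fun x => dchar i (blk x)) := fun i =>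
    Char.isGeneralizedCharacter_of_isCharacter (isCharacter_blk i)
  have h0 : IsGeneralizedCharacter M2 (cast' (tab 0)) := by
    have := G1 0
    exact this
  have h1 : IsGeneralizedCharacter M2 (cast' (tab 1)) := G1 1
  have h2 : IsGeneralizedCharacter M2 (cast' (tab 2)) := G1 2
  have P : ∀ (X : Type) [Fintype X] [DecidableEq X] [MulAction M2 X],
      IsGeneralizedCharacter M2 (cast' (nfix X)) := fun X => by
    intros
    exact Char.isGeneralizedCharacter_of_isCharacter (isCharacter_nfix X)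
  have hmul : ∀ a : Fin 10, IsGeneralizedCharacter M2 (cast' (tab a)) →
      IsGeneralizedCharacter M2 (cast' fun x => tab 1 x * tab a x) := fun a ha => by
    have := Char.isGeneralizedCharacter_mul h1 ha
    convert this using 1
    funext x
    simp [cast']
  have h4 : IsGeneralizedCharacter M2 (cast' (tab 4)) := by
    have := Char.isGeneralizedCharacter_sub (Char.isGeneralizedCharacter_sub (P (ZMod 3 × ℤˣ)) h0) h2
    convert this using 1
    funext x
    simp only [Pi.sub_apply, cast', nfix_signed x, tab]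
    push_cast
    ring
  have h5 : IsGeneralizedCharacter M2 (cast' (tab 5)) := by
    have := Char.isGeneralizedCharacter_sub (Char.isGeneralizedCharacter_sub (P (ZMod 3 × ZMod 3)) h0) h2
    convert this using 1
    funext x
    simp only [Pi.sub_apply, cast', nfix_points x, tab]
    push_cast
    ring
  have h6 : IsGeneralizedCharacter M2 (cast' (tab 6)) := hmul 5 h5
  have h7 : IsGeneralizedCharacter M2 (cast' (tab 7)) := by
    have := Char.isGeneralizedCharacter_sub (Char.isGeneralizedCharacter_sub (Char.isGeneralizedCharacter_sub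
      (Char.isGeneralizedCharacter_sub (P Pairs) h0) h2) h5) h6
    convert this using 1
    funext x
    simp only [Pi.sub_apply, cast', nfix_pairs x, show tab 0 x = 1 from rfl]
    push_cast
    ring
  have h9 : IsGeneralizedCharacter M2 (cast' (tab 9)) := by
    have := Char.isGeneralizedCharacter_sub (Char.isGeneralizedCharacter_sub (Char.isGeneralizedCharacter_sub
      (P (ZMod 3 × ZMod 3 × ZMod 3)) h0) h5) h7
    convert this using 1
    funext x
    simp only [Pi.sub_apply, cast', nfix_transversals x, show tab 0 x = 1 from rfl]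
    push_cast
    ring
  intro t
  fin_cases t
  exacts [h0, h1, h2, hmul 4 h4, h4, h5, h6, h7, hmul 7 h7, h9]

/-- The rational irreducible characters. -/
theorem isIrr_tab (t : Fin 10) : IsIrrCharacter M2 (cast' (tab t)) := by
  rcases Char.generalized_norm_one (isGen_tab t) (by rw [classInner_int, tab_norm]; norm_num) with h | h
  · exact h
  · exfalso
    obtain ⟨n, hn, hn'⟩ := Char.irr_one_pos h
    simp only [Pi.neg_apply, cast', tab_one] at hn'
    have h' : -(![1, 1, 2, 3, 3, 6, 6, 12, 12, 8] t : ℤ) = (n : ℤ) := by exact_mod_cast hn'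
    fin_cases t <;> simp at h' <;> omega

/-- The rational irreducible characters. -/
noncomputable def ratIrr (t : Fin 10) : IrrCharacter M2 := ⟨cast' (tab t), isIrr_tab t⟩

theorem isCharacter_pairTab : ∀ s : Fin 2, IsCharacter M2 (cast' (pairTab s)) := by
  have hmul : ∀ a b : Fin 10, IsCharacter M2 (cast' fun x => tab a x * tab b x) := fun a b => by
    have h := Char.isCharacter_mul (Char.isCharacter_of_irr (isIrr_tab a)) (Char.isCharacter_of_irr (isIrr_tab b))
    convert h using 1
    funext x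
    simp [cast']
  intro s
  fin_cases s
  · have h := Char.isCharacter_sub_constituent (hmul 4 5) (ψ := ratIrr 5) Nat.one_pos (by
      show classInner (cast' fun x => tab 4 x * tab 5 x) (cast' (tab 5)) = _
      rw [classInner_int, pairTab_inner_five]; norm_num)
    convert h using 1
    funext x
    simp only [Pi.sub_apply, cast', ratIrr]
    show ((pairTab 0 x : ℤ) : ℂ) = _
    simp only [pairTab]
    push_cast
    ring
  · exact hmul 9 2

theorem exists_pair (s : Fin 2) : ∃ ξ ξ' : IrrCharacter M2, ξ ≠ ξ' ∧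
    classInner (cast' (pairTab s)) (ξ : M2 → ℂ) = 1 ∧ classInner (cast' (pairTab s)) (ξ' : M2 → ℂ) = 1 ∧
    cast' (pairTab s) = (ξ : M2 → ℂ) + (ξ' : M2 → ℂ) := by
  classical
  obtain ⟨n, hn, hn'⟩ := Char.isCharacter_exists_coeff (isCharacter_pairTab s)
  have hW : classInner (cast' (pairTab s)) (cast' (pairTab s)) = 2 := by
    rw [classInner_int, pairTab_norm]; norm_num
  rw [Char.classInner_eq_sum_mul_conj (Char.isCharacter_isClassFunction (isCharacter_pairTab s))] at hW
  simp only [hn', map_natCast] at hW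
  have hsum : ∑ ψ, n ψ * n ψ = 2 := by exact_mod_cast hW
  have hle : ∀ ψ, n ψ ≤ 1 := fun ψ => by
    have h := Finset.single_le_sum (fun φ _ => Nat.zero_le (n φ * n φ)) (Finset.mem_univ ψ)
    rw [hsum] at h
    nlinarith
  have hcard : (Finset.univ.filter fun ψ => n ψ = 1).card = 2 := by
    rw [Finset.card_filter]
    refine (Finset.sum_congr rfl fun ψ _ => ?_).trans hsum
    rcases Nat.le_one_iff_eq_zero_or_eq_one.1 (hle ψ) with h | h <;> simp [h]
  obtain ⟨ξ, ξ', hne, hS⟩ := Finset.card_eq_two.1 hcard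
  have hmem : ∀ ψ, n ψ = 1 ↔ ψ = ξ ∨ ψ = ξ' := fun ψ => by
    have : ψ ∈ Finset.univ.filter (fun φ => n φ = 1) ↔ ψ ∈ ({ξ, ξ'} : Finset _) := by rw [hS]
    simpa using this
  refine ⟨ξ, ξ', hne, by rw [hn', (hmem ξ).2 (Or.inl rfl)]; simp, by rw [hn', (hmem ξ').2 (Or.inr rfl)]; simp, ?_⟩
  rw [hn, ← Finset.sum_subset (Finset.subset_univ {ξ, ξ'}) (fun ψ _ hψ => by
    have h0 : n ψ = 0 := by
      rcases Nat.le_one_iff_eq_zero_or_eq_one.1 (hle ψ) with h | h
      · exact h
      · exact absurd ((hmem ψ).1 h) (by simpa using hψ)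
    simp [h0]), Finset.sum_pair hne, (hmem ξ).2 (Or.inl rfl), (hmem ξ').2 (Or.inr rfl), one_smul, one_smul]

theorem card_centralizer_regEl : ∀ j : Fin 5, j ≠ 0 →
    (Finset.univ.filter fun g : M2 => g * regEl j = regEl j * g).card = ![648, 24, 12, 12, 9] j := by decide +kernel

set_option maxHeartbeats 1600000 in
/-- The character table, as far as needed. -/
theorem exists_table : ∃ R : Fin 14 → IrrCharacter M2, Function.Bijective R ∧
    (∀ (t : Fin 10) (x : M2), (R (ratIdx t) : M2 → ℂ) x = tab t x) ∧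
    (∀ (s : Fin 2) (x : M2), (R (pairFst s) : M2 → ℂ) x + (R (pairSnd s) : M2 → ℂ) x = pairTab s x) ∧
    ∀ (t : Fin 14) (j : Fin 5), (R t : M2 → ℂ) (regEl j) = regTab t j := by
  classical
  choose ξ ξ' hne hξ hξ' hW using exists_pair
  let R : Fin 14 → IrrCharacter M2 := ![ratIrr 0, ratIrr 1, ratIrr 2, ratIrr 3, ratIrr 4, ratIrr 5, ratIrr 6,
    ξ 0, ξ' 0, ratIrr 7, ratIrr 8, ratIrr 9, ξ 1, ξ' 1]
  have hR0 : ∀ t : Fin 10, R (ratIdx t) = ratIrr t := fun t => by fin_cases t <;> rfl
  have hR1 : ∀ s : Fin 2, R (pairFst s) = ξ s ∧ R (pairSnd s) = ξ' s := fun s => by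
    fin_cases s <;> exact ⟨rfl, rfl⟩
  have hval : ∀ (s : Fin 2) (x : M2), (ξ s : M2 → ℂ) x + (ξ' s : M2 → ℂ) x = pairTab s x := fun s x =>
    (congrFun (hW s) x).symm
  have hrat : ∀ s t, classInner (cast' (pairTab s)) (ratIrr t : M2 → ℂ) = 0 := fun s t => by
    show classInner (cast' (pairTab s)) (cast' (tab t)) = 0
    rw [classInner_int, pairTab_orth]; norm_num
  have hcross : classInner (cast' (pairTab 1)) (ξ 0 : M2 → ℂ) = 0 ∧
      classInner (cast' (pairTab 1)) (ξ' 0 : M2 → ℂ) = 0 := by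
    have h : classInner (cast' (pairTab 1)) (cast' (pairTab 0)) = 0 := by
      rw [classInner_int, show (∑ x, pairTab 1 x * pairTab 0 x) = ∑ x, pairTab 0 x * pairTab 1 x from
        Finset.sum_congr rfl fun x _ => mul_comm _ _, pairTab_orth_pair]
      norm_num
    rw [hW 0, Char.classInner_add_right] at h
    obtain ⟨a, ha⟩ := Char.isCharacter_classInner_nat (isCharacter_pairTab 1) (ξ 0)
    obtain ⟨b, hb⟩ := Char.isCharacter_classInner_nat (isCharacter_pairTab 1) (ξ' 0)
    rw [ha, hb] at h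
    have h' : a + b = 0 := by exact_mod_cast h
    constructor
    · rw [ha]; exact_mod_cast (by omega : a = 0)
    · rw [hb]; exact_mod_cast (by omega : b = 0)
  -- the multiplicities in the two sums separate the new characters from the others
  have hinj : Function.Injective R := by
    let sig : IrrCharacter M2 → ℂ × ℂ := fun ψ =>
      (classInner (cast' (pairTab 0)) (ψ : M2 → ℂ), classInner (cast' (pairTab 1)) (ψ : M2 → ℂ))
    let kind : Fin 14 → Fin 3 := ![0, 0, 0, 0, 0, 0, 0, 1, 1, 0, 0, 0, 2, 2]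
    let dec : ℂ × ℂ → Fin 3 := fun p => if p.2 = 1 then 2 else if p.1 = 1 then 1 else 0
    have hsig : ∀ a, kind a = dec (sig (R a)) := by
      intro a
      fin_cases a <;> simp [kind, dec, sig, R, hrat, hξ, hξ', hcross]
    have hkind : ∀ a b, R a = R b → kind a = kind b := fun a b e => by rw [hsig a, hsig b, e]
    have hsame : ∀ t t' : Fin 10, ratIrr t = ratIrr t' → t = t' := fun t t' e => by
      by_contra hne'
      obtain ⟨x, hx⟩ := tab_injective t t' hne'
      exact hx (Int.cast_injective (α := ℂ) (congrFun (congrArg Subtype.val e) x))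
    have hcases : ∀ a : Fin 14, (∃ t, a = ratIdx t) ∨ a = 7 ∨ a = 8 ∨ a = 12 ∨ a = 13 := by decide
    intro a b e
    have hk := hkind a b e
    rcases hcases a with ⟨t, rfl⟩ | rfl | rfl | rfl | rfl <;>
      rcases hcases b with ⟨t', rfl⟩ | rfl | rfl | rfl | rfl
    all_goals first
      | rfl
      | exact congrArg ratIdx (hsame _ _ (by rwa [hR0, hR0] at e))
      | (exfalso; revert hk; first | decide | (fin_cases t <;> decide) | (fin_cases t' <;> decide))
      | exact absurd e (hne 0)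
      | exact absurd e.symm (hne 0)
      | exact absurd e (hne 1)
      | exact absurd e.symm (hne 1)
  have hall : ∀ F : Fin 14 → ℂ, ∑ t, F t = (∑ t : Fin 10, F (ratIdx t)) + ∑ s : Fin 2, (F (pairFst s) + F (pairSnd s)) := by
    intro F
    simp [Fin.sum_univ_succ, ratIdx, pairFst, pairSnd]
    ring
  -- degrees
  choose e he0 he using fun ψ : IrrCharacter M2 => Char.irr_one_pos ψ.2
  have hdd : ∀ s, (e (ξ s) : ℤ) + e (ξ' s) = ![12, 16] s := by
    intro s
    have h := hval s 1
    rw [he, he] at h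
    have h1 : pairTab s 1 = ![12, 16] s :=
      (show ∀ s : Fin 2, pairTab s 1 = ![12, 16] s by decide +kernel) s
    rw [h1] at h
    exact_mod_cast h
  have hdeg := Char.sum_irr_degree_sq (G := M2)
  rw [Nat.card_eq_fintype_card, card_M2, ← Finset.sum_sdiff (Finset.subset_univ (Finset.univ.image R)),
    Finset.sum_image fun a _ b _ e => hinj e, hall] at hdeg
  simp only [hR0, (hR1 _).1, (hR1 _).2, he] at hdeg
  have h10 : ∀ t : Fin 10, e (ratIrr t) = (![1, 1, 2, 3, 3, 6, 6, 12, 12, 8] t : ℕ) := fun t => by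
    have h := he (ratIrr t)
    rw [show (ratIrr t : M2 → ℂ) 1 = (tab t 1 : ℂ) from rfl, tab_one] at h
    have h' : (![1, 1, 2, 3, 3, 6, 6, 12, 12, 8] t : ℤ) = (e (ratIrr t) : ℤ) := by exact_mod_cast h
    fin_cases t <;> simp at h' ⊢ <;> omega
  simp only [h10] at hdeg
  have hdeg' : (∑ ψ ∈ Finset.univ \ Finset.univ.image R, e ψ ^ 2) +
      ((∑ t : Fin 10, (![1, 1, 2, 3, 3, 6, 6, 12, 12, 8] t : ℕ) ^ 2) + ∑ s : Fin 2, (e (ξ s) ^ 2 + e (ξ' s) ^ 2)) = 648 := by
    exact_mod_cast hdeg
  rw [show (∑ t : Fin 10, (![1, 1, 2, 3, 3, 6, 6, 12, 12, 8] t : ℕ) ^ 2) = 448 by decide, Fin.sum_univ_two] at hdeg'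
  have hd0 := hdd 0
  have hd1 := hdd 1
  simp at hd0 hd1
  have hrest : (∑ ψ ∈ Finset.univ \ Finset.univ.image R, e ψ ^ 2) = 0 ∧ e (ξ 0) = 6 ∧ e (ξ' 0) = 6 ∧
      e (ξ 1) = 8 ∧ e (ξ' 1) = 8 := by
    generalize (∑ ψ ∈ Finset.univ \ Finset.univ.image R, e ψ ^ 2) = X at hdeg' ⊢
    have hz : (X : ℤ) + (448 + ((e (ξ 0) : ℤ) ^ 2 + (e (ξ' 0) : ℤ) ^ 2 + ((e (ξ 1) : ℤ) ^ 2 + (e (ξ' 1) : ℤ) ^ 2))) = 648 := by
      exact_mod_cast hdeg'
    have s0 := sq_nonneg ((e (ξ 0) : ℤ) - e (ξ' 0))
    have s1 := sq_nonneg ((e (ξ 1) : ℤ) - e (ξ' 1))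
    have hX : (X : ℤ) = 0 := by nlinarith
    have e0 : ((e (ξ 0) : ℤ) - e (ξ' 0)) ^ 2 = 0 := by nlinarith
    have e1 : ((e (ξ 1) : ℤ) - e (ξ' 1)) ^ 2 = 0 := by nlinarith
    have f0 := pow_eq_zero_iff two_ne_zero |>.1 e0
    have f1 := pow_eq_zero_iff two_ne_zero |>.1 e1
    omega
  obtain ⟨hrest, q0, q0', q1, q1'⟩ := hrest
  have hsurj : Function.Surjective R := by
    intro ψ
    by_contra hψ
    have hψ' : ψ ∈ Finset.univ \ Finset.univ.image R := by simpa using fun t ht => hψ ⟨t, ht⟩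
    have := Finset.single_le_sum (fun φ _ => Nat.zero_le (e φ ^ 2)) hψ'
    rw [hrest] at this
    have := he0 ψ
    nlinarith
  -- values at the other representatives
  have hreg : ∀ (s : Fin 2) (j : Fin 5), (ξ s : M2 → ℂ) (regEl j) = regTab (pairFst s) j ∧
      (ξ' s : M2 → ℂ) (regEl j) = regTab (pairSnd s) j := by
    intro s j
    by_cases hj : j = 0
    · subst hj
      rw [show regEl 0 = 1 from rfl, he, he]
      fin_cases s <;> simp [pairFst, pairSnd, regTab, q0, q0', q1, q1']
    have h := Char.sum_irr_mul_conj (regEl j) (regEl j)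
    rw [if_pos (IsConj.refl _), ← Finset.sum_subset (Finset.subset_univ (Finset.univ.image R))
      (fun ψ _ hψ => absurd (by obtain ⟨t, rfl⟩ := hsurj ψ; simp) hψ),
      Finset.sum_image fun a _ b _ e => hinj e, hall] at h
    simp only [hR0, (hR1 _).1, (hR1 _).2, Complex.mul_conj] at h
    have hc : Nat.card (Subgroup.centralizer ({regEl j} : Set M2)) = ![648, 24, 12, 12, 9] j := by
      rw [← card_centralizer_regEl j hj, ← Nat.card_eq_finsetCard]
      exact Nat.card_congr (Equiv.subtypeEquivRight fun g => by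
        simp [Subgroup.mem_centralizer_singleton_iff])
    have hr : ∑ t : Fin 10, Complex.normSq ((ratIrr t : M2 → ℂ) (regEl j)) =
        ((![648, 16, 12, 12, 7] j : ℕ) : ℝ) := by
      show ∑ t : Fin 10, Complex.normSq (tab t (regEl j) : ℂ) = _
      have : ∀ j : Fin 5, j ≠ 0 → ∑ t : Fin 10, tab t (regEl j) * tab t (regEl j) = (![648, 16, 12, 12, 7] j : ℕ) := by
        decide +kernel
      simp only [Complex.normSq_intCast]
      exact_mod_cast this j hj
    rw [hc] at h
    simp only [← Complex.ofReal_sum, ← Complex.ofReal_add] at h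
    rw [← Complex.ofReal_natCast, Complex.ofReal_inj, hr, Fin.sum_univ_two] at h
    have par : ∀ a b : ℂ, Complex.normSq (a + b) + Complex.normSq (a - b) =
        2 * (Complex.normSq a + Complex.normSq b) := fun a b => by
      simp [Complex.normSq_apply]; ring
    have p0 := par ((ξ 0 : M2 → ℂ) (regEl j)) ((ξ' 0 : M2 → ℂ) (regEl j))
    have p1 := par ((ξ 1 : M2 → ℂ) (regEl j)) ((ξ' 1 : M2 → ℂ) (regEl j))
    rw [hval, pairTab_regEl, Complex.normSq_intCast] at p0 p1
    have a0 := Complex.normSq_nonneg ((ξ 0 : M2 → ℂ) (regEl j) - (ξ' 0 : M2 → ℂ) (regEl j))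
    have a1 := Complex.normSq_nonneg ((ξ 1 : M2 → ℂ) (regEl j) - (ξ' 1 : M2 → ℂ) (regEl j))
    have hdiff : Complex.normSq ((ξ s : M2 → ℂ) (regEl j) - (ξ' s : M2 → ℂ) (regEl j)) = 0 := by
      have hs : ∀ s : Fin 2, s = 0 ∨ s = 1 := by decide
      rcases (show ∀ j : Fin 5, j ≠ 0 → j = 1 ∨ j = 2 ∨ j = 3 ∨ j = 4 by decide) j hj with rfl | rfl | rfl | rfl <;>
        simp [pairFst, pairSnd, regTab] at h p0 p1 <;> rcases hs s with rfl | rfl <;> linarith
    have heq := sub_eq_zero.1 (Complex.normSq_eq_zero.1 hdiff)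
    have hv := hval s (regEl j)
    rw [← heq, pairTab_regEl] at hv
    have hsym : regTab (pairSnd s) j = regTab (pairFst s) j :=
      (show ∀ (s : Fin 2) (j : Fin 5), regTab (pairSnd s) j = regTab (pairFst s) j by decide) s j
    rw [hsym] at hv ⊢
    rw [← heq]
    push_cast at hv
    constructor <;> linear_combination hv / 2
  refine ⟨R, ⟨hinj, hsurj⟩, fun t x => by rw [hR0]; rfl, fun s x => by rw [(hR1 s).1, (hR1 s).2]; exact hval s x,
    fun t j => ?_⟩
  rcases (show ∀ a : Fin 14, (∃ t, a = ratIdx t) ∨ ∃ s, a = pairFst s ∨ a = pairSnd s by decide) t with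
    ⟨u, rfl⟩ | ⟨s, rfl | rfl⟩
  · rw [hR0, ← tab_regEl]; rfl
  · rw [(hR1 s).1]; exact (hreg s j).1
  · rw [(hR1 s).2]; exact (hreg s j).2

end Cfsg.Agent.LAE62.NineBig
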