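import Cfsg.Agent.LAE62.NineBig.Basic

/-!
The vectors supported on the exceptional elements, and sums over products of involutions.
-/

set_option autoImplicit false

namespace Cfsg.Agent.LAE62.NineBig

open Cfsg DihedralGroup Nine

/-- The nine vectors, newest first. -/
def vec : Fin 9 → Fin 14 → ℤ :=
  ![![1, 1, 0, 0, 0, 0, 0, 0, 1, 0, 0, -1, 0, 0], ![1, 0, 0, -1, 0, -1, 0, 0, 0, 0, 0, 0, 0, 1],
    ![1, 0, 0, 1, 0, 0, 0, 0, 0, -1, 0, 0, 0, 1], ![0, 1, 0, 0, -1, 0, -1, 0, 0, 0, 0, 0, 0, 1],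
    ![0, 1, 0, 0, 1, 0, 0, 0, 0, 0, -1, 0, 0, 1], ![0, 0, 1, 0, 0, 0, 0, 0, 1, 0, 0, 0, 0, -1],
    ![0, 0, 0, 1, 1, 0, 0, 0, -1, 0, 0, 0, 0, 0], ![0, 0, 0, 0, 0, 0, 0, 1, -1, 0, 0, 0, 0, 0],
    ![0, 0, 0, 0, 0, 0, 0, 0, 0, 0, 0, 0, 1, -1]]

/-- The positions of the seven vectors used in the class algebra. -/
def vidx : Fin 7 → Fin 9 := ![0, 1, 2, 3, 4, 5, 6]

/-- Multiples of the two differences which symmetrise the seven vectors. -/
def symA : Fin 7 → ℤ := ![1, 0, 0, 0, 0, 1, -1]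

/-- See `symA`. -/
def symB : Fin 7 → ℤ := ![0, 1, 1, 1, 1, -1, 0]

/-- The symmetrised vectors. -/
def phiVec (k : Fin 7) (t : Fin 14) : ℤ := 2 * vec (vidx k) t + symA k * vec 7 t + symB k * vec 8 t

theorem phiVec_sym : ∀ k : Fin 7, phiVec k 7 = phiVec k 8 ∧ phiVec k 12 = phiVec k 13 := by decide +kernel

/-- The integer values of the symmetrised vectors. -/
def phiVal (k : Fin 7) (x : M2) : ℤ :=
  phiVec k 0 * tab 0 x + phiVec k 1 * tab 1 x + phiVec k 2 * tab 2 x + phiVec k 3 * tab 3 x +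
    phiVec k 4 * tab 4 x + phiVec k 5 * tab 5 x + phiVec k 6 * tab 6 x + phiVec k 9 * tab 7 x +
    phiVec k 10 * tab 8 x + phiVec k 11 * tab 9 x + phiVec k 7 * pairTab 0 x + phiVec k 12 * pairTab 1 x

/-- The two classes of involutions. -/
def cls (l : Fin 2) (a : M2) : Prop := a * a = 1 ∧ a ≠ 1 ∧ (blk a = 1 ↔ l = 0)

instance instDecidableCls (l : Fin 2) (a : M2) : Decidable (cls l a) := by unfold cls; infer_instance

/-- A member of each class of involutions. -/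
def rep : Fin 2 → M2 := ![⟨⟨(r 0, sr 0, sr 0), r 0⟩, by decide +kernel⟩, ⟨⟨(sr 0, 1, 1), sr 0⟩, by decide +kernel⟩]

theorem cls_rep : ∀ l : Fin 2, cls l (rep l) := by decide +kernel

theorem cls_conj : ∀ (l : Fin 2) (a : M2), cls l a → ∃ u : M2, u * rep l * u⁻¹ = a := by decide +kernel

/-- The sum over products of a fixed involution with a class. -/
def rowSum (k : Fin 7) (l l' : Fin 2) : ℤ := ∑ b ∈ Finset.univ.filter (cls l'), phiVal k (rep l * b)

/-- Twice the values of the forms, in units of `3888`. -/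
def pTab : Fin 7 → Fin 2 → Fin 2 → ℤ :=
  ![![![2, 0], ![0, 6]], ![![0, 2], ![2, 2]], ![![1, 1], ![1, 3]], ![![0, -2], ![-2, 2]], ![![1, -1], ![-1, 3]],
    ![![2, 0], ![0, 0]], ![![0, 0], ![0, 2]]]

theorem card_cls : ∀ l : Fin 2, (Finset.univ.filter (cls l)).card = ![27, 54] l := by decide +kernel

set_option maxHeartbeats 4000000 in
theorem rowSum_eq : ∀ (k : Fin 7) (l l' : Fin 2), (![27, 54] l : ℕ) * rowSum k l l' = 1944 * pTab k l l' := by
  decide +kernel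

theorem conj_cls_iff (l : Fin 2) (u b : M2) : cls l (u * b * u⁻¹) ↔ cls l b := by
  have h1 : u * b * u⁻¹ * (u * b * u⁻¹) = u * (b * b) * u⁻¹ := by group
  simp only [cls, h1, map_mul, map_inv, mul_inv_eq_one, mul_eq_left, ne_eq]

theorem sum_filter_conj {K : Type*} [Group K] [Fintype K] (p q : K → Prop) [DecidablePred p] [DecidablePred q]
    (f : K → ℤ) (r : K) (hp : ∀ a, p a → ∃ u : K, u * r * u⁻¹ = a) (hq : ∀ u b : K, q (u * b * u⁻¹) ↔ q b)
    (hf : ∀ x u : K, f (u * x * u⁻¹) = f x) :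
    ∑ a ∈ Finset.univ.filter p, ∑ b ∈ Finset.univ.filter q, f (a * b) =
      ((Finset.univ.filter p).card : ℤ) * ∑ b ∈ Finset.univ.filter q, f (r * b) := by
  rw [← nsmul_eq_mul, ← Finset.sum_const]
  refine Finset.sum_congr rfl fun a ha => ?_
  obtain ⟨u, rfl⟩ := hp a (Finset.mem_filter.1 ha).2
  refine Finset.sum_equiv (MulAut.conj u⁻¹).toEquiv (fun b => ?_) fun b _ => ?_
  · simp only [Finset.mem_filter, Finset.mem_univ, true_and, MulEquiv.toEquiv_eq_coe, MulEquiv.coe_toEquiv,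
      MulAut.conj_apply]
    exact (hq u⁻¹ b).symm
  · simp only [MulEquiv.toEquiv_eq_coe, MulEquiv.coe_toEquiv, MulAut.conj_apply, inv_inv]
    rw [← hf (r * (u⁻¹ * b * u)) u]
    congr 1
    group

theorem prodSum_eq (k : Fin 7) (hφ : ∀ x u : M2, phiVal k (u * x * u⁻¹) = phiVal k x) (l l' : Fin 2) :
    ∑ a ∈ Finset.univ.filter (cls l), ∑ b ∈ Finset.univ.filter (cls l'), phiVal k (a * b) =
      1944 * pTab k l l' := by
  rw [sum_filter_conj (cls l) (cls l') (phiVal k) (rep l) (cls_conj l) (conj_cls_iff l') hφ]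
  refine Eq.trans ?_ (rowSum_eq k l l')
  rw [card_cls]
  rfl

end Cfsg.Agent.LAE62.NineBig
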