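import Cfsg.Agent.LAE62.NineBig.Leaves
import Cfsg.Agent.LAE62.NineBig.Table
import Cfsg.Agent.LAE62.NineBig.Vectors
import Cfsg.Agent.LAE62.NineBig.Algebra

/-!
The multiplicities force a character of degree two.
-/

set_option autoImplicit false
set_option maxHeartbeats 800000
set_option linter.unusedSectionVars false

namespace Cfsg.Agent.LAE62.NineBig

open Search

variable {X : Type*} [Fintype X] [DecidableEq X]

/-- The pairing of a vector with the multiplicities at `x`. -/
def pair (r : X → Fin 14 → ℤ) (c : Fin 14 → ℤ) (x : X) : ℤ := ∑ t, c t * r x t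

/-- The positions of the two classes of involutions among the representatives. -/
def cidx : Fin 2 → Fin 5 := ![1, 3]

/-- The value at a representative. -/
def value (r : X → Fin 14 → ℤ) (x : X) (j : Fin 5) : ℤ := ∑ t, r x t * regTab t j

/-- The hypotheses. -/
structure Input (r : X → Fin 14 → ℤ) (t0 : X) (c : Fin 2 → ℚ) (N : ℚ) : Prop where
  nonneg : ∀ x t, 0 ≤ r x t
  pos : ∀ x, 0 < value r x 0
  trivial : r t0 = fun t => if t = 0 then 1 else 0
  iso : ∀ i i' : Fin 9, ∑ x, pair r (vec i) x * pair r (vec i') x = ∑ t, vec i t * vec i' t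
  lin : ∀ i : Fin 9, ∀ j : Fin 5, j = 0 ∨ j = 1 ∨ j = 3 → ∑ x, pair r (vec i) x * value r x j = 0
  cpos : ∀ l, 0 < c l
  Npos : 0 < N
  quad : (∃ x, value r x 1 ≠ value r x 3) → ∀ (k : Fin 7) (l l' : Fin 2),
    ∑ x, (pair r (vec (vidx k)) x : ℚ) * ((value r x (cidx l) : ℚ) * value r x (cidx l') / value r x 0) =
      c l * c l' * 1944 * pTab k l l' / (2 * N)

/-- The columns of the first configuration. -/
def colA : Fin 14 → Fin 9 → ℤ :=
  ![![1, 1, 1, 0, 0, 0, 0, 0, 0], ![0, 1, 1, 1, 1, -1, 0, 0, -1], ![0, 0, 0, 0, 0, 0, 0, 0, 1],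
    ![1, 0, 0, 0, 0, 1, -1, -1, 0], ![0, 0, 0, 0, 0, 0, 0, 1, 0], ![0, 0, 0, 1, -1, 0, -1, 0, 0],
    ![0, 1, -1, 0, 0, 0, -1, 0, 0], ![0, 0, 0, 0, 0, 1, 0, 0, 0], ![1, 0, 0, 1, 1, 0, 0, 0, 0],
    ![0, 0, 0, 0, 1, 0, 0, 0, 0], ![0, 0, 0, 1, 0, 0, 0, 0, 0], ![0, 0, 1, 0, 0, 0, 0, 0, 0],
    ![0, 1, 0, 0, 0, 0, 0, 0, 0], ![1, 0, 0, 0, 0, 0, 0, 0, 0]]

/-- The columns of the second configuration. -/
def colB : Fin 13 → Fin 9 → ℤ :=
  ![![1, 1, 1, 0, 0, 0, 0, 0, 0], ![0, 1, 1, 1, 1, -1, 0, 0, -1], ![0, 0, 0, 0, 0, 0, 0, 0, 1],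
    ![1, 0, 0, 0, 0, 1, -1, -1, 0], ![0, 0, 0, 0, 0, 0, 0, 1, 0], ![0, 0, 0, 1, -1, 0, -1, 0, 0],
    ![0, 1, -1, 0, 0, 0, -1, 0, 0], ![0, 0, 0, 0, 0, 1, 0, 0, 0], ![0, 0, 0, 1, 1, 0, 0, 0, 0],
    ![1, 0, 0, 0, 1, 0, 0, 0, 0], ![1, 0, 0, 1, 0, 0, 0, 0, 0], ![0, 0, 1, 0, 0, 0, 0, 0, 0],
    ![0, 1, 0, 0, 0, 0, 0, 0, 0]]

theorem colsA_eq : colsA = List.ofFn fun k => List.ofFn (colA k) := by decide +kernel

theorem colsB_eq : colsB = List.ofFn fun k => List.ofFn (colB k) := by decide +kernel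

/-- Signed points with prescribed columns. -/
structure Points (r : X → Fin 14 → ℤ) {n : ℕ} (A : Fin n → Fin 9 → ℤ) (p : Fin n → X) (s : Fin n → ℤ) : Prop where
  inj : Function.Injective p
  sq : ∀ k, s k * s k = 1
  col : ∀ k i, pair r (vec i) (p k) = s k * A k i
  cover : ∀ i x, pair r (vec i) x ≠ 0 → ∃ k, p k = x

omit [Fintype X] [DecidableEq X] in
theorem exists_preimage_list {Y : Type*} (f : X → Y) : ∀ (m : List Y) (l : List X), (l.map f).Perm m →
    ∃ l' : List X, l'.Perm l ∧ l'.map f = m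
  | [], l, h => ⟨[], by simpa using h.symm, rfl⟩
  | y :: m, l, h => by
    classical
    obtain ⟨a, ha, rfl⟩ := List.mem_map.1 (h.mem_iff.2 (List.mem_cons_self ..))
    obtain ⟨l', hp, rfl⟩ := exists_preimage_list f m (l.erase a)
      (((((List.perm_cons_erase ha).map f).symm.trans h).cons_inv))
    exact ⟨a :: l', (hp.cons a).trans (List.perm_cons_erase ha).symm, rfl⟩

theorem colSgn_sq (l : List ℤ) : colSgn l * colSgn l = 1 := by
  unfold colSgn
  split
  · rfl
  · split <;> rfl

theorem exists_points {r : X → Fin 14 → ℤ} {t0 : X} {n : ℕ} (A : Fin n → Fin 9 → ℤ) (L : List (List ℤ))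
    (hR : Rep (List.ofFn fun i => pair r (vec i)) t0 L)
    (hperm : (L.map normCol).Perm (List.ofFn fun k => List.ofFn (A k))) :
    ∃ (p : Fin n → X) (s : Fin n → ℤ), Points r A p s ∧ ∃ k, p k = t0 := by
  classical
  obtain ⟨pts, rfl, hnd, hs, hcov⟩ := hR
  set V := List.ofFn fun i => pair r (vec i) with hV
  set g : X × ℤ → X × ℤ := fun q => (q.1, colSgn (col V q) * q.2)
  have hg : ∀ q, normCol (col V q) = col V (g q) := fun q => by
    simp only [normCol, col, List.map_map]
    refine List.map_congr_left fun v _ => ?_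
    simp only [Function.comp_def, g, col, mul_assoc]
  rw [List.map_map, show (normCol ∘ col V) = col V ∘ g from funext hg, ← List.map_map] at hperm
  obtain ⟨Q, hQ, hQm⟩ := exists_preimage_list _ _ _ hperm
  have hlen : Q.length = n := by simpa using congrArg List.length hQm
  subst hlen
  have hQ' : Q = List.ofFn fun k => Q[(k : ℕ)] := List.ofFn_getElem.symm
  set q : Fin Q.length → X × ℤ := fun k => Q[(k : ℕ)] with hq
  replace hQm : (col V ∘ q) = fun k => List.ofFn (A k) :=
    List.ofFn_inj.1 (by rw [← List.map_ofFn, ← hQ']; exact hQm)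
  have hfst : (Q.map Prod.fst).Nodup := by
    rw [(hQ.map Prod.fst).nodup_iff, List.map_map]
    exact hnd
  have hmemq : ∀ k, q k ∈ Q := fun k => List.getElem_mem _
  refine ⟨fun k => (q k).1, fun k => (q k).2, ⟨?_, fun k => ?_, fun k i => ?_, fun i x hx => ?_⟩, ?_⟩
  · intro a b hab
    rw [hQ', List.map_ofFn, List.nodup_ofFn] at hfst
    exact hfst hab
  · have := hQ.subset (hmemq k)
    obtain ⟨q0, hq0, e⟩ := List.mem_map.1 this
    have h1 : q0.2 * q0.2 = 1 := by
      rcases List.mem_cons.1 hq0 with rfl | h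
      · rfl
      · exact hs q0 h
    simp only [← e, g]
    linear_combination (q0.2 * q0.2) * colSgn_sq (col V q0) + h1
  · have h1 := congrFun hQm k
    simp only [Function.comp_def, col, hV, List.map_ofFn, List.ofFn_inj] at h1
    have h2 := congrFun h1 i
    try simp only [Function.comp_def] at h2
    have hsq : (q k).2 * (q k).2 = 1 := by
      obtain ⟨q0, hq0, e⟩ := List.mem_map.1 (hQ.subset (hmemq k))
      have h1 : q0.2 * q0.2 = 1 := by
        rcases List.mem_cons.1 hq0 with rfl | h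
        · rfl
        · exact hs q0 h
      rw [← e]
      simp only [g]
      linear_combination (q0.2 * q0.2) * colSgn_sq (col V q0) + h1
    show pair r (vec i) (q k).1 = (q k).2 * A k i
    rw [← h2]
    linear_combination -(pair r (vec i) (q k).1) * hsq
  · have hm := hcov _ (by rw [hV]; exact List.mem_ofFn.2 ⟨i, rfl⟩) x hx
    have : x ∈ Q.map Prod.fst := by
      rw [(hQ.map Prod.fst).mem_iff, List.map_map]
      exact hm
    obtain ⟨z, hz, rfl⟩ := List.mem_map.1 this
    obtain ⟨k, hk, rfl⟩ := List.getElem_of_mem hz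
    exact ⟨⟨k, hk⟩, rfl⟩
  · have : t0 ∈ Q.map Prod.fst := by
      rw [(hQ.map Prod.fst).mem_iff, List.map_map]
      exact List.mem_cons_self ..
    obtain ⟨z, hz, e⟩ := List.mem_map.1 this
    obtain ⟨k, hk, rfl⟩ := List.getElem_of_mem hz
    exact ⟨⟨k, hk⟩, e⟩

theorem Points.expand {r : X → Fin 14 → ℤ} {n : ℕ} {A : Fin n → Fin 9 → ℤ} {p : Fin n → X} {s : Fin n → ℤ}
    (h : Points r A p s) (i : Fin 9) (F : X → ℚ) :
    ∑ x, (pair r (vec i) x : ℚ) * F x = ∑ k, (A k i : ℚ) * ((s k : ℚ) * F (p k)) := by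
  classical
  rw [← Finset.sum_subset (Finset.subset_univ (Finset.univ.image p)) (fun x _ hx => ?_),
    Finset.sum_image fun a _ b _ e => h.inj e]
  · refine Finset.sum_congr rfl fun k _ => ?_
    rw [h.col]
    push_cast
    ring
  · have : pair r (vec i) x = 0 := by
      by_contra h0
      obtain ⟨k, rfl⟩ := h.cover i x h0
      exact hx (Finset.mem_image_of_mem _ (Finset.mem_univ _))
    simp [this]

variable {r : X → Fin 14 → ℤ} {t0 : X} {c : Fin 2 → ℚ} {N : ℚ}

/-- Normalised values at the signed points. -/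
structure Values {n : ℕ} (A : Fin n → Fin 9 → ℤ) (k₀ : Fin n) (d : Fin n → ℚ) (U : Fin 2 → Fin n → ℚ) (K : ℚ) :
    Prop where
  dne : ∀ k, d k ≠ 0
  dint : ∀ k, ∃ z : ℤ, d k = z
  d0 : d k₀ = 1
  U0 : ∀ l, U l k₀ = 0
  Kpos : 0 < K
  dlin : ∀ i, ∑ k, (A k i : ℚ) * d k = 0
  ulin : ∀ l i, ∑ k, (A k i : ℚ) * U l k = 0
  form : ∀ (v : Fin 7) (l l' : Fin 2), ∑ k, (A k (vidx v) : ℚ) * (U l k * U l' k / d k) = K * pTab v l l' / 2

theorem value_trivial (hin : Input r t0 c N) (j : Fin 5) : value r t0 j = 1 := by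
  simp only [value, hin.trivial, ite_mul, one_mul, zero_mul, Finset.sum_ite_eq', Finset.mem_univ, if_true]
  revert j; decide

theorem pair_trivial (hin : Input r t0 c N) (i : Fin 9) : pair r (vec i) t0 = vec i 0 := by
  simp [pair, hin.trivial]

/-- The congruence separating the classes of involutions. -/
theorem separate (hin : Input r t0 c N) {x : X} {s : ℤ} (hs : s * s = 1)
    (hx : ∀ i : Fin 9, pair r (vec i) x = s * ![0, 0, 0, 0, 0, 1, 0, 0, 0] i) : ∃ y, value r y 1 ≠ value r y 3 := by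
  refine ⟨x, fun e => ?_⟩
  have key : ∀ t : Fin 14, 3 ∣ vec 1 t - vec 2 t + vec 3 t + vec 4 t - vec 5 t + vec 7 t - (regTab t 1 - regTab t 3) := by
    decide +kernel
  choose z hz using key
  have h : pair r (vec 1) x - pair r (vec 2) x + pair r (vec 3) x + pair r (vec 4) x - pair r (vec 5) x +
      pair r (vec 7) x - (value r x 1 - value r x 3) = 3 * ∑ t, z t * r x t := by
    simp only [pair, value, ← Finset.sum_sub_distrib, ← Finset.sum_add_distrib, Finset.mul_sum]
    refine Finset.sum_congr rfl fun t _ => ?_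
    linear_combination r x t * hz t
  simp [hx] at h
  rcases mul_self_eq_one_iff.1 hs with rfl | rfl <;> omega

theorem values_of_points (hin : Input r t0 c N) {n : ℕ} {A : Fin n → Fin 9 → ℤ} {p : Fin n → X} {s : Fin n → ℤ}
    (hp : Points r A p s) (k₀ : Fin n) (hk₀ : ∀ k, (∀ i, A k i = vec i 0) ∨ (∀ i, A k i = -vec i 0) → k = k₀)
    (hsgn : A k₀ 0 = 1) (h0 : ∃ k, p k = t0) (hsep : ∃ y, value r y 1 ≠ value r y 3) :
    s k₀ = 1 ∧ ∃ K, Values A k₀ (fun k => (s k * value r (p k) 0 : ℤ))
      (fun l k => ((s k * (value r (p k) (cidx l) - value r (p k) 0) : ℤ) : ℚ) / c l) K := by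
  obtain ⟨k, hk⟩ := h0
  have hc := hp.col k
  simp only [hk, pair_trivial hin] at hc
  obtain rfl : k = k₀ := hk₀ k (by
    rcases mul_self_eq_one_iff.1 (hp.sq k) with e | e
    · exact Or.inl fun i => by rw [hc i, e, one_mul]
    · exact Or.inr fun i => by rw [hc i, e]; ring)
  have hs0 : s k = 1 := by
    have h := hc 0
    rw [hsgn, mul_one] at h
    rw [← h]; rfl
  have hsne : ∀ k, s k ≠ 0 := fun k e => by simpa [e] using hp.sq k
  have hlin : ∀ i j, (j = 0 ∨ j = 1 ∨ j = 3) → ∑ k, (A k i : ℚ) * ((s k : ℚ) * value r (p k) j) = 0 := by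
    intro i j hj
    rw [← hp.expand i fun x => (value r x j : ℚ)]
    exact_mod_cast hin.lin i j hj
  have hcidx : ∀ l, cidx l = 0 ∨ cidx l = 1 ∨ cidx l = 3 := by decide
  refine ⟨hs0, 1944 / N, ⟨fun k => ?_, fun k => ⟨_, rfl⟩, ?_, fun l => ?_, div_pos (by norm_num) hin.Npos,
    fun i => ?_, fun l i => ?_, fun v l l' => ?_⟩⟩
  · exact Int.cast_ne_zero.2 (mul_ne_zero (hsne k) (hin.pos _).ne')
  · simp [hk, hs0, value_trivial hin]
  · simp [hk, value_trivial hin]
  · have := hlin i 0 (Or.inl rfl)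
    simpa [Int.cast_mul] using this
  · have h1 := hlin i 0 (Or.inl rfl)
    have h2 := hlin i (cidx l) (hcidx l)
    have : ∀ k, (A k i : ℚ) * (((s k * (value r (p k) (cidx l) - value r (p k) 0) : ℤ) : ℚ) / c l) =
        ((A k i : ℚ) * ((s k : ℚ) * value r (p k) (cidx l)) - (A k i : ℚ) * ((s k : ℚ) * value r (p k) 0)) / c l :=
      fun k => by push_cast; ring
    simp only [this, ← Finset.sum_div, Finset.sum_sub_distrib, h1, h2, sub_zero, zero_div]
  · have hq := hin.quad hsep v l l'
    rw [hp.expand] at hq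
    have h1 := hlin (vidx v) 0 (Or.inl rfl)
    have h2 := hlin (vidx v) (cidx l) (hcidx l)
    have h3 := hlin (vidx v) (cidx l') (hcidx l')
    have hcne : ∀ l, c l ≠ 0 := fun l => (hin.cpos l).ne'
    have this : ∀ k, (A k (vidx v) : ℚ) * (((s k * (value r (p k) (cidx l) - value r (p k) 0) : ℤ) : ℚ) / c l *
        (((s k * (value r (p k) (cidx l') - value r (p k) 0) : ℤ) : ℚ) / c l') / ((s k * value r (p k) 0 : ℤ) : ℚ)) =
        ((A k (vidx v) : ℚ) * ((s k : ℚ) * ((value r (p k) (cidx l) : ℚ) * value r (p k) (cidx l') / value r (p k) 0))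
          - (A k (vidx v) : ℚ) * ((s k : ℚ) * value r (p k) (cidx l))
          - (A k (vidx v) : ℚ) * ((s k : ℚ) * value r (p k) (cidx l'))
          + (A k (vidx v) : ℚ) * ((s k : ℚ) * value r (p k) 0)) / (c l * c l') := by
      intro k
      have e1 : (s k : ℚ) ≠ 0 := Int.cast_ne_zero.2 (hsne k)
      have e2 : (value r (p k) 0 : ℚ) ≠ 0 := Int.cast_ne_zero.2 (hin.pos _).ne'
      have e3 := hcne l
      have e4 := hcne l'
      push_cast
      field_simp
      ring
    simp only [this, ← Finset.sum_div, Finset.sum_add_distrib, Finset.sum_sub_distrib, h1, h2, h3, hq, sub_zero,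
      add_zero]
    have e3 := hcne l
    have e4 := hcne l'
    have e5 := hin.Npos.ne'
    field_simp

theorem pv011 : pTab 0 1 1 = 6 := rfl

theorem pv100 : pTab 1 0 0 = 0 := rfl

theorem pv101 : pTab 1 0 1 = 2 := rfl

theorem pv111 : pTab 1 1 1 = 2 := rfl

theorem pv200 : pTab 2 0 0 = 1 := rfl

theorem pv201 : pTab 2 0 1 = 1 := rfl

theorem pv211 : pTab 2 1 1 = 3 := rfl

theorem pv300 : pTab 3 0 0 = 0 := rfl

theorem pv301 : pTab 3 0 1 = -2 := rfl

theorem pv311 : pTab 3 1 1 = 2 := rfl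

theorem pv400 : pTab 4 0 0 = 1 := rfl

theorem pv401 : pTab 4 0 1 = -1 := rfl

theorem pv411 : pTab 4 1 1 = 3 := rfl

theorem pv500 : pTab 5 0 0 = 2 := rfl

theorem pv511 : pTab 5 1 1 = 0 := rfl

theorem pv600 : pTab 6 0 0 = 0 := rfl

/-- The columns common to the two configurations. -/
theorem common {n : ℕ} {A : Fin n → Fin 9 → ℤ} {k₀ : Fin n} {d : Fin n → ℚ} {U : Fin 2 → Fin n → ℚ} {K : ℚ}
    (hV : Values A k₀ d U K) {kX kY ka kb kt kZ kW : Fin n}
    (l7 : ∀ f : Fin n → ℚ, ∑ k, (A k 1 : ℚ) * f k = f k₀ + f kX + f ka + f kW)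
    (l6 : ∀ f : Fin n → ℚ, ∑ k, (A k 2 : ℚ) * f k = f k₀ + f kX - f ka + f kZ)
    (l3 : ∀ f : Fin n → ℚ, ∑ k, (A k 5 : ℚ) * f k = -f kX + f kY + f kt)
    (l2 : ∀ f : Fin n → ℚ, ∑ k, (A k 6 : ℚ) * f k = -f kY - f kb - f ka) :
    Algebra.Data K (-d ka) (-U 0 ka) (-U 1 ka) (d kt) (U 0 kt) (U 1 kt) (d kY) (U 0 kY) (U 1 kY) (d kX) (U 0 kX)
      (U 1 kX) ∧ d kY = -d ka + -d kb ∧ ∀ l, U l kY = -U l ka + -U l kb := by
  obtain ⟨dne, -, d0, U0, Kpos, dlin, ulin, form⟩ := hV
  have eZ : d kZ = -(1 + d kX + -d ka) := by have := dlin 2; rw [l6, d0] at this; linarith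
  have eW : d kW = -(1 + d kX - -d ka) := by have := dlin 1; rw [l7, d0] at this; linarith
  have uZ : ∀ l, U l kZ = -(U l kX + -U l ka) := fun l => by have := ulin l 2; rw [l6, U0] at this; linarith
  have uW : ∀ l, U l kW = -(U l kX - -U l ka) := fun l => by have := ulin l 1; rw [l7, U0] at this; linarith
  have eY : d kY = -d ka + -d kb := by have := dlin 6; rw [l2] at this; linarith
  have uY : ∀ l, U l kY = -U l ka + -U l kb := fun l => by have := ulin l 6; rw [l2] at this; linarith
  have eX : d kX = d kt + d kY := by have := dlin 5; rw [l3] at this; linarith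
  have uX : ∀ l, U l kX = U l kt + U l kY := fun l => by have := ulin l 5; rw [l3] at this; linarith
  have tneg : ∀ x y z : ℚ, (-x) * (-y) / (-z) = -(x * y / z) := fun x y z => by rw [neg_mul_neg, div_neg]
  have ta : ∀ l l', U l ka * U l' ka / d ka = -((-U l ka) * (-U l' ka) / (-d ka)) := fun l l' => by
    rw [tneg]; ring
  have tb : ∀ l l', U l kb * U l' kb / d kb = -((-U l kb) * (-U l' kb) / (-d kb)) := fun l l' => by
    rw [tneg]; ring
  have tZ : ∀ l l', U l kZ * U l' kZ / d kZ =
      -((U l kX + -U l ka) * (U l' kX + -U l' ka) / (1 + d kX + -d ka)) := fun l l' => by rw [uZ, uZ, eZ, tneg]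
  have tW : ∀ l l', U l kW * U l' kW / d kW =
      -((U l kX - -U l ka) * (U l' kX - -U l' ka) / (1 + d kX - -d ka)) := fun l l' => by rw [uW, uW, eW, tneg]
  have z0 : ∀ l l', U l k₀ * U l' k₀ / d k₀ = 0 := fun l l' => by rw [U0, zero_mul, zero_div]
  have f2 := form 2
  have f1 := form 1
  have f5 := form 5 0 0
  have f5' := form 5 1 1
  have f6 := form 6 0 0
  simp only [show vidx 2 = 2 from rfl, show vidx 1 = 1 from rfl, show vidx 5 = 5 from rfl,
    show vidx 6 = 6 from rfl] at f1 f2 f5 f5' f6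
  simp only [l6, z0, ta, tZ] at f2
  simp only [l7, z0, ta, tW] at f1
  rw [l3] at f5 f5'
  rw [l2, ta, tb] at f6
  have a00 := f2 0 0; have a01 := f2 0 1; have a11 := f2 1 1
  have b00 := f1 0 0; have b01 := f1 0 1; have b11 := f1 1 1
  norm_num [pv011, pv100, pv101, pv111, pv200, pv201, pv211, pv300, pv301, pv311, pv400, pv401, pv411, pv500, pv511, pv600] at a00 a01 a11 b00 b01 b11 f5 f5' f6
  have two : -U 0 ka * d kY = U 0 kY * -d ka := by
    have ha : -d ka ≠ 0 := neg_ne_zero.2 (dne ka)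
    have hb : -d kb ≠ 0 := neg_ne_zero.2 (dne kb)
    have hY := dne kY
    have hb0 := dne kb
    have ha0 := dne ka
    rw [uY, eY] at f6 ⊢
    rw [eY] at hY
    field_simp at f6
    have : (U 0 ka * d kb - U 0 kb * d ka) * (U 0 ka * d kb - U 0 kb * d ka) = 0 := by linear_combination f6
    linear_combination mul_self_eq_zero.1 this
  refine ⟨⟨Kpos, neg_ne_zero.2 (dne ka), dne kt, dne kY, dne kX, fun e => dne kZ (by rw [eZ, e, neg_zero]),
    fun e => dne kW (by rw [eW, e, neg_zero]), eX, uX 0, uX 1, two, ?_, ?_, ?_, ?_, ?_, ?_, ?_, ?_⟩, eY, uY⟩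
  · linear_combination f5
  · linear_combination f5'
  · linear_combination a00
  · linear_combination a01
  · linear_combination a11
  · linear_combination b00
  · linear_combination b01
  · linear_combination b11

set_option maxHeartbeats 1600000 in
/-- The second configuration is impossible. -/
theorem noB {d : Fin 13 → ℚ} {U : Fin 2 → Fin 13 → ℚ} {K : ℚ} (hV : Values colB 0 d U K) : False := by
  obtain ⟨hD, -, -⟩ := common hV (kX := 1) (kY := 3) (ka := 6) (kb := 5) (kt := 7) (kZ := 11) (kW := 12)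
    (fun f => by simp [Fin.sum_univ_succ, colB]; ring) (fun f => by simp [Fin.sum_univ_succ, colB]; ring)
    (fun f => by simp [Fin.sum_univ_succ, colB]; ring) (fun f => by simp [Fin.sum_univ_succ, colB]; ring)
  have lm : ∀ f : Fin 13 → ℚ, (∑ k, (colB k 4 : ℚ) * f k) + (∑ k, (colB k 3 : ℚ) * f k) - ∑ k, (colB k 0 : ℚ) * f k =
      2 * f 1 + 2 * f 8 - f 3 - f 0 := fun f => by simp [Fin.sum_univ_succ, colB]; ring
  have e1 := lm d
  rw [hV.dlin, hV.dlin, hV.dlin, hV.d0] at e1
  have e2 := lm (U 1)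
  rw [hV.ulin, hV.ulin, hV.ulin, hV.U0] at e2
  have e3 := lm fun k => U 1 k * U 1 k / d k
  rw [show (4 : Fin 9) = vidx 4 from rfl, show (3 : Fin 9) = vidx 3 from rfl, show (0 : Fin 9) = vidx 0 from rfl,
    hV.form, hV.form, hV.form, hV.U0] at e3
  norm_num [pv011, pv100, pv101, pv111, pv200, pv201, pv211, pv300, pv301, pv311, pv400, pv401, pv411, pv500, pv511, pv600] at e3
  obtain ⟨z1, hz1⟩ := hV.dint 1
  obtain ⟨z3, hz3⟩ := hV.dint 3
  exact Algebra.caseB hD (q := d 8) (uq := U 0 8) (wq := U 1 8) (by linarith) (by linarith) (hV.dne 8)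
    (by linear_combination -e3) ⟨2 * z1 - z3, by rw [hz1, hz3]; push_cast; rfl⟩

set_option maxHeartbeats 1600000 in
/-- The first configuration has a character of degree two. -/
theorem degree_two {d : Fin 14 → ℚ} {U : Fin 2 → Fin 14 → ℚ} {K : ℚ} (hV : Values colA 0 d U K) : d 7 = 2 := by
  obtain ⟨hD, eY, uY⟩ := common hV (kX := 1) (kY := 3) (ka := 6) (kb := 5) (kt := 7) (kZ := 11) (kW := 12)
    (fun f => by simp [Fin.sum_univ_succ, colA]; ring) (fun f => by simp [Fin.sum_univ_succ, colA]; ring)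
    (fun f => by simp [Fin.sum_univ_succ, colA]; ring) (fun f => by simp [Fin.sum_univ_succ, colA]; ring)
  have l8 : ∀ f : Fin 14 → ℚ, ∑ k, (colA k 0 : ℚ) * f k = f 0 + f 3 + f 8 + f 13 := fun f => by
    simp [Fin.sum_univ_succ, colA]; ring
  have l5 : ∀ f : Fin 14 → ℚ, ∑ k, (colA k 3 : ℚ) * f k = f 1 + f 5 + f 8 + f 10 := fun f => by
    simp [Fin.sum_univ_succ, colA]; ring
  have l4 : ∀ f : Fin 14 → ℚ, ∑ k, (colA k 4 : ℚ) * f k = f 1 - f 5 + f 8 + f 9 := fun f => by
    simp [Fin.sum_univ_succ, colA]; ring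
  obtain ⟨dne, dint, d0, U0, Kpos, dlin, ulin, form⟩ := hV
  have eP : d 9 = -(d 8 + d 1 + -d 5) := by have := dlin 4; rw [l4] at this; linarith
  have eM : d 10 = -(d 8 + d 1 - -d 5) := by have := dlin 3; rw [l5] at this; linarith
  have eR : d 13 = -(1 + d 8 + d 3) := by have := dlin 0; rw [l8, d0] at this; linarith
  have uP : ∀ l, U l 9 = -(U l 8 + U l 1 + -U l 5) := fun l => by have := ulin l 4; rw [l4] at this; linarith
  have uM : ∀ l, U l 10 = -(U l 8 + U l 1 - -U l 5) := fun l => by have := ulin l 3; rw [l5] at this; linarith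
  have uR : ∀ l, U l 13 = -(U l 8 + U l 3) := fun l => by have := ulin l 0; rw [l8, U0] at this; linarith
  have tneg : ∀ x y z : ℚ, (-x) * (-y) / (-z) = -(x * y / z) := fun x y z => by rw [neg_mul_neg, div_neg]
  have tb : ∀ l l', U l 5 * U l' 5 / d 5 = -((-U l 5) * (-U l' 5) / (-d 5)) := fun l l' => by rw [tneg]; ring
  have tP : ∀ l l', U l 9 * U l' 9 / d 9 =
      -((U l 8 + U l 1 + -U l 5) * (U l' 8 + U l' 1 + -U l' 5) / (d 8 + d 1 + -d 5)) := fun l l' => by
    rw [uP, uP, eP, tneg]
  have tM : ∀ l l', U l 10 * U l' 10 / d 10 =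
      -((U l 8 + U l 1 - -U l 5) * (U l' 8 + U l' 1 - -U l' 5) / (d 8 + d 1 - -d 5)) := fun l l' => by
    rw [uM, uM, eM, tneg]
  have tR : U 1 13 * U 1 13 / d 13 = -((U 1 8 + U 1 3) * (U 1 8 + U 1 3) / (1 + d 8 + d 3)) := by
    rw [uR, eR, tneg]
  have f4 := form 4
  have f3 := form 3
  have f0 := form 0 1 1
  simp only [show vidx 4 = 4 from rfl, show vidx 3 = 3 from rfl, show vidx 0 = 0 from rfl] at f0 f3 f4
  simp only [l4, tb, tP] at f4
  simp only [l5, tb, tM] at f3
  rw [l8, tR, U0, zero_mul, zero_div] at f0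
  have a00 := f4 0 0; have a01 := f4 0 1; have a11 := f4 1 1
  have b00 := f3 0 0; have b01 := f3 0 1; have b11 := f3 1 1
  norm_num [pv011, pv100, pv101, pv111, pv200, pv201, pv211, pv300, pv301, pv311, pv400, pv401, pv411, pv500, pv511, pv600] at a00 a01 a11 b00 b01 b11 f0
  exact Algebra.caseA hD (b := -d 5) (ub := -U 0 5) (wb := -U 1 5) (c := d 8) (uc := U 0 8) (wc := U 1 8)
    eY (uY 0) (uY 1) (dne 8) (neg_ne_zero.2 (dne 5)) (fun e => dne 9 (by rw [eP, e, neg_zero]))
    (fun e => dne 10 (by rw [eM, e, neg_zero])) (fun e => dne 13 (by rw [eR, e, neg_zero]))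
    (by linear_combination a00) (by linear_combination a01) (by linear_combination a11)
    (by linear_combination b00) (by linear_combination b01) (by linear_combination b11)
    (by linear_combination f0) (dint 1)

set_option maxHeartbeats 1600000 in
/-- There is a point with the multiplicities of the character of degree two. -/
theorem exists_natural (hin : Input r t0 c N) : ∃ x, r x = fun t => if t = 2 then 1 else 0 := by
  classical
  set V := List.ofFn fun i => pair r (vec i) with hVdef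
  have hdata : data V t0 = gram := by
    simp only [hVdef, List.ofFn_succ, List.ofFn_zero, data, List.map, hin.iso, pair_trivial hin]
    decide +kernel
  obtain ⟨L, hL, hR⟩ := searchAll_spec V t0
  rw [hdata] at hL
  have hcl := List.all_eq_true.1 classify_all L hL
  simp only [classify, Bool.or_eq_true] at hcl
  rcases hcl with (hk | hA) | hB
  · exfalso
    obtain ⟨lam, -, hlen⟩ := List.any_eq_true.1 hk
    obtain ⟨pts, rfl, hnd, hs, hcov⟩ := hR
    simp only [beq_iff_eq] at hlen
    set f : X → ℤ := fun x => dot lam (col V (x, 1)) with hf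
    have hdot : ∀ (s : ℤ) (x : X), dot lam (col V (x, s)) = s * f x := fun s x => by
      simp only [hf, dot, col, one_mul]
      rw [← List.sum_map_mul_left]
      simp [List.zip_map_right, List.map_map, Function.comp_def, mul_left_comm]
    have hlin : ∑ x, f x * value r x 0 = 0 := by
      simp only [hf, dot, col, one_mul, hVdef, List.map_ofFn, Function.comp_def]
      have : ∀ (m : List ℤ) (g : List (X → ℤ)), (∀ v ∈ g, ∑ x, v x * value r x 0 = 0) →
          ∑ x, ((m.zip (g.map fun v => v x)).map fun p => p.1 * p.2).sum * value r x 0 = 0 := by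
        intro m
        induction m with
        | nil => intros; simp
        | cons a m ih =>
          intro g hg
          cases g with
          | nil => simp
          | cons v g =>
            simp only [List.map_cons, List.zip_cons_cons, List.sum_cons, add_mul, Finset.sum_add_distrib, mul_assoc,
              ← Finset.mul_sum, hg v (List.mem_cons_self ..), ih g fun w hw => hg w (List.mem_cons_of_mem _ hw),
              mul_zero, add_zero]
      have h := this lam V fun v hv => by
        rw [hVdef, List.mem_ofFn] at hv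
        obtain ⟨i, rfl⟩ := hv
        exact hin.lin i 0 (Or.inl rfl)
      simpa [hVdef, List.map_ofFn, Function.comp_def] using h
    obtain ⟨v0, hv0⟩ := List.length_eq_one_iff.1 hlen
    set all := (t0, (1 : ℤ)) :: pts
    have hsum : ∑ x, f x * value r x 0 = (all.map fun q => (q.2 * f q.1) * (q.2 * value r q.1 0)).sum := by
      rw [sum_eq_list (t0 :: pts.map Prod.fst) hnd _ fun x hx => ?_]
      · simp only [all, List.map_cons, List.sum_cons, List.map_map, one_mul, Function.comp_def]
        congr 2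
        exact List.map_congr_left fun q hq => by linear_combination -(f q.1 * value r q.1 0) * hs q hq
      · by_contra hmem
        refine left_ne_zero_of_mul hx ?_
        simp only [hf, dot, col, one_mul]
        refine List.sum_eq_zero fun y hy => ?_
        obtain ⟨⟨a, b⟩, hab, rfl⟩ := List.mem_map.1 hy
        obtain ⟨v, hv, rfl⟩ := List.mem_map.1 (List.of_mem_zip hab).2
        rw [by_contra fun h => hmem (hcov v hv x h), mul_zero]
    have key : ∀ qs : List (X × ℤ), (∀ q ∈ qs, q.2 * q.2 = 1) →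
        ∀ v, (((qs.map (col V)).map (dot lam)).filter (· != 0)) = [v] →
        (qs.map fun q => (q.2 * f q.1) * (q.2 * value r q.1 0)).sum ≠ 0 := by
      intro qs
      induction qs with
      | nil => intro _ v hv; simp at hv
      | cons q qs ih =>
        intro hsq v hv
        simp only [List.map_cons, hdot q.2 q.1, List.sum_cons] at hv ⊢
        by_cases h0 : q.2 * f q.1 = 0
        · rw [h0, List.filter_cons_of_neg (by simp)] at hv
          rw [h0, zero_mul, zero_add]
          exact ih (fun a ha => hsq a (List.mem_cons_of_mem _ ha)) v hv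
        · rw [List.filter_cons_of_pos (by simpa using h0), List.cons.injEq, List.filter_eq_nil_iff] at hv
          rw [List.sum_eq_zero (fun y hy => ?_), add_zero]
          · exact mul_ne_zero h0 (mul_ne_zero (fun e => by simpa [e] using hsq q (List.mem_cons_self ..))
              (hin.pos _).ne')
          · obtain ⟨a, ha, rfl⟩ := List.mem_map.1 hy
            have := hv.2 (dot lam (col V a)) (List.mem_map.2 ⟨_, List.mem_map_of_mem ha, rfl⟩)
            rw [hdot] at this
            simp only [bne_iff_ne, ne_eq, not_not] at this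
            rw [this, zero_mul]
    refine key all ?_ v0 hv0 (hsum ▸ hlin)
    intro q hq
    rcases List.mem_cons.1 hq with rfl | h
    · rfl
    · exact hs q h
  · rw [List.isPerm_iff, colsA_eq] at hA
    obtain ⟨p, s, hp, h0⟩ := exists_points colA L hR hA
    have hsep := separate hin (hp.sq 7) (hp.col 7)
    obtain ⟨-, K, hV⟩ := values_of_points hin hp 0 (by decide +kernel) rfl h0 hsep
    have h2 := degree_two hV
    have h2' : s 7 * value r (p 7) 0 = 2 := by exact_mod_cast h2
    have hpos := hin.pos (p 7)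
    obtain hs1 | hs1 := mul_self_eq_one_iff.1 (hp.sq 7) <;> rw [hs1] at h2'
    swap
    · omega
    have hb := hp.col 7 5
    rw [hs1] at hb
    refine ⟨p 7, ?_⟩
    simp only [value, Fin.sum_univ_succ, Fin.sum_univ_zero] at h2'
    simp only [pair, Fin.sum_univ_succ, Fin.sum_univ_zero] at hb
    simp [regTab] at h2'
    simp [vec, colA] at hb
    funext t
    have nn := hin.nonneg (p 7)
    have := nn 0; have := nn 1; have := nn 2; have := nn 3; have := nn 4; have := nn 5; have := nn 6
    have := nn 7; have := nn 8; have := nn 9; have := nn 10; have := nn 11; have := nn 12; have := nn 13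
    fin_cases t <;> simp <;> omega
  · exfalso
    rw [List.isPerm_iff, colsB_eq] at hB
    obtain ⟨p, s, hp, h0⟩ := exists_points colB L hR hB
    have hsep := separate hin (hp.sq 7) (hp.col 7)
    obtain ⟨-, K, hV⟩ := values_of_points hin hp 0 (by decide +kernel) rfl h0 hsep
    exact noB hV

end Cfsg.Agent.LAE62.NineBig
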