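import Cfsg.Agent.LAE62.NineBig.Search

/-!
The possible columns for the nine exceptional combinations.
-/

set_option autoImplicit false

namespace Cfsg.Agent.LAE62.NineBig.Search

/-- Value at the trivial character, norm, products with the earlier vectors (newest first). -/
def gram : List (ℤ × ℕ × List ℤ) :=
  [(1, 4, [1, 1, 1, 1, 1, -1, -1, 0]), (1, 4, [1, 1, 1, -1, -1, 0, -1]), (1, 4, [1, 1, -1, 1, 0, -1]),
    (0, 4, [1, -1, -1, 0, -1]), (0, 4, [-1, 1, 0, -1]), (0, 3, [-1, -1, 1]), (0, 3, [1, 0]), (0, 2, [0]), (0, 2, [])]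

/-- The columns of the configuration of the group itself. -/
def colsA : List (List ℤ) :=
  [[1, 1, 1, 0, 0, 0, 0, 0, 0], [0, 1, 1, 1, 1, -1, 0, 0, -1], [0, 0, 0, 0, 0, 0, 0, 0, 1],
    [1, 0, 0, 0, 0, 1, -1, -1, 0], [0, 0, 0, 0, 0, 0, 0, 1, 0], [0, 0, 0, 1, -1, 0, -1, 0, 0],
    [0, 1, -1, 0, 0, 0, -1, 0, 0], [0, 0, 0, 0, 0, 1, 0, 0, 0], [1, 0, 0, 1, 1, 0, 0, 0, 0],
    [0, 0, 0, 0, 1, 0, 0, 0, 0], [0, 0, 0, 1, 0, 0, 0, 0, 0], [0, 0, 1, 0, 0, 0, 0, 0, 0],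
    [0, 1, 0, 0, 0, 0, 0, 0, 0], [1, 0, 0, 0, 0, 0, 0, 0, 0]]

/-- The columns of the other configuration. -/
def colsB : List (List ℤ) :=
  [[1, 1, 1, 0, 0, 0, 0, 0, 0], [0, 1, 1, 1, 1, -1, 0, 0, -1], [0, 0, 0, 0, 0, 0, 0, 0, 1],
    [1, 0, 0, 0, 0, 1, -1, -1, 0], [0, 0, 0, 0, 0, 0, 0, 1, 0], [0, 0, 0, 1, -1, 0, -1, 0, 0],
    [0, 1, -1, 0, 0, 0, -1, 0, 0], [0, 0, 0, 0, 0, 1, 0, 0, 0], [0, 0, 0, 1, 1, 0, 0, 0, 0],
    [1, 0, 0, 0, 1, 0, 0, 0, 0], [1, 0, 0, 1, 0, 0, 0, 0, 0], [0, 0, 1, 0, 0, 0, 0, 0, 0],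
    [0, 1, 0, 0, 0, 0, 0, 0, 0]]

/-- Functionals which show that a degree would vanish. -/
def killer : List (List ℤ) := [[0, 0, 0, -1, 0, -1, 0, 1, 0], [0, 0, 0, 1, 0, 1, 0, 2, 0]]

/-- The sign normalising a column. -/
def colSgn (c : List ℤ) : ℤ :=
  match c.find? (· != 0) with
  | none => 1
  | some x => if x < 0 then -1 else 1

/-- A column with normalised sign. -/
def normCol (c : List ℤ) : List ℤ := c.map fun x => colSgn c * x

/-- The test of a leaf. -/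
def classify (L : List (List ℤ)) : Bool :=
  killer.any (fun l => ((L.map (dot l)).filter (· != 0)).length == 1) ||
    (L.map normCol).isPerm colsA || (L.map normCol).isPerm colsB

set_option maxHeartbeats 4000000 in
theorem classify_all : (searchAll gram).all classify = true := by decide +kernel

end Cfsg.Agent.LAE62.NineBig.Search
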