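import Cfsg.Agent.LAE62.NineBig.Regular
import Cfsg.Agent.LAE62.Nine.Main
import Cfsg.Prelude.Def_TwoFusion

/-!
A group containing a subgroup of order 648 with controlled centralisers of its 3-core elements.
-/

set_option autoImplicit false
set_option linter.style.haveILetI false
set_option linter.constructorNameAsVariable false

open Subgroup

namespace Cfsg.Agent.LAE62.NineBig

open Cfsg
open scoped ComplexConjugate

universe u

/-- The hypotheses. -/
structure Hyp {G : Type u} [Group G] (H J : Subgroup G) (e : H ≃* M2) : Prop where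
  mem_iff : ∀ h : H, (h : G) ∈ J ↔ inJ (e h)
  le : J ≤ H
  cent : ∀ t ∈ J, t ≠ 1 → centralizer ({t} : Set G) ≤ H
  closed : IsStronglyClosed J H

variable {G : Type u} [Group G] [Finite G] {H J : Subgroup G} {e : H ≃* M2}

theorem Hyp.comm (hy : Hyp H J e) {x y : G} (hx : x ∈ J) (hy' : y ∈ J) : x * y = y * x := by
  have h := comm_inJ _ _ ((hy.mem_iff ⟨x, hy.le hx⟩).1 hx) ((hy.mem_iff ⟨y, hy.le hy'⟩).1 hy')
  rw [← map_mul, ← map_mul] at h
  exact congrArg Subtype.val (e.injective h)

theorem card_cent_transfer {G : Type u} [Group G] {H : Subgroup G} {K : Type*} [Group K] [Fintype K]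
    [DecidableEq K] (e : H ≃* K) (h : H) (hc : centralizer ({(h : G)} : Set G) ≤ H) :
    Nat.card (centralizer ({(h : G)} : Set G)) = (Finset.univ.filter fun g : K => g * e h = e h * g).card := by
  rw [← Nat.card_eq_finsetCard]
  refine Nat.card_congr
    { toFun := fun g => ⟨e ⟨g.1, hc g.2⟩, by
        simp only [Finset.mem_filter, Finset.mem_univ, true_and, ← map_mul]
        exact congrArg e (Subtype.ext (mem_centralizer_singleton_iff.1 g.2))⟩
      invFun := fun g => ⟨(e.symm g.1 : G), mem_centralizer_singleton_iff.2 (by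
        have h := (Finset.mem_filter.1 g.2).2
        rw [← Subgroup.coe_mul, ← Subgroup.coe_mul]
        refine congrArg Subtype.val (e.injective ?_)
        rwa [map_mul, map_mul, MulEquiv.apply_symm_apply])⟩
      left_inv := fun g => Subtype.ext (by simp)
      right_inv := fun g => Subtype.ext (by simp) }

theorem Hyp.card_centralizer (hy : Hyp H J e) {h : H} (hJ : (h : G) ∈ J) (h1 : (h : G) ≠ 1) :
    Nat.card (centralizer ({(h : G)} : Set G)) = (Finset.univ.filter fun g : M2 => g * e h = e h * g).card :=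
  card_cent_transfer e h (hy.cent _ hJ h1)

/-- `H` is the normaliser of `J`. -/
theorem Hyp.norm (hy : Hyp H J e) : normalizer (J : Set G) = H := by
  refine le_antisymm (fun g hg => ?_) fun g hg => LAE62.mem_normalizer_of_conj_mem fun t ht =>
    hy.closed.2 t ht g (H.mul_mem (H.mul_mem hg (hy.le ht)) (H.inv_mem hg))
  set a : H := e.symm mid with ha
  have haJ : (a : G) ∈ J := (hy.mem_iff a).2 (by rw [ha, MulEquiv.apply_symm_apply]; exact inJ_mid.1)
  have ha1 : (a : G) ≠ 1 := fun h => inJ_mid.2 (by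
    have : a = 1 := Subtype.ext h
    rw [ha] at this
    rw [← e.apply_symm_apply mid, this, map_one])
  have hb : g * a * g⁻¹ ∈ J := (mem_normalizer_iff.1 hg a).1 haJ
  set b : H := ⟨_, hy.le hb⟩ with hbdef
  have hb1 : (b : G) ≠ 1 := by
    show g * a * g⁻¹ ≠ 1
    rwa [Ne, mul_inv_eq_one, mul_eq_left]
  have hcard : Nat.card (centralizer ({(b : G)} : Set G)) = Nat.card (centralizer ({(a : G)} : Set G)) := by
    refine Nat.card_congr ((MulAut.conj g⁻¹).toEquiv.subtypeEquiv fun x => ?_)
    simp only [mem_centralizer_singleton_iff, MulEquiv.toEquiv_eq_coe, MulEquiv.coe_toEquiv, MulAut.conj_apply,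
      inv_inv, hbdef]
    constructor <;> intro h
    · calc g⁻¹ * x * g * a = g⁻¹ * (x * (g * a * g⁻¹)) * g := by group
        _ = g⁻¹ * (g * a * g⁻¹ * x) * g := by rw [h]
        _ = a * (g⁻¹ * x * g) := by group
    · calc x * (g * a * g⁻¹) = g * (g⁻¹ * x * g * a) * g⁻¹ := by group
        _ = g * (a * (g⁻¹ * x * g)) * g⁻¹ := by rw [h]
        _ = g * a * g⁻¹ * x := by group
  rw [hy.card_centralizer hb hb1, hy.card_centralizer haJ ha1] at hcard
  simp only [ha, MulEquiv.apply_symm_apply] at hcard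
  obtain ⟨u, hu⟩ := conj_mid (e b) ((hy.mem_iff b).1 hb)
    (fun h => hb1 (by rw [e.map_eq_one_iff.1 h]; rfl)) hcard
  set v : H := e.symm u
  have hv : v * b * v⁻¹ = a := by
    apply e.injective
    rw [map_mul, map_mul, map_inv, MulEquiv.apply_symm_apply, hu, ha, MulEquiv.apply_symm_apply]
  have hc : (v : G) * g ∈ centralizer ({(a : G)} : Set G) := by
    rw [mem_centralizer_singleton_iff]
    have h := congrArg Subtype.val hv
    simp only [hbdef, Subgroup.coe_mul, Subgroup.coe_inv] at h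
    calc (v : G) * g * a = (v : G) * (g * a * g⁻¹) * (v : G)⁻¹ * ((v : G) * g) := by group
      _ = a * ((v : G) * g) := by rw [h]
  rw [show g = (v : G)⁻¹ * ((v : G) * g) by group]
  exact H.mul_mem (H.inv_mem v.2) (hy.cent _ haJ ha1 hc)

theorem Hyp.mem_of_conj (hy : Hyp H J e) {g : G} {h : H} (hs : Sing (e h)) (hg : g * h * g⁻¹ ∈ H) : g ∈ H := by
  obtain ⟨n, hn1, hnJ⟩ := hs
  rw [← map_pow] at hn1 hnJ
  set t : G := ((h ^ (n.val + 1) : H) : G) with ht
  have htJ : t ∈ J := (hy.mem_iff _).2 hnJ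
  have ht1 : t ≠ 1 := fun e' => hn1 (by
    rw [show h ^ (n.val + 1) = 1 from Subtype.ext e', map_one])
  have hgtH : g * t * g⁻¹ ∈ H := by
    rw [ht, SubmonoidClass.coe_pow, ← conj_pow]
    exact H.pow_mem hg _
  have ht' : g * t * g⁻¹ ∈ J := hy.closed.2 t htJ g hgtH
  have ht1' : g * t * g⁻¹ ≠ 1 := by rwa [Ne, mul_inv_eq_one, mul_eq_left]
  rw [← hy.norm]
  refine LAE62.mem_normalizer_of_conj_mem fun x hx => hy.closed.2 x hx g
    (hy.cent _ ht' ht1' (mem_centralizer_singleton_iff.2 ?_))
  calc g * x * g⁻¹ * (g * t * g⁻¹) = g * (x * t) * g⁻¹ := by group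
    _ = g * (t * x) * g⁻¹ := by rw [hy.comm hx htJ]
    _ = g * t * g⁻¹ * (g * x * g⁻¹) := by group

theorem filter_univ_iff {K : Type*} [Fintype K] (p : K → Prop) [DecidablePred p] {a : K} :
    a ∈ Finset.univ.filter p ↔ p a := by simp

/-- A combination of characters of `H`. -/
noncomputable def comb (R : Fin 14 → IrrCharacter H) (c : Fin 14 → ℤ) : H → ℂ :=
  fun h => ∑ t, (c t : ℂ) * (R t : H → ℂ) h

theorem comb_eq (R : Fin 14 → IrrCharacter H) (c : Fin 14 → ℤ) : comb R c = ∑ t, (c t : ℂ) • (R t : H → ℂ) := by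
  funext h
  simp [comb, Finset.sum_apply]

theorem classInner_comb [Fintype H] (R : Fin 14 → IrrCharacter H) (hR : Function.Injective R) (c c' : Fin 14 → ℤ) :
    classInner (comb R c) (comb R c') = ((∑ t, c t * c' t : ℤ) : ℂ) := by
  classical
  rw [comb_eq, comb_eq, Char.classInner_sum_left]
  push_cast
  refine Finset.sum_congr rfl fun t _ => ?_
  rw [Char.classInner_smul_left, Char.classInner_sum_right, Finset.sum_eq_single t]
  · rw [Char.classInner_smul_right, Char.classInner_irr_self (R t).2, map_intCast, mul_one]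
  · intro t' _ ht'
    rw [Char.classInner_smul_right, Char.classInner_irr_ne (R t).2 (R t').2
      fun e' => ht' (hR (Subtype.ext e')).symm, mul_zero]
  · simp

theorem sum_decompose (F : Fin 14 → ℂ) :
    ∑ t, F t = (∑ t : Fin 10, F (ratIdx t)) + ∑ s : Fin 2, (F (pairFst s) + F (pairSnd s)) := by
  simp [Fin.sum_univ_succ, ratIdx, pairFst, pairSnd]
  ring

theorem sum_fiber {K : Type*} [Group K] [Fintype K] [DecidableEq K] (i : K) (F : K → ℂ) :
    ∑ x : K, F (x⁻¹ * i * x) =
      (Nat.card (centralizer ({i} : Set K)) : ℂ) * ∑ a ∈ Finset.univ.image (fun x : K => x⁻¹ * i * x), F a := by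
  rw [Finset.mul_sum, ← Finset.sum_fiberwise_of_maps_to (g := fun x : K => x⁻¹ * i * x)
    (fun x hx => Finset.mem_image_of_mem _ hx) fun x => F (x⁻¹ * i * x)]
  refine Finset.sum_congr rfl fun a ha => ?_
  obtain ⟨w, -, rfl⟩ := Finset.mem_image.1 ha
  rw [Finset.sum_congr rfl (g := fun _ => F (w⁻¹ * i * w)) fun x hx => by rw [(Finset.mem_filter.1 hx).2],
    Finset.sum_const, nsmul_eq_mul, ← Nat.card_eq_finsetCard]
  congr 2
  refine Nat.card_congr ((Equiv.mulRight w⁻¹).subtypeEquiv fun x => ?_)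
  simp only [Finset.mem_filter, Finset.mem_univ, true_and, mem_centralizer_singleton_iff, Equiv.coe_mulRight]
  constructor <;> intro h
  · calc x * w⁻¹ * i = x * (w⁻¹ * i * w) * w⁻¹ := by group
      _ = x * (x⁻¹ * i * x) * w⁻¹ := by rw [h]
      _ = i * (x * w⁻¹) := by group
  · calc x⁻¹ * i * x = x⁻¹ * (i * (x * w⁻¹)) * w := by group
      _ = x⁻¹ * (x * w⁻¹ * i) * w := by rw [h]
      _ = w⁻¹ * i * w := by group

set_option maxHeartbeats 1600000 in
/-- The character extending the one of degree two. -/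
theorem exists_two (hy : Hyp H J e) :
    ∃ χ : IrrCharacter G, ∀ h : H, (χ : G → ℂ) h = (Nine.dchar 2 (blk (e h)) : ℂ) := by
  classical
  haveI := Fintype.ofFinite G
  haveI := Fintype.ofFinite H
  obtain ⟨R₀, hR₀, htab, hpairR, hregR⟩ := exists_table
  let R : Fin 14 → IrrCharacter H := fun t =>
    ⟨fun h => (R₀ t : M2 → ℂ) (e h), Char.isIrrCharacter_comp (R₀ t).2 e.toMonoidHom e.surjective⟩
  have hRinj : Function.Injective R := fun t t' h => hR₀.1 (Subtype.ext (funext fun x => by
    obtain ⟨y, rfl⟩ := e.surjective x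
    exact congrFun (congrArg Subtype.val h) y))
  have hRsurj : Function.Surjective R := fun ψ => by
    obtain ⟨t, ht⟩ := hR₀.2 ⟨fun x => (ψ : H → ℂ) (e.symm x),
      Char.isIrrCharacter_comp ψ.2 e.symm.toMonoidHom e.symm.surjective⟩
    refine ⟨t, Subtype.ext (funext fun h => ?_)⟩
    show (R₀ t : M2 → ℂ) (e h) = _
    rw [ht]
    show (ψ : H → ℂ) (e.symm (e h)) = _
    rw [MulEquiv.symm_apply_apply]
  choose n hn using fun (χ : IrrCharacter G) (t : Fin 14) =>
    Char.isCharacter_classInner_nat (Char.isCharacter_restrict (Char.isCharacter_of_irr χ.2) H) (R t)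
  set r : IrrCharacter G → Fin 14 → ℤ := fun χ t => (n χ t : ℤ) with hr
  have hn' : ∀ (χ : IrrCharacter G) t, classInner (fun h : H => (χ : G → ℂ) h) (R t : H → ℂ) = (r χ t : ℂ) :=
    fun χ t => by rw [hr]; push_cast; exact hn χ t
  have hres : ∀ (χ : IrrCharacter G) (h : H), (χ : G → ℂ) h = ∑ t, (r χ t : ℂ) * (R t : H → ℂ) h := by
    intro χ h
    have h1 := congrFun (Char.eq_sum_classInner_smul
      (Char.isCharacter_isClassFunction (Char.isCharacter_restrict (Char.isCharacter_of_irr χ.2) H))) h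
    rw [Finset.sum_apply, ← Finset.sum_subset (Finset.subset_univ (Finset.univ.image R))
      (fun ψ _ hψ => absurd (by obtain ⟨t, rfl⟩ := hRsurj ψ; simp) hψ),
      Finset.sum_image fun a _ b _ h' => hRinj h'] at h1
    refine h1.trans (Finset.sum_congr rfl fun t _ => ?_)
    rw [Pi.smul_apply, smul_eq_mul]
    exact congrArg (· * (R t : H → ℂ) h) (hn' χ t)
  set rg : Fin 5 → G := fun j => (e.symm (regEl j) : G) with hrg
  have hrgR : ∀ t j, (R t : H → ℂ) (e.symm (regEl j)) = regTab t j := fun t j => by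
    show (R₀ t : M2 → ℂ) (e (e.symm (regEl j))) = _
    rw [MulEquiv.apply_symm_apply, hregR]
  have hval : ∀ (χ : IrrCharacter G) j, (χ : G → ℂ) (rg j) = (value r χ j : ℂ) := fun χ j => by
    rw [hrg, hres χ (e.symm (regEl j)), value]
    push_cast
    exact Finset.sum_congr rfl fun t _ => by rw [hrgR]
  -- supported combinations
  let Supported : (Fin 14 → ℤ) → Prop := fun c => ∀ j : Fin 5, ∑ t, c t * regTab t j = 0
  have hsupp : ∀ c, Supported c → ∀ h : H, ¬ Sing (e h) → comb R c h = 0 := by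
    intro c hc h hs
    obtain ⟨j, u, hu⟩ := conj_regEl (e h) hs
    have h1 : ∀ t, (R t : H → ℂ) h = regTab t j := fun t => by
      show (R₀ t : M2 → ℂ) (e h) = _
      rw [← hu, Char.irr_isClassFunction (R₀ t).2 (regEl j) u, hregR]
    simp only [comb, h1]
    exact_mod_cast congrArg (fun z : ℤ => (z : ℂ)) (hc j)
  set τ : (Fin 14 → ℤ) → G → ℂ := fun c => indFun H (comb R c) with hτ
  have hcombcl : ∀ c, IsClassFunction H (comb R c) := fun c x y => by
    simp only [comb]
    exact Finset.sum_congr rfl fun t _ => by rw [Char.irr_isClassFunction (R t).2 x y]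
  have hτsing : ∀ c, ∀ h : H, Sing (e h) → τ c h = comb R c h := by
    intro c h hs
    simp only [hτ, indFun]
    rw [← Finset.sum_subset (Finset.subset_univ (Finset.univ.filter fun x : G => x ∈ H))
      (fun x _ hx => ?_)]
    · rw [Finset.sum_congr rfl (g := fun _ => comb R c h) fun x hx => ?_, Finset.sum_const, nsmul_eq_mul,
        ← mul_assoc]
      · rw [show ((Finset.univ.filter fun x : G => x ∈ H).card : ℂ) = (Nat.card H : ℂ) by
          rw [← Nat.card_eq_finsetCard]
          exact congrArg Nat.cast (Nat.card_congr (Equiv.subtypeEquivRight fun x => by simp)),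
          inv_mul_cancel₀ (Nat.cast_ne_zero.2 Nat.card_pos.ne'), one_mul]
      · have hxH := (Finset.mem_filter.1 hx).2
        rw [show x⁻¹ * (h : G) * x = ((⟨x⁻¹, H.inv_mem hxH⟩ * h * ⟨x⁻¹, H.inv_mem hxH⟩⁻¹ : H) : G) by simp,
          CharInd.extendByZero_coe]
        exact hcombcl c h _
    · have hxH : x ∉ H := by simpa using hx
      refine CharInd.extendByZero_notMem H _ fun hmem => hxH ?_
      have := hy.mem_of_conj hs (g := x⁻¹) (by rwa [inv_inv])
      simpa using H.inv_mem this
  have hτcl : ∀ c, IsClassFunction G (τ c) := fun c => CharInd.indFun_isClassFunction H _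
  have hτχ : ∀ c, ∀ χ : IrrCharacter G, classInner (τ c) (χ : G → ℂ) = (pair r c χ : ℂ) := by
    intro c χ
    rw [hτ, CharInd.classInner_indFun_left H _ (Char.irr_isClassFunction χ.2), comb_eq,
      Char.classInner_sum_left, pair]
    push_cast
    refine Finset.sum_congr rfl fun t _ => ?_
    rw [Char.classInner_smul_left, ← Char.classInner_conj, hn', map_intCast]
  have hexpand : ∀ c g, τ c g = ∑ χ : IrrCharacter G, (pair r c χ : ℂ) * (χ : G → ℂ) g := fun c g => by
    have h1 := congrFun (Char.eq_sum_classInner_smul (hτcl c)) g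
    rw [Finset.sum_apply] at h1
    exact h1.trans (Finset.sum_congr rfl fun χ _ => by rw [Pi.smul_apply, smul_eq_mul, hτχ])
  have hτzero : ∀ c, Supported c → ∀ g : G, g * g = 1 → τ c g = 0 := by
    intro c hc g hg
    simp only [hτ, indFun]
    rw [Finset.sum_eq_zero, mul_zero]
    intro x _
    by_cases hx : x⁻¹ * g * x ∈ H
    · rw [CharInd.extendByZero_mem H _ hx]
      refine hsupp c hc _ (not_sing_of_sq _ ?_)
      rw [← map_mul, ← map_one e]
      refine congrArg e (Subtype.ext ?_)
      show x⁻¹ * g * x * (x⁻¹ * g * x) = 1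
      rw [show x⁻¹ * g * x * (x⁻¹ * g * x) = x⁻¹ * (g * g) * x by group, hg, mul_one, inv_mul_cancel]
    · exact CharInd.extendByZero_notMem H _ hx
  have hsvec : ∀ i, Supported (vec i) := by
    show ∀ i : Fin 9, ∀ j : Fin 5, ∑ t, vec i t * regTab t j = 0
    decide +kernel
  have hrsq : ∀ l, rg (cidx l) * rg (cidx l) = 1 := fun l => by
    show ((e.symm (regEl (cidx l)) * e.symm (regEl (cidx l)) : H) : G) = 1
    rw [← map_mul, show regEl (cidx l) * regEl (cidx l) = 1 by revert l; decide +kernel, map_one, OneMemClass.coe_one]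
  have hrg0 : rg 0 = 1 := by
    show ((e.symm (regEl 0) : H) : G) = 1
    rw [show regEl 0 = 1 from rfl, map_one, OneMemClass.coe_one]
  -- the class algebra
  set N : ℚ := (Nat.card G : ℚ) * (Nat.card H : ℚ) with hN
  set cc : Fin 2 → ℚ := fun l => (Nat.card (centralizer ({rg (cidx l)} : Set G)) : ℚ) with hcc
  have hdiff : ∀ χ, value r χ 1 ≠ value r χ 3 → ¬ ∃ w : G, w * rg 1 * w⁻¹ = rg 3 := by
    rintro χ hχ ⟨w, hw⟩
    have h : (χ : G → ℂ) (rg 3) = (χ : G → ℂ) (rg 1) := by rw [← hw]; exact Char.irr_isClassFunction χ.2 _ _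
    rw [hval, hval] at h
    exact hχ (by exact_mod_cast h.symm)
  have hquad : (∃ χ, value r χ 1 ≠ value r χ 3) → ∀ (k : Fin 7) (l l' : Fin 2),
      (Nat.card G : ℂ) * (Nat.card H : ℂ) * (2 * ∑ χ, (pair r (vec (vidx k)) χ : ℂ) *
        ((value r χ (cidx l) : ℂ) * value r χ (cidx l') / value r χ 0)) =
      ((cc l : ℚ) : ℂ) * ((cc l' : ℚ) : ℂ) * (1944 * pTab k l l' : ℤ) := by
    rintro ⟨χ₀, hχ₀⟩ k l l'
    have hnc := hdiff χ₀ hχ₀
    have hclass : ∀ (l : Fin 2) (a : H),
        (∃ x : G, x⁻¹ * rg (cidx l) * x = a) ↔ cls l (e a) := by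
      intro l a
      constructor
      · rintro ⟨x, hx⟩
        have ha2 : e a * e a = 1 := by
          rw [← map_mul, ← map_one e]
          refine congrArg e (Subtype.ext ?_)
          show (a : G) * a = 1
          rw [← hx, show x⁻¹ * rg (cidx l) * x * (x⁻¹ * rg (cidx l) * x) =
            x⁻¹ * (rg (cidx l) * rg (cidx l)) * x by group, hrsq, mul_one, inv_mul_cancel]
        have ha1 : e a ≠ 1 := by
          intro h1
          have h1' : (a : G) = 1 := by rw [e.map_eq_one_iff.1 h1]; rfl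
          have : rg (cidx l) = 1 := by
            rw [show rg (cidx l) = x * (x⁻¹ * rg (cidx l) * x) * x⁻¹ by group, hx, h1', mul_one, mul_inv_cancel]
          have h2 : e.symm (regEl (cidx l)) = 1 := Subtype.ext this
          have h3 : regEl (cidx l) = 1 := by rw [← e.apply_symm_apply (regEl (cidx l)), h2, map_one]
          exact absurd h3 ((show ∀ l, regEl (cidx l) ≠ 1 by decide +kernel) l)
        obtain ⟨l₁, hl₁⟩ : ∃ l₁, cls l₁ (e a) := by
          by_cases hb : blk (e a) = 1
          · exact ⟨0, ha2, ha1, iff_of_true hb rfl⟩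
          · exact ⟨1, ha2, ha1, iff_of_false hb (by decide)⟩
        obtain ⟨u, hu⟩ := cls_conj l₁ _ hl₁
        have hua : ((e.symm u : H) : G) * rg (cidx l₁) * ((e.symm u : H) : G)⁻¹ = a := by
          rw [hrg, ← Subgroup.coe_inv, ← Subgroup.coe_mul, ← Subgroup.coe_mul, rep_regEl, ← map_inv, ← map_mul,
            ← map_mul, hu, MulEquiv.symm_apply_apply]
        by_contra hne
        have hll : l₁ ≠ l := fun h => hne (h ▸ hl₁)
        have hconj : ∃ w : G, w * rg (cidx l) * w⁻¹ = rg (cidx l₁) :=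
          ⟨((e.symm u : H) : G)⁻¹ * x⁻¹, by
            rw [show ((e.symm u : H) : G)⁻¹ * x⁻¹ * rg (cidx l) * (((e.symm u : H) : G)⁻¹ * x⁻¹)⁻¹ =
              ((e.symm u : H) : G)⁻¹ * (x⁻¹ * rg (cidx l) * x) * ((e.symm u : H) : G) by group, hx, ← hua]
            group⟩
        obtain ⟨w, hw⟩ := hconj
        rcases (show ∀ a b : Fin 2, a ≠ b → (a = 0 ∧ b = 1) ∨ (a = 1 ∧ b = 0) by decide) _ _ hll with
          ⟨rfl, rfl⟩ | ⟨rfl, rfl⟩
        · refine hnc ⟨w⁻¹, ?_⟩
          show w⁻¹ * rg (cidx 0) * w⁻¹⁻¹ = rg (cidx 1)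
          rw [← hw]
          group
        · exact hnc ⟨w, hw⟩
      · intro ha
        obtain ⟨u, hu⟩ := cls_conj l _ ha
        refine ⟨((e.symm u : H) : G)⁻¹, ?_⟩
        rw [inv_inv, hrg, ← Subgroup.coe_inv, ← Subgroup.coe_mul, ← Subgroup.coe_mul, rep_regEl, ← map_inv,
          ← map_mul, ← map_mul, hu, MulEquiv.symm_apply_apply]
    -- the symmetrised vector
    have hsφ : Supported (phiVec k) := by
      intro j
      have : ∀ (k : Fin 7) (j : Fin 5), ∑ t, phiVec k t * regTab t j = 0 := by decide +kernel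
      exact this k j
    have hphi : ∀ h : H, comb R (phiVec k) h = (phiVal k (e h) : ℂ) := by
      intro h
      obtain ⟨hp1, hp2⟩ := phiVec_sym k
      rw [comb, sum_decompose, Fin.sum_univ_two]
      simp only [pairFst, pairSnd, Matrix.cons_val_zero, Matrix.cons_val_one, Matrix.cons_val_fin_one,
        Matrix.head_cons, ← hp1, ← hp2]
      rw [← mul_add, ← mul_add, show (R 7 : H → ℂ) h + (R 8 : H → ℂ) h = (pairTab 0 (e h) : ℂ) from hpairR 0 (e h),
        show (R 12 : H → ℂ) h + (R 13 : H → ℂ) h = (pairTab 1 (e h) : ℂ) from hpairR 1 (e h),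
        Finset.sum_congr rfl (g := fun t : Fin 10 => (phiVec k (ratIdx t) : ℂ) * (tab t (e h) : ℂ))
          fun t _ => congrArg _ (htab t (e h))]
      simp only [phiVal, Fin.sum_univ_succ, Fin.sum_univ_zero, ratIdx]
      push_cast
      simp
      ring
    have hφcl : ∀ x u : M2, phiVal k (u * x * u⁻¹) = phiVal k x := fun x u => by
      have h := hcombcl (phiVec k) (e.symm x) (e.symm u)
      rw [← map_inv, ← map_mul, ← map_mul, hphi, hphi, MulEquiv.apply_symm_apply, MulEquiv.apply_symm_apply] at h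
      exact_mod_cast h
    set I := rg (cidx l) with hI
    set K := rg (cidx l') with hK
    have hII : I * I = 1 := hrsq l
    have hKK : K * K = 1 := hrsq l'
    -- the two ways of computing the sum
    have h1 : ∑ g : G, τ (phiVec k) (I * (g * K * g⁻¹)) =
        (Nat.card G : ℂ) * ∑ χ, (pair r (phiVec k) χ : ℂ) * ((χ : G → ℂ) I * (χ : G → ℂ) K / (χ : G → ℂ) 1) := by
      simp only [hexpand]
      rw [Finset.sum_comm, Finset.mul_sum]
      refine Finset.sum_congr rfl fun χ _ => ?_
      rw [← Finset.mul_sum]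
      have e1 : ∑ g : G, (χ : G → ℂ) (I * (g * K * g⁻¹)) =
          (Nat.card G : ℂ) * ((χ : G → ℂ) I * (χ : G → ℂ) K / (χ : G → ℂ) 1) := by
        rw [show (Nat.card G : ℂ) * ((χ : G → ℂ) I * (χ : G → ℂ) K / (χ : G → ℂ) 1) =
          (Nat.card G : ℂ) * (χ : G → ℂ) K * (χ : G → ℂ) I / (χ : G → ℂ) 1 by ring, ← Brauer.irr_conj_sum' χ.2 K I]
        exact Finset.sum_congr rfl fun g _ => Char.isClassFunction_mul_comm (Char.irr_isClassFunction χ.2) _ _
      rw [e1]
      ring
    set F : G → G → ℂ := fun a b => if ha : a ∈ H then if hb : b ∈ H then (phiVal k (e ⟨a, ha⟩ * e ⟨b, hb⟩) : ℂ)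
      else 0 else 0 with hF
    have hterm : ∀ x g : G, extendByZero H (comb R (phiVec k)) (x⁻¹ * (I * (g * K * g⁻¹)) * x) =
        F (x⁻¹ * I * x) ((x⁻¹ * g) * K * (x⁻¹ * g)⁻¹) := by
      intro x g
      set a := x⁻¹ * I * x with ha
      set b := (x⁻¹ * g) * K * (x⁻¹ * g)⁻¹ with hb
      rw [show x⁻¹ * (I * (g * K * g⁻¹)) * x = a * b by rw [ha, hb]; group]
      have haa : a * a = 1 := by
        rw [ha, show x⁻¹ * I * x * (x⁻¹ * I * x) = x⁻¹ * (I * I) * x by group, hII, mul_one, inv_mul_cancel]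
      have hbb : b * b = 1 := by
        rw [hb, show x⁻¹ * g * K * (x⁻¹ * g)⁻¹ * (x⁻¹ * g * K * (x⁻¹ * g)⁻¹) =
          x⁻¹ * g * (K * K) * (x⁻¹ * g)⁻¹ by group, hKK, mul_one, mul_inv_cancel]
      by_cases hab : a * b ∈ H
      · rw [CharInd.extendByZero_mem H _ hab]
        by_cases haH : a ∈ H
        · have hbH : b ∈ H := by
            rw [show b = a⁻¹ * (a * b) by group]
            exact H.mul_mem (H.inv_mem haH) hab
          simp only [hF, dif_pos haH, dif_pos hbH]
          rw [hphi, ← map_mul]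
          rfl
        · simp only [hF, dif_neg haH]
          refine hsupp _ hsφ _ fun hs => haH ?_
          refine hy.mem_of_conj hs (g := a) ?_
          rw [inv_eq_of_mul_eq_one_right haa]
          show a * (a * b) * a ∈ H
          rw [← mul_assoc a a b, haa, one_mul,
            show b * a = (a * b)⁻¹ by rw [_root_.mul_inv_rev, inv_eq_of_mul_eq_one_right haa,
              inv_eq_of_mul_eq_one_right hbb]]
          exact H.inv_mem hab
      · rw [CharInd.extendByZero_notMem H _ hab]
        by_cases haH : a ∈ H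
        · have hbH : b ∉ H := fun h => hab (H.mul_mem haH h)
          simp only [hF, dif_pos haH, dif_neg hbH]
        · simp only [hF, dif_neg haH]
    have hred : ∀ (l : Fin 2) (f : H → ℂ) (f' : G → ℂ), (∀ h : H, f' h = f h) → (∀ g : G, g ∉ H → f' g = 0) →
        ∑ x : G, f' (x⁻¹ * rg (cidx l) * x) =
          ((cc l : ℚ) : ℂ) * ∑ a ∈ Finset.univ.filter (cls l), f (e.symm a) := by
      intro l f f' hf hf0
      rw [sum_fiber, hcc]
      simp only [Rat.cast_natCast]
      refine congrArg (HMul.hMul _) ?_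
      rw [← Finset.sum_filter_add_sum_filter_not (Finset.univ.image _) (· ∈ H),
        Finset.sum_eq_zero (s := Finset.filter (fun a => ¬ a ∈ H) _) (fun a ha => hf0 a (Finset.mem_filter.1 ha).2),
        add_zero]
      symm
      refine Finset.sum_bij (fun a _ => ((e.symm a : H) : G)) (fun a ha => ?_) (fun a _ b _ h => ?_) (fun g hg => ?_)
        (fun a _ => (hf _).symm)
      · obtain ⟨x, hx⟩ := (hclass l (e.symm a)).2 (by rw [MulEquiv.apply_symm_apply]; simp only [Finset.mem_filter, Finset.mem_univ, true_and] at ha; exact ha)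
        exact Finset.mem_filter.2 ⟨Finset.mem_image.2 ⟨x, Finset.mem_univ _, hx⟩, (e.symm a).2⟩
      · exact e.symm.injective (Subtype.ext h)
      · obtain ⟨hg1, hgH⟩ := Finset.mem_filter.1 hg
        obtain ⟨x, -, hx⟩ := Finset.mem_image.1 hg1
        exact ⟨e ⟨g, hgH⟩, (by simp only [Finset.mem_filter, Finset.mem_univ, true_and]; exact (hclass l ⟨g, hgH⟩).1 ⟨x, hx⟩),
          by rw [MulEquiv.symm_apply_apply]⟩
    have h2 : ∑ g : G, τ (phiVec k) (I * (g * K * g⁻¹)) = (Nat.card H : ℂ)⁻¹ *
        (((cc l : ℚ) : ℂ) * ((cc l' : ℚ) : ℂ) * (1944 * pTab k l l' : ℤ)) := by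
      simp only [hτ, indFun, hterm, ← Finset.mul_sum]
      congr 1
      rw [Finset.sum_comm]
      rw [Finset.sum_congr rfl fun x _ => Fintype.sum_equiv (Equiv.mulLeft x⁻¹)
        (fun g => F (x⁻¹ * I * x) (x⁻¹ * g * K * (x⁻¹ * g)⁻¹))
        (fun y => F (x⁻¹ * I * x) (y * K * y⁻¹)) fun g => rfl]
      have inner : ∀ a : G, ∑ y : G, F a (y * K * y⁻¹) =
          ((cc l' : ℚ) : ℂ) * if ha : a ∈ H then
            ∑ b ∈ Finset.univ.filter (cls l'), (phiVal k (e ⟨a, ha⟩ * b) : ℂ) else 0 := by
        intro a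
        by_cases ha : a ∈ H
        · rw [dif_pos ha, Fintype.sum_equiv (Equiv.inv G) (fun y => F a (y * K * y⁻¹)) (fun z => F a (z⁻¹ * K * z))
            (fun y => by simp), hred l' (fun b => (phiVal k (e ⟨a, ha⟩ * e b) : ℂ)) (F a)
            (fun h => by simp [hF, ha, h.2]) (fun g hg => by simp [hF, ha, hg])]
          simp only [MulEquiv.apply_symm_apply]
        · rw [dif_neg ha, mul_zero]
          exact Finset.sum_eq_zero fun y _ => by simp [hF, ha]
      simp only [inner, ← Finset.mul_sum]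
      rw [hI, hred l (fun a => ∑ b ∈ Finset.univ.filter (cls l'), (phiVal k (e a * b) : ℂ))
        (fun a => if ha : a ∈ H then ∑ b ∈ Finset.univ.filter (cls l'), (phiVal k (e ⟨a, ha⟩ * b) : ℂ) else 0)
        (fun h => by simp [h.2]) (fun g hg => dif_neg hg)]
      simp only [MulEquiv.apply_symm_apply]
      have := prodSum_eq k hφcl l l'
      rw [← this]
      push_cast
      ring
    have h3 : ∀ χ, pair r (phiVec k) χ = 2 * pair r (vec (vidx k)) χ + symA k * pair r (vec 7) χ +
        symB k * pair r (vec 8) χ := fun χ => by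
      simp only [pair, phiVec, Finset.mul_sum, ← Finset.sum_add_distrib]
      exact Finset.sum_congr rfl fun t _ => by ring
    -- the differences contribute nothing
    have hD : ∀ i : Fin 9, ∑ t, vec i t * vec i t = 2 →
        ∑ χ, (pair r (vec i) χ : ℂ) * ((χ : G → ℂ) I * (χ : G → ℂ) K / (χ : G → ℂ) 1) = 0 := by
      intro i hi
      have hiso : ∑ χ, pair r (vec i) χ * pair r (vec i) χ = 2 := by
        have h1 : classInner (τ (vec i)) (τ (vec i)) = classInner (comb R (vec i)) (comb R (vec i)) := by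
          rw [hτ, CharInd.classInner_indFun_left H _ (hτcl (vec i))]
          simp only [classInner]
          congr 1
          refine Finset.sum_congr rfl fun h _ => ?_
          by_cases hs : Sing (e h)
          · rw [hτsing _ h hs]
          · rw [hsupp _ (hsvec i) h hs, zero_mul, zero_mul]
        rw [classInner_comb R hRinj, Char.classInner_eq_sum_mul_conj (hτcl _), hi] at h1
        simp only [hτχ, map_intCast] at h1
        exact_mod_cast h1
      obtain ⟨P, Q, hPQ, hP, hQ, hv⟩ := Nine.exists_two hiso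
      set a := pair r (vec i) P
      set b := pair r (vec i) Q
      have hcast : ∀ (x y : IrrCharacter G), ((Nine.ind x y : ℤ) : ℂ) = if y = x then 1 else 0 := fun x y => by
        simp only [Nine.ind]; split_ifs <;> simp
      have hS : ∀ f : IrrCharacter G → ℂ, ∑ χ, (pair r (vec i) χ : ℂ) * f χ = (a : ℂ) * f P + (b : ℂ) * f Q := by
        intro f
        simp [hv, hcast, add_mul, Finset.sum_add_distrib]
      have hl : ∀ g : G, g * g = 1 → (a : ℂ) * (P : G → ℂ) g = -((b : ℂ) * (Q : G → ℂ) g) := fun g hg => by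
        have := hexpand (vec i) g
        rw [hτzero _ (hsvec i) g hg, hS] at this
        linear_combination -this
      rw [hS]
      have a0 : (a : ℂ) ≠ 0 := Int.cast_ne_zero.2 fun h => by simp [h] at hP
      have b0 : (b : ℂ) ≠ 0 := Int.cast_ne_zero.2 fun h => by simp [h] at hQ
      have P0 := Char.irr_one_ne_zero P.2
      have Q0 := Char.irr_one_ne_zero Q.2
      have eP : (a : ℂ) * ((P : G → ℂ) I * (P : G → ℂ) K / (P : G → ℂ) 1) =
          ((a : ℂ) * (P : G → ℂ) I) * ((a : ℂ) * (P : G → ℂ) K) / ((a : ℂ) * (P : G → ℂ) 1) := by field_simp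
      have eQ : (b : ℂ) * ((Q : G → ℂ) I * (Q : G → ℂ) K / (Q : G → ℂ) 1) =
          ((b : ℂ) * (Q : G → ℂ) I) * ((b : ℂ) * (Q : G → ℂ) K) / ((b : ℂ) * (Q : G → ℂ) 1) := by field_simp
      rw [eP, eQ, hl I hII, hl K hKK, hl 1 (one_mul 1), neg_mul_neg, div_neg, neg_add_cancel]
    have h4 := h1.symm.trans h2
    simp only [h3] at h4
    push_cast at h4
    simp only [add_mul, mul_assoc, Finset.sum_add_distrib, ← Finset.mul_sum, hD 7 (by decide +kernel),
      hD 8 (by decide +kernel), mul_zero, add_zero] at h4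
    have hH0 : (Nat.card H : ℂ) ≠ 0 := Nat.cast_ne_zero.2 Nat.card_pos.ne'
    rw [hI, hK, show ((1 : G)) = rg 0 from hrg0.symm] at h4
    simp only [hval] at h4
    push_cast
    field_simp at h4
    simp only [mul_div_assoc', ← mul_assoc] at h4 ⊢
    linear_combination h4
  have hin : Input r (Char.trivialIrr G) cc N := by
    refine ⟨fun χ t => Int.natCast_nonneg _, fun χ => ?_, ?_, fun i i' => ?_, fun i j hj => ?_, fun l => ?_, ?_,
      fun hsep k l l' => ?_⟩
    · obtain ⟨d, hd0, hd⟩ := Char.irr_one_pos χ.2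
      have h := hval χ 0
      rw [hrg0, hd] at h
      have : (d : ℤ) = value r χ 0 := by exact_mod_cast h
      omega
    · funext t
      have h1 := hn' (Char.trivialIrr G) t
      have e0 : (fun h : H => ((Char.trivialIrr G : IrrCharacter G) : G → ℂ) h) = (R 0 : H → ℂ) := funext fun h => by
        show (1 : ℂ) = (R₀ (ratIdx 0) : M2 → ℂ) (e h)
        rw [htab]
        simp [tab]
      rw [e0, Char.classInner_irrCharacter] at h1
      by_cases ht : t = 0
      · subst ht; rw [if_pos rfl] at h1; rw [if_pos rfl]; exact_mod_cast h1.symm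
      · rw [if_neg (fun h' => ht (hRinj h').symm)] at h1; rw [if_neg ht]; exact_mod_cast h1.symm
    · have h1 : classInner (τ (vec i)) (τ (vec i')) = classInner (comb R (vec i)) (comb R (vec i')) := by
        rw [hτ, CharInd.classInner_indFun_left H _ (hτcl (vec i'))]
        simp only [classInner]
        congr 1
        refine Finset.sum_congr rfl fun h _ => ?_
        by_cases hs : Sing (e h)
        · rw [hτsing _ h hs]
        · rw [hsupp _ (hsvec i) h hs, zero_mul, zero_mul]
      rw [classInner_comb R hRinj, Char.classInner_eq_sum_mul_conj (hτcl _)] at h1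
      simp only [hτχ, map_intCast] at h1
      exact_mod_cast h1
    · have hg : rg j * rg j = 1 := by
        rcases hj with rfl | rfl | rfl
        · rw [hrg0, mul_one]
        · exact hrsq 0
        · exact hrsq 1
      have h1 := hexpand (vec i) (rg j)
      rw [hτzero _ (hsvec i) _ hg] at h1
      simp only [hval] at h1
      exact_mod_cast h1.symm
    · exact Nat.cast_pos.2 Nat.card_pos
    · exact mul_pos (Nat.cast_pos.2 Nat.card_pos) (Nat.cast_pos.2 Nat.card_pos)
    · have h := hquad hsep k l l'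
      rw [eq_div_iff (mul_ne_zero two_ne_zero (mul_ne_zero (Nat.cast_ne_zero.2 Nat.card_pos.ne')
        (Nat.cast_ne_zero.2 Nat.card_pos.ne')))]
      apply Rat.cast_injective (α := ℂ)
      push_cast at h ⊢
      linear_combination h
  obtain ⟨χ, hχ⟩ := exists_natural hin
  refine ⟨χ, fun h => ?_⟩
  rw [hres χ h, hχ, Finset.sum_eq_single (2 : Fin 14) (fun t _ ht => by simp [ht]) (by simp)]
  simp only [if_true, Int.cast_one, one_mul]
  show (R₀ (ratIdx 2) : M2 → ℂ) (e h) = _
  rw [htab]
  rfl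

/-- Restriction to the block-fixing elements. -/
theorem left_mem : ∀ x : M2, blk x = 1 → (x : Wr).left ∈ Nine.M := by decide +kernel

theorem left_inj : ∀ x : M2, blk x = 1 → (x : Wr).left = 1 → x = 1 := by decide +kernel

theorem left_surj : ∀ m : Nine.M, ∃ x : M2, blk x = 1 ∧ (x : Wr).left = (m : N3) := by decide +kernel

theorem left_mul (x y : M2) (hx : blk x = 1) : ((x * y : M2) : Wr).left = (x : Wr).left * (y : Wr).left := by
  show ((x : Wr) * (y : Wr)).left = _
  rw [SemidirectProduct.mul_left, show (x : Wr).right = 1 from hx, map_one]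
  rfl

theorem dchar_two_eq : ∀ d : Nine.D3, Nine.dchar 2 d = 2 ↔ d = 1 := by decide +kernel

set_option maxHeartbeats 800000 in
/-- The recognition theorem. -/
theorem eq_top (hy : Hyp H J e) : H = ⊤ := by
  classical
  obtain ⟨χ, hχ⟩ := exists_two hy
  have hχ1 : (χ : G → ℂ) 1 = 2 := by
    have := hχ 1
    rw [OneMemClass.coe_one, map_one, map_one] at this
    rw [this, show Nine.dchar 2 (1 : Nine.D3) = 2 by decide +kernel]
    norm_num
  obtain ⟨d, ρ, hρ⟩ := Char.isCharacter_of_irr χ.2
  set K : Subgroup G := ρ.ker with hKdef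
  have hKH : ∀ h : H, (h : G) ∈ K ↔ blk (e h) = 1 := by
    intro h
    rw [← dchar_two_eq]
    have h1 : (h : G) ∈ K ↔ (χ : G → ℂ) h = (χ : G → ℂ) 1 := by
      haveI := Fintype.ofFinite G
      rw [← hρ, ρ.char_one, hKdef, MonoidHom.mem_ker]
      exact (Char.character_eq_degree_iff ρ (h : G)).symm
    rw [h1, hχ, hχ1]
    exact_mod_cast Iff.rfl
  set HK : Subgroup K := H.subgroupOf K with hHK
  have hmemH : ∀ x : HK, ((x : K) : G) ∈ H := fun x => x.2
  let f : HK →* Nine.M :=
    { toFun := fun x => ⟨((e ⟨_, hmemH x⟩ : M2) : Wr).left, left_mem _ ((hKH ⟨_, hmemH x⟩).1 (x : K).2)⟩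
      map_one' := Subtype.ext (by
        show ((e ⟨((1 : HK) : K), _⟩ : M2) : Wr).left = 1
        rw [show (⟨((1 : HK) : K), _⟩ : H) = 1 from Subtype.ext rfl, map_one]
        rfl)
      map_mul' := fun x y => Subtype.ext (by
        show ((e ⟨((x * y : HK) : K), _⟩ : M2) : Wr).left = _
        rw [show (⟨((x * y : HK) : K), _⟩ : H) = ⟨_, hmemH x⟩ * ⟨_, hmemH y⟩ from Subtype.ext rfl, map_mul,
          left_mul _ _ ((hKH ⟨_, hmemH x⟩).1 (x : K).2)]
        rfl) }
  have hfb : Function.Bijective f := by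
    refine ⟨(injective_iff_map_eq_one f).2 fun x hx => ?_, fun m => ?_⟩
    · have h := left_inj _ ((hKH ⟨_, hmemH x⟩).1 (x : K).2) (congrArg Subtype.val hx)
      rw [e.map_eq_one_iff] at h
      exact Subtype.ext (Subtype.ext (congrArg Subtype.val h :))
    · obtain ⟨x, hx1, hx2⟩ := left_surj m
      have hK : ((e.symm x : H) : G) ∈ K := (hKH _).2 (by rw [MulEquiv.apply_symm_apply]; exact hx1)
      refine ⟨⟨⟨_, hK⟩, (e.symm x).2⟩, Subtype.ext ?_⟩
      show ((e ⟨((e.symm x : H) : G), _⟩ : M2) : Wr).left = _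
      rw [show (⟨((e.symm x : H) : G), _⟩ : H) = e.symm x from Subtype.ext rfl, MulEquiv.apply_symm_apply, hx2]
  let e' : HK ≃* Nine.M := MulEquiv.ofBijective f hfb
  have hJK : J ≤ K := fun x hx => (hKH ⟨x, hy.le hx⟩).2 ((hy.mem_iff ⟨x, hy.le hx⟩).1 hx).1
  set JK : Subgroup K := J.subgroupOf K with hJKdef
  have hiff : ∀ h : HK, (h : K) ∈ JK ↔ e' h ^ 3 = 1 := by
    intro h
    rw [← map_pow, MulEquiv.map_eq_one_iff, Subgroup.mem_subgroupOf, hy.mem_iff ⟨_, hmemH h⟩, inJ, ← map_pow,
      MulEquiv.map_eq_one_iff, and_iff_right ((hKH ⟨_, hmemH h⟩).1 (h : K).2)]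
    constructor
    · exact fun h3 => Subtype.ext (Subtype.ext (congrArg Subtype.val h3 :))
    · exact fun h3 => Subtype.ext (congrArg (fun z : HK => ((z : K) : G)) h3 :)
  have hyp : Nine.Hyp HK JK e' := by
    refine ⟨hiff, fun x hx => hy.le hx, ?_, fun t ht ht1 x hx => ?_⟩
    · refine le_antisymm (fun x hx => ?_) fun x hx => LAE62.mem_normalizer_of_conj_mem fun t ht => ?_
      · show (x : G) ∈ H
        rw [← hy.norm]
        exact LAE62.mem_normalizer_of_conj_mem fun t ht => (mem_normalizer_iff.1 hx ⟨t, hJK ht⟩).1 ht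
      · exact hy.closed.2 _ ht (x : G) (H.mul_mem (H.mul_mem hx (hy.le ht)) (H.inv_mem hx))
    · refine hy.cent _ ht (fun h => ht1 (Subtype.ext h)) ?_
      rw [mem_centralizer_singleton_iff]
      exact congrArg Subtype.val (mem_centralizer_singleton_iff.1 hx)
  have htop := Nine.eq_top hyp
  have hKle : K ≤ H := by
    intro x hx
    have : (⟨x, hx⟩ : K) ∈ HK := by rw [htop]; exact mem_top _
    exact this
  haveI : K.Normal := by rw [hKdef]; infer_instance
  have hJn : ∀ g : G, g ∈ normalizer (J : Set G) := fun g => LAE62.mem_normalizer_of_conj_mem fun t ht =>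
    hy.closed.2 t ht g (hKle (this.conj_mem t (hJK ht) g))
  exact (eq_top_iff' H).2 fun g => by rw [← hy.norm]; exact hJn g

end Cfsg.Agent.LAE62.NineBig
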