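import Cfsg.Agent.LAE62.NineBig.Regular
import Cfsg.Prelude.Def_Solvable
import Mathlib.GroupTheory.PGroup

/-!
The group of order 648 inside the symmetric group of degree nine, and its 3-core.
-/

set_option autoImplicit false

namespace Cfsg.Agent.LAE62.NineBig

open Cfsg DihedralGroup

/-- The numbering of the nine letters. -/
def numbering : ZMod 3 × ZMod 3 ≃ Fin 9 := (finProdFinEquiv : Fin 3 × Fin 3 ≃ Fin 9)

/-- The action on nine letters. -/
def toPerm : M2 →* Equiv.Perm (Fin 9) :=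
  numbering.permCongrHom.toMonoidHom.comp
    (MulAction.toPermHom M2 (ZMod 3 × ZMod 3))

theorem pt_eq_id : ∀ x : M2, (∀ v : ZMod 3 × ZMod 3, pt x v = v) → x = 1 := by decide +kernel

theorem toPerm_injective : Function.Injective toPerm := by
  refine (injective_iff_map_eq_one _).2 fun x hx => pt_eq_id x fun v => ?_
  have h1 : MulAction.toPermHom M2 (ZMod 3 × ZMod 3) x = 1 :=
    numbering.permCongrHom.injective (by rw [map_one]; exact hx)
  exact Equiv.ext_iff.1 h1 v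

/-- Preimage of the first generator. -/
def genA : M2 := ⟨⟨(r 1, 1, 1), 1⟩, by decide +kernel⟩
/-- Preimage of the second generator. -/
def genC : M2 := ⟨⟨1, r 1⟩, by decide +kernel⟩
/-- Preimage of the third generator. -/
def genU : M2 := ⟨⟨(sr 2, sr 2, 1), 1⟩, by decide +kernel⟩
/-- Preimage of the fourth generator. -/
def genD : M2 := ⟨⟨(1, 1, sr 2), sr 2⟩, by decide +kernel⟩

theorem toPerm_genA : toPerm genA = Equiv.swap (0 : Fin 9) 1 * Equiv.swap 1 2 := by decide +kernel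

theorem toPerm_genC : toPerm genC = Equiv.swap (0 : Fin 9) 3 * Equiv.swap 3 6 *
    (Equiv.swap (1 : Fin 9) 4 * Equiv.swap 4 7) * (Equiv.swap (2 : Fin 9) 5 * Equiv.swap 5 8) := by decide +kernel

theorem toPerm_genU : toPerm genU = Equiv.swap (0 : Fin 9) 1 * Equiv.swap 3 4 := by decide +kernel

theorem toPerm_genD : toPerm genD =
    Equiv.swap (0 : Fin 9) 3 * Equiv.swap 1 4 * Equiv.swap 2 5 * Equiv.swap 6 7 := by decide +kernel

theorem decomp_rot : ∀ x : M2, inJ x → ∃ i j k : Fin 3, x = genA ^ (i : ℕ) * (genC * genA * genC⁻¹) ^ (j : ℕ) *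
    (genC * genC * genA * (genC * genC)⁻¹) ^ (k : ℕ) := by decide +kernel

theorem decomp_refl : ∀ x : M2, blk x = 1 → ∃ l m : Fin 2,
    inJ (x * (genU ^ (l : ℕ) * (genC * genU * genC⁻¹) ^ (m : ℕ))⁻¹) := by decide +kernel

theorem decomp_blk : ∀ x : M2, ∃ n : Fin 3, ∃ o : Fin 2, blk (x * (genC ^ (n : ℕ) * genD ^ (o : ℕ))⁻¹) = 1 := by
  decide +kernel

theorem toPerm_range : toPerm.range = Subgroup.closure ({Equiv.swap (0 : Fin 9) 1 * Equiv.swap 1 2,
    Equiv.swap (0 : Fin 9) 3 * Equiv.swap 3 6 * (Equiv.swap (1 : Fin 9) 4 * Equiv.swap 4 7) *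
      (Equiv.swap (2 : Fin 9) 5 * Equiv.swap 5 8),
    Equiv.swap (0 : Fin 9) 1 * Equiv.swap 3 4,
    Equiv.swap (0 : Fin 9) 3 * Equiv.swap 1 4 * Equiv.swap 2 5 * Equiv.swap 6 7} : Set (Equiv.Perm (Fin 9))) := by
  set S : Set (Equiv.Perm (Fin 9)) := {Equiv.swap (0 : Fin 9) 1 * Equiv.swap 1 2,
    Equiv.swap (0 : Fin 9) 3 * Equiv.swap 3 6 * (Equiv.swap (1 : Fin 9) 4 * Equiv.swap 4 7) *
      (Equiv.swap (2 : Fin 9) 5 * Equiv.swap 5 8),
    Equiv.swap (0 : Fin 9) 1 * Equiv.swap 3 4,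
    Equiv.swap (0 : Fin 9) 3 * Equiv.swap 1 4 * Equiv.swap 2 5 * Equiv.swap 6 7}
  refine le_antisymm ?_ ((Subgroup.closure_le _).2 ?_)
  · set K := (Subgroup.closure S).comap toPerm
    have hA : genA ∈ K := Subgroup.mem_comap.2 (Subgroup.subset_closure (by simp [S, toPerm_genA]))
    have hC : genC ∈ K := Subgroup.mem_comap.2 (Subgroup.subset_closure (by simp [S, toPerm_genC]))
    have hU : genU ∈ K := Subgroup.mem_comap.2 (Subgroup.subset_closure (by simp [S, toPerm_genU]))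
    have hD : genD ∈ K := Subgroup.mem_comap.2 (Subgroup.subset_closure (by simp [S, toPerm_genD]))
    rintro _ ⟨x, rfl⟩
    show x ∈ K
    obtain ⟨n, o, h1⟩ := decomp_blk x
    obtain ⟨l, m, h2⟩ := decomp_refl _ h1
    obtain ⟨i, j, k, h3⟩ := decomp_rot _ h2
    have hrot : x * (genC ^ (n : ℕ) * genD ^ (o : ℕ))⁻¹ *
        (genU ^ (l : ℕ) * (genC * genU * genC⁻¹) ^ (m : ℕ))⁻¹ ∈ K := by
      rw [h3]
      exact mul_mem (mul_mem (pow_mem hA _) (pow_mem (mul_mem (mul_mem hC hA) (inv_mem hC)) _))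
        (pow_mem (mul_mem (mul_mem (mul_mem hC hC) hA) (inv_mem (mul_mem hC hC))) _)
    have h4 := mul_mem (mul_mem hrot (mul_mem (pow_mem hU (l : ℕ))
      (pow_mem (mul_mem (mul_mem hC hU) (inv_mem hC)) (m : ℕ)))) (mul_mem (pow_mem hC (n : ℕ)) (pow_mem hD (o : ℕ)))
    simpa [mul_assoc] using h4
  · intro g hg
    simp only [S, Set.mem_insert_iff, Set.mem_singleton_iff] at hg
    rcases hg with rfl | rfl | rfl | rfl
    · exact ⟨genA, toPerm_genA⟩
    · exact ⟨genC, toPerm_genC⟩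
    · exact ⟨genU, toPerm_genU⟩
    · exact ⟨genD, toPerm_genD⟩

/-- The subgroup of order 27. -/
def coreJ : Subgroup M2 where
  carrier := {x | inJ x}
  one_mem' := ⟨map_one blk, one_pow 3⟩
  mul_mem' := fun {a b} ha hb => by
    refine ⟨by rw [map_mul, ha.1, hb.1, one_mul], ?_⟩
    rw [Commute.mul_pow (comm_inJ a b ha hb), ha.2, hb.2, one_mul]
  inv_mem' := fun {a} ha => ⟨by rw [map_inv, ha.1, inv_one], by rw [inv_pow, ha.2, inv_one]⟩

/-- The eighty-first power. -/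
def pow81 (x : M2) : M2 :=
  let y := x * x * x
  let z := y * y * y
  let w := z * z * z
  w * w * w

theorem pow81_eq (x : M2) : pow81 x = x ^ 81 := by
  have c : ∀ z : M2, z * z * z = z ^ 3 := fun z => by rw [pow_succ, pow_two]
  simp only [pow81, c, ← pow_mul]

theorem pow81_of_dvd (x : M2) {N : ℕ} (hN : x ^ 3 ^ N = 1) : pow81 x = 1 := by
  rw [pow81_eq, ← orderOf_dvd_iff_pow_eq_one]
  obtain ⟨m, -, hm⟩ := (Nat.dvd_prime_pow Nat.prime_three).1 (orderOf_dvd_of_pow_eq_one hN)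
  have hc : orderOf x ∣ 648 := card_M2 ▸ orderOf_dvd_card
  rw [hm] at hc ⊢
  have hm4 : m ≤ 4 := by
    by_contra h
    have : 3 ^ 5 ∣ 648 := dvd_trans (pow_dvd_pow 3 (by omega)) hc
    norm_num at this
  exact dvd_trans (pow_dvd_pow 3 hm4) (by norm_num)

set_option maxHeartbeats 4000000 in
theorem outside_core : ∀ x : M2, ¬ inJ x → pow81 x ≠ 1 ∨ ∃ u : M2, pow81 (x * (u * x * u⁻¹)) ≠ 1 := by
  decide +kernel

theorem pCore_eq : pCore 3 M2 = coreJ := by
  refine le_antisymm (sSup_le fun N hN => ?_) (le_sSup ⟨⟨fun a ha u => ?_⟩, fun a => ?_⟩)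
  · obtain ⟨hn, hp⟩ := hN
    intro x hx
    by_contra hxJ
    have key : ∀ y ∈ N, pow81 y = 1 := fun y hy => by
      obtain ⟨k, hk⟩ := hp ⟨y, hy⟩
      exact pow81_of_dvd y (by simpa using congrArg Subtype.val hk)
    rcases outside_core x hxJ with h | ⟨u, h⟩
    · exact h (key x hx)
    · exact h (key _ (N.mul_mem hx (hn.conj_mem x hx u)))
  · refine ⟨by rw [map_mul, map_mul, map_inv, ha.1, mul_one, mul_inv_cancel], ?_⟩
    rw [conj_pow, ha.2, mul_one, mul_inv_cancel]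
  · exact ⟨1, Subtype.ext (by rw [pow_one]; exact a.2.2)⟩

theorem map_pCore {A B : Type*} [Group A] [Group B] (e : A ≃* B) (p : ℕ) :
    (pCore p A).map e.toMonoidHom = pCore p B := by
  have key : ∀ {A B : Type _} [Group A] [Group B] (e : A ≃* B), (pCore p A).map e.toMonoidHom ≤ pCore p B := by
    intro A B _ _ e
    rw [Subgroup.map_le_iff_le_comap]
    refine sSup_le fun N hN => ?_
    rw [← Subgroup.map_le_iff_le_comap]
    exact le_sSup ⟨hN.1.map _ e.surjective, hN.2.map _⟩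
  refine le_antisymm (key e) ?_
  intro x hx
  have h : e.symm x ∈ pCore p A := by
    have h1 : (pCore p B).map e.symm.toMonoidHom ≤ pCore p A := by
      rw [Subgroup.map_le_iff_le_comap]
      refine sSup_le fun N hN => ?_
      rw [← Subgroup.map_le_iff_le_comap]
      exact le_sSup ⟨hN.1.map _ e.symm.surjective, hN.2.map _⟩
    exact h1 ⟨x, hx, rfl⟩
  exact ⟨_, h, e.apply_symm_apply x⟩

end Cfsg.Agent.LAE62.NineBig
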