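import Cfsg.Agent.LAE62.NineBig.Config

/-!
The elements whose powers meet the subgroup of order 27, and the others.
-/

set_option autoImplicit false

namespace Cfsg.Agent.LAE62.NineBig

/-- Membership of the elementary abelian subgroup of order 27. -/
def inJ (x : M2) : Prop := blk x = 1 ∧ x ^ 3 = 1

instance instDecidableInJ (x : M2) : Decidable (inJ x) := by unfold inJ; infer_instance

/-- A power is a nontrivial element of the subgroup of order 27. -/
def Sing (x : M2) : Prop := ∃ n : Fin 4, x ^ (n.val + 1) ≠ 1 ∧ inJ (x ^ (n.val + 1))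

instance instDecidableSing (x : M2) : Decidable (Sing x) := by unfold Sing; infer_instance

theorem comm_inJ (x y : M2) (hx : inJ x) (hy : inJ y) : x * y = y * x := by
  have h : ∀ x : {x : M2 // inJ x}, ∀ y : {x : M2 // inJ x}, x.1 * y.1 = y.1 * x.1 := by decide +kernel
  exact h ⟨x, hx⟩ ⟨y, hy⟩

/-- An element of the subgroup of order 27 moving two blocks. -/
def mid : M2 := ⟨⟨(DihedralGroup.r 1, DihedralGroup.r 1, 1), 1⟩, by decide +kernel⟩

theorem inJ_mid : inJ mid ∧ mid ≠ 1 := by decide +kernel

set_option maxHeartbeats 4000000 in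
theorem conj_mid : ∀ x : M2, inJ x → x ≠ 1 →
    (Finset.univ.filter fun g : M2 => g * x = x * g).card = (Finset.univ.filter fun g : M2 => g * mid = mid * g).card →
    ∃ u : M2, u * x * u⁻¹ = mid := by decide +kernel

set_option maxHeartbeats 4000000 in
theorem not_sing_of_sq : ∀ x : M2, x * x = 1 → ¬ Sing x := by decide +kernel

/-- The position of the representative of the class of an element which is not exceptional. -/
def regIdx (x : M2) : Fin 5 :=
  if x = 1 then 0 else if x * x = 1 then (if blk x = 1 then 1 else 3) else if x * x * (x * x) = 1 then 2 else 4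

set_option maxHeartbeats 8000000 in
theorem conj_regIdx : ∀ x : M2, ¬ Sing x → ∃ u : M2, u * regEl (regIdx x) = x * u := by decide +kernel

theorem conj_regEl (x : M2) (hx : ¬ Sing x) : ∃ j : Fin 5, ∃ u : M2, u * regEl j * u⁻¹ = x := by
  obtain ⟨u, hu⟩ := conj_regIdx x hx
  exact ⟨regIdx x, u, by rw [hu, mul_inv_cancel_right]⟩

theorem rep_regEl : ∀ l : Fin 2, regEl (cidx l) = rep l := by decide +kernel

theorem sing_inv (x : M2) (h : Sing x) : Sing x⁻¹ := by
  obtain ⟨n, h1, h2, h3⟩ := h
  exact ⟨n, by rwa [inv_pow, Ne, inv_eq_one], by rw [inv_pow, map_inv, h2, inv_one], by rw [inv_pow, inv_pow, h3, inv_one]⟩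

end Cfsg.Agent.LAE62.NineBig
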