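import Mathlib.Data.Fintype.BigOperators
import Mathlib.Algebra.Order.BigOperators.Ring.Finset
import Mathlib.Tactic.Linarith
import Mathlib.Tactic.LinearCombination
import Mathlib.Tactic.Ring
import Mathlib.Data.List.Nodup
import Mathlib.Algebra.BigOperators.Group.Finset.Basic

/-!
All integral realisations of a Gram matrix with one prescribed column.
-/

set_option autoImplicit false

namespace Cfsg.Agent.LAE62.NineBig.Search

/-- Scalar product of lists. -/
def dot (a b : List ℤ) : ℤ := ((a.zip b).map fun p => p.1 * p.2).sum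

/-- Subtract a multiple of a column. -/
def subMul (res c : List ℤ) (x : ℤ) : List ℤ := (res.zip c).map fun p => p.1 - x * p.2

/-- Squares of the entries of the columns, summed. -/
def colSq (m : ℕ) : List (List ℤ) → List ℤ
  | [] => List.replicate m 0
  | c :: cs => (c.zip (colSq m cs)).map fun p => p.1 * p.1 + p.2

/-- The values `x` can take. -/
def range' (left : ℕ) : List ℤ := (List.range (2 * Nat.sqrt left + 1)).map fun i : ℕ => (i : ℤ) - (Nat.sqrt left : ℤ)

/-- The Cauchy–Schwarz test. -/
def feasible (res sq : List ℤ) (left : ℕ) : Bool := (res.zip sq).all fun p => p.1 * p.1 ≤ p.2 * (left : ℤ)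

/-- Values of the next vector at the known points. -/
def assign : List (List ℤ) → List ℤ → ℕ → List (List ℤ × ℕ)
  | [], res, left => if res.all (· == 0) then [([], left)] else []
  | c :: cs, res, left =>
    let sq := colSq res.length cs
    (range' left).flatMap fun x =>
      let left' := left - (x * x).toNat
      let res' := subMul res c x
      if feasible res' sq left' then (assign cs res' left').map fun p => (x :: p.1, p.2) else []

/-- Positive lists whose squares sum to `n`. -/
def comps : ℕ → ℕ → List (List ℤ)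
  | _, 0 => [[]]
  | 0, _ + 1 => []
  | fuel + 1, n + 1 =>
    ((List.range (Nat.sqrt (n + 1))).flatMap fun i =>
      (comps fuel ((n + 1) - (i + 1) * (i + 1))).map fun l => ((i + 1 : ℕ) : ℤ) :: l)

/-- Extend a state by one vector with head `h`, norm `nrm` and products `row`. -/
def step (L : List (List ℤ)) (h : ℤ) (nrm : ℕ) (row : List ℤ) : List (List (List ℤ)) :=
  match L with
  | [] => []
  | c :: cs =>
    (assign cs (subMul row c h) (nrm - (h * h).toNat)).flatMap fun p =>
      (comps (p.2) p.2).map fun l =>
        (h :: c) :: (List.zipWith (fun x c => x :: c) p.1 cs ++ l.map fun y => y :: List.replicate row.length 0)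

variable {X : Type*} [Fintype X] [DecidableEq X]

/-- The column of a point with a sign. -/
def col (V : List (X → ℤ)) (q : X × ℤ) : List ℤ := V.map fun v => q.2 * v q.1

/-- The state `L` describes the vectors `V`. -/
def Rep (V : List (X → ℤ)) (t0 : X) (L : List (List ℤ)) : Prop :=
  ∃ pts : List (X × ℤ), L = ((t0, (1 : ℤ)) :: pts).map (col V) ∧ (t0 :: pts.map Prod.fst).Nodup ∧
    (∀ q ∈ pts, q.2 * q.2 = 1) ∧ ∀ v ∈ V, ∀ x : X, v x ≠ 0 → x ∈ t0 :: pts.map Prod.fst

omit [Fintype X] [DecidableEq X] in
theorem dot_nil (b : List ℤ) : dot [] b = 0 := rfl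

omit [Fintype X] [DecidableEq X] in
theorem mem_range' {left : ℕ} {x : ℤ} (h : x * x ≤ left) : x ∈ range' left := by
  have hn : x.natAbs ≤ Nat.sqrt left := by
    rw [Nat.le_sqrt]
    have : (x.natAbs : ℤ) * x.natAbs ≤ left := by rw [Int.natCast_natAbs, abs_mul_abs_self]; exact h
    exact_mod_cast this
  rw [range', List.mem_map]
  refine ⟨(x + (Nat.sqrt left : ℤ)).toNat, List.mem_range.2 ?_, ?_⟩
  · omega
  · show ((x + (Nat.sqrt left : ℤ)).toNat : ℤ) - (Nat.sqrt left : ℤ) = x
    omega

omit [Fintype X] [DecidableEq X] in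
theorem length_subMul (res c : List ℤ) (x : ℤ) (h : c.length = res.length) : (subMul res c x).length = res.length := by
  simp [subMul, h]

omit [Fintype X] [DecidableEq X] in
/-- The residual products. -/
theorem cauchy_list (f g : X × ℤ → ℤ) : ∀ qs : List (X × ℤ),
    (qs.map fun q => f q * g q).sum ^ 2 ≤ (qs.map fun q => f q * f q).sum * (qs.map fun q => g q * g q).sum
  | [] => by simp
  | q :: qs => by
    simp only [List.map_cons, List.sum_cons]
    have ih := cauchy_list f g qs
    set P := (qs.map fun q => f q * g q).sum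
    set A := (qs.map fun q => f q * f q).sum with hA
    set B := (qs.map fun q => g q * g q).sum with hB
    have hA0 : 0 ≤ A := List.sum_nonneg fun y hy => by
      obtain ⟨a, -, rfl⟩ := List.mem_map.1 hy
      exact mul_self_nonneg _
    have hB0 : 0 ≤ B := List.sum_nonneg fun y hy => by
      obtain ⟨a, -, rfl⟩ := List.mem_map.1 hy
      exact mul_self_nonneg _
    by_cases hB1 : B = 0
    · have hP : P = 0 := by rw [hB1, mul_zero] at ih; exact pow_eq_zero_iff two_ne_zero |>.1 (le_antisymm ih (sq_nonneg _))
      rw [hP, hB1]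
      nlinarith [mul_nonneg hA0 (mul_self_nonneg (g q))]
    · have hBpos : 0 < B := lt_of_le_of_ne hB0 (Ne.symm hB1)
      have h1 := mul_nonneg hB0 (sq_nonneg (0 : ℤ))
      have h2 : 2 * (f q * g q) * P ≤ f q * f q * B + A * (g q * g q) := by
        have h3 : 2 * (f q * g q) * P * B ≤ (f q * f q * B + A * (g q * g q)) * B := by
          nlinarith [sq_nonneg (f q * B - g q * P), mul_le_mul_of_nonneg_left ih (mul_self_nonneg (g q))]
        exact le_of_mul_le_mul_right h3 hBpos
      nlinarith

omit [Fintype X] [DecidableEq X] in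
theorem colSq_spec (V : List (X → ℤ)) : ∀ qs : List (X × ℤ),
    colSq V.length (qs.map (col V)) = V.map fun v => (qs.map fun q => (q.2 * v q.1) * (q.2 * v q.1)).sum
  | [] => by simp [colSq]
  | q :: qs => by
    simp only [List.map_cons, colSq, colSq_spec V qs, List.sum_cons]
    simp [col, List.zip_map, List.map_map, Function.comp_def, List.zip]

omit [Fintype X] [DecidableEq X] in
theorem subMul_spec (V : List (X → ℤ)) (F : (X → ℤ) → ℤ) (q : X × ℤ) (x : ℤ) :
    subMul (V.map F) (col V q) x = V.map fun v => F v - x * (q.2 * v q.1) := by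
  simp [subMul, col, List.zip_map, List.map_map, Function.comp_def, List.zip]

omit [Fintype X] [DecidableEq X] in
theorem eq_of_mem_zip_self {α : Type*} : ∀ {l : List α} {a b : α}, (a, b) ∈ l.zip l → a = b
  | [], a, b, h => by simp at h
  | c :: l, a, b, h => by
    rcases List.mem_cons.1 h with e | e
    · simp only [Prod.mk.injEq] at e; exact e.1.trans e.2.symm
    · exact eq_of_mem_zip_self e

omit [Fintype X] [DecidableEq X] in
theorem assign_spec (V : List (X → ℤ)) (w : X → ℤ) : ∀ (qs : List (X × ℤ)) (left : ℕ) (rest : ℕ),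
    (left : ℤ) = (qs.map fun q => (q.2 * w q.1) * (q.2 * w q.1)).sum + rest →
    (qs.map fun q => q.2 * w q.1, rest) ∈
      assign (qs.map (col V)) (V.map fun v => (qs.map fun q => (q.2 * v q.1) * (q.2 * w q.1)).sum) left
  | [], left, rest, h => by
    simp only [List.map_nil, List.sum_nil, zero_add] at h
    have : left = rest := by exact_mod_cast h
    subst this
    simp [assign]
  | q :: qs, left, rest, h => by
    simp only [List.map_cons, List.sum_cons] at h ⊢
    have hnn : 0 ≤ (qs.map fun q => (q.2 * w q.1) * (q.2 * w q.1)).sum := List.sum_nonneg fun y hy => by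
      obtain ⟨a, -, rfl⟩ := List.mem_map.1 hy
      exact mul_self_nonneg _
    set x := q.2 * w q.1 with hx
    simp only [assign, List.mem_flatMap]
    refine ⟨x, mem_range' (by linarith), ?_⟩
    have hleft : ((left - (x * x).toNat : ℕ) : ℤ) = (qs.map fun q => (q.2 * w q.1) * (q.2 * w q.1)).sum + rest := by
      have := mul_self_nonneg x
      omega
    have hres : subMul (V.map fun v => (q.2 * v q.1) * x + (qs.map fun q => (q.2 * v q.1) * (q.2 * w q.1)).sum)
        (col V q) x = V.map fun v => (qs.map fun q => (q.2 * v q.1) * (q.2 * w q.1)).sum := by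
      rw [subMul_spec]
      exact List.map_congr_left fun v _ => by ring
    rw [hres, List.length_map, colSq_spec, if_pos]
    · exact List.mem_map.2 ⟨_, assign_spec V w qs _ rest hleft, rfl⟩
    · rw [feasible, List.all_eq_true]
      intro p hp
      simp only [List.zip_map, List.mem_map] at hp
      obtain ⟨⟨v, v'⟩, hvv, rfl⟩ := hp
      have hv : v = v' := eq_of_mem_zip_self hvv
      subst hv
      simp only [Prod.map_fst, Prod.map_snd, decide_eq_true_eq]
      rw [hleft, ← pow_two]
      refine (cauchy_list (fun q => q.2 * v q.1) (fun q => q.2 * w q.1) qs).trans ?_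
      refine mul_le_mul_of_nonneg_left (by linarith) (List.sum_nonneg fun y hy => by
      obtain ⟨a, -, rfl⟩ := List.mem_map.1 hy
      exact mul_self_nonneg _)

omit [Fintype X] [DecidableEq X] in
theorem comps_spec : ∀ (l : List ℤ), (∀ x ∈ l, 0 < x) → ∀ (fuel n : ℕ), n ≤ fuel →
    (l.map fun x => x * x).sum = n → l ∈ comps fuel n
  | [], _, fuel, n, _, h => by
    simp only [List.map_nil, List.sum_nil] at h
    have : n = 0 := by exact_mod_cast h.symm
    subst this
    cases fuel <;> simp [comps]
  | x :: l, hpos, fuel, n, hn, h => by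
    simp only [List.map_cons, List.sum_cons] at h
    have hx : 0 < x := hpos x (List.mem_cons_self ..)
    have hnn : 0 ≤ (l.map fun x => x * x).sum := List.sum_nonneg fun y hy => by
      obtain ⟨a, -, rfl⟩ := List.mem_map.1 hy
      exact mul_self_nonneg _
    have hxx : 0 < x * x := mul_pos hx hx
    obtain ⟨m, rfl⟩ : ∃ m, n = m + 1 := ⟨n - 1, by omega⟩
    obtain ⟨k, rfl⟩ : ∃ k, fuel = k + 1 := ⟨fuel - 1, by omega⟩
    obtain ⟨i, rfl⟩ : ∃ i : ℕ, x = ((i + 1 : ℕ) : ℤ) := ⟨(x - 1).toNat, by omega⟩
    have hle : (i + 1) * (i + 1) ≤ m + 1 := by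
      have : (((i + 1) * (i + 1) : ℕ) : ℤ) ≤ ((m + 1 : ℕ) : ℤ) := by push_cast at h ⊢; linarith
      exact_mod_cast this
    simp only [comps, List.mem_flatMap]
    refine ⟨i, List.mem_range.2 (Nat.le_sqrt.2 hle), List.mem_map.2 ⟨l, ?_, rfl⟩⟩
    have hpos' : 0 < (i + 1) * (i + 1) := Nat.mul_pos i.succ_pos i.succ_pos
    refine comps_spec l (fun y hy => hpos y (List.mem_cons_of_mem _ hy)) k _ (by omega) ?_
    rw [Nat.cast_sub hle]
    push_cast at h ⊢
    linarith

theorem sum_eq_list (pts : List X) (hnd : pts.Nodup) (F : X → ℤ) (hF : ∀ x, F x ≠ 0 → x ∈ pts) :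
    ∑ x, F x = (pts.map F).sum := by
  rw [← List.sum_toFinset F hnd]
  refine (Finset.sum_subset (Finset.subset_univ _) fun x _ hx => ?_).symm
  by_contra h
  exact hx (List.mem_toFinset.2 (hF x h))

/-- One step of the search is exhaustive. -/
theorem step_spec (V : List (X → ℤ)) (t0 : X) (w : X → ℤ) (L : List (List ℤ)) (hL : Rep V t0 L)
    (nrm : ℕ) (row : List ℤ) (hnrm : ∑ x, w x * w x = nrm)
    (hrow : row = V.map fun v => ∑ x, v x * w x) :
    ∃ L' ∈ step L (w t0) nrm row, Rep (w :: V) t0 L' := by
  obtain ⟨pts, rfl, hnd, hsgn, hcov⟩ := hL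
  set known : List X := t0 :: pts.map Prod.fst with hknown
  set new : List X := (Finset.univ.filter fun x => x ∉ known ∧ w x ≠ 0).toList with hnew
  have hmem : ∀ x, x ∈ new ↔ x ∉ known ∧ w x ≠ 0 := fun x => by simp [hnew]
  have hnd' : (known ++ new).Nodup := List.nodup_append.2 ⟨hnd, Finset.nodup_toList _, fun a ha b hb e =>
    ((hmem b).1 hb).1 (e ▸ ha)⟩
  have hsq : ∀ q ∈ pts, ∀ u v : X → ℤ, (q.2 * u q.1) * (q.2 * v q.1) = u q.1 * v q.1 := fun q hq u v => by
    linear_combination (u q.1 * v q.1) * hsgn q hq
  have hwnrm : (w t0 * w t0) + (pts.map fun q => (q.2 * w q.1) * (q.2 * w q.1)).sum +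
      (new.map fun x => w x * w x).sum = nrm := by
    rw [← hnrm, sum_eq_list (known ++ new) hnd' _ fun x hx => by
      by_cases hxk : x ∈ known
      · exact List.mem_append_left _ hxk
      · exact List.mem_append_right _ ((hmem x).2 ⟨hxk, fun e => hx (by rw [e, mul_zero])⟩),
      List.map_append, List.sum_append, hknown, List.map_cons, List.sum_cons, List.map_map,
      List.map_congr_left fun q hq => hsq q hq w w]
    rfl
  have hres : subMul row (col V (t0, 1)) (w t0) =
      V.map fun v => (pts.map fun q => (q.2 * v q.1) * (q.2 * w q.1)).sum := by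
    rw [hrow, subMul_spec]
    refine List.map_congr_left fun v hv => ?_
    rw [sum_eq_list known hnd _ fun x hx => hcov v hv x (left_ne_zero_of_mul hx), hknown, List.map_cons,
      List.sum_cons, List.map_map, List.map_congr_left fun q hq => hsq q hq v w]
    show v t0 * w t0 + _ - w t0 * (1 * v t0) = _
    rw [Function.comp_def]
    ring
  set rest := ((new.map fun x => w x * w x).sum).toNat with hrest
  have hrest0 : ((rest : ℕ) : ℤ) = (new.map fun x => w x * w x).sum :=
    Int.toNat_of_nonneg (List.sum_nonneg fun y hy => by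
      obtain ⟨a, -, rfl⟩ := List.mem_map.1 hy
      exact mul_self_nonneg _)
  have hleft : ((nrm - (w t0 * w t0).toNat : ℕ) : ℤ) =
      (pts.map fun q => (q.2 * w q.1) * (q.2 * w q.1)).sum + rest := by
    have h1 : 0 ≤ (pts.map fun q => (q.2 * w q.1) * (q.2 * w q.1)).sum := List.sum_nonneg fun y hy => by
      obtain ⟨a, -, rfl⟩ := List.mem_map.1 hy
      exact mul_self_nonneg _
    have := mul_self_nonneg (w t0)
    omega
  have ha := assign_spec V w pts _ rest hleft
  have hl : (new.map fun x => |w x|) ∈ comps rest rest := by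
    refine comps_spec _ ?_ rest rest le_rfl ?_
    · intro y hy
      obtain ⟨x, hx, rfl⟩ := List.mem_map.1 hy
      exact abs_pos.2 ((hmem x).1 hx).2
    · rw [hrest0, List.map_map]
      exact congrArg List.sum (List.map_congr_left fun x _ => abs_mul_abs_self (w x))
  refine ⟨(w t0 :: col V (t0, 1)) :: (List.zipWith (fun x c => x :: c) (pts.map fun q => q.2 * w q.1) (pts.map (col V)) ++
    (new.map fun x => |w x|).map fun y => y :: List.replicate row.length 0), ?_,
    pts ++ new.map fun x => (x, (w x).sign), ?_, ?_, ?_, ?_⟩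
  · simp only [List.map_cons, step, List.mem_flatMap]
    refine ⟨_, by rw [hres]; exact ha, List.mem_map.2 ⟨_, hl, rfl⟩⟩
  · simp only [List.map_cons, List.map_append, List.map_map, col, one_mul]
    refine congrArg₂ List.cons rfl ?_
    congr 1
    · clear * -
      induction pts with
      | nil => rfl
      | cons q qs ih => simp only [List.map_cons, List.zipWith_cons_cons, ih]; rfl
    · refine List.map_congr_left fun x hx => ?_
      simp only [Function.comp_def, List.map_cons]
      refine congrArg₂ List.cons ?_ ?_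
      · exact (Int.sign_mul_self_eq_abs (w x)).symm
      · rw [hrow, List.length_map, ← List.map_const']
        refine List.map_congr_left fun v hv => ?_
        have : v x = 0 := by_contra fun h => ((hmem x).1 hx).1 (hcov v hv x h)
        rw [this, mul_zero]
  · rw [List.map_append, List.map_map, show ((Prod.fst : X × ℤ → X) ∘ fun x => (x, (w x).sign)) = id from rfl,
      List.map_id, ← List.cons_append]
    exact hnd'
  · intro q hq
    rcases List.mem_append.1 hq with h | h
    · exact hsgn q h
    · obtain ⟨x, hx, rfl⟩ := List.mem_map.1 h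
      show (w x).sign * (w x).sign = 1
      rcases Int.sign_eq_neg_one_iff_neg.symm.or Int.sign_eq_one_iff_pos.symm |>.mp
        (lt_or_gt_of_ne ((hmem x).1 hx).2) with e | e <;> rw [e] <;> norm_num
  · intro v hv x hx
    rw [List.map_append, List.map_map, show ((Prod.fst : X × ℤ → X) ∘ fun x => (x, (w x).sign)) = id from rfl,
      List.map_id, ← List.cons_append]
    by_cases hxk : x ∈ known
    · exact List.mem_append_left _ hxk
    rcases List.mem_cons.1 hv with rfl | hv'
    · exact List.mem_append_right _ ((hmem x).2 ⟨hxk, hx⟩)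
    · exact absurd (hcov v hv' x hx) hxk

/-- Iterate the search. -/
def searchAll : List (ℤ × ℕ × List ℤ) → List (List (List ℤ))
  | [] => [[[]]]
  | p :: ps => (searchAll ps).flatMap fun L => step L p.1 p.2.1 p.2.2

/-- The data of the vectors, newest first. -/
def data (V : List (X → ℤ)) (t0 : X) : List (ℤ × ℕ × List ℤ) :=
  match V with
  | [] => []
  | w :: V => (w t0, (∑ x, w x * w x).toNat, V.map fun v => ∑ x, v x * w x) :: data V t0

theorem searchAll_spec : ∀ (V : List (X → ℤ)) (t0 : X), ∃ L ∈ searchAll (data V t0), Rep V t0 L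
  | [], t0 => ⟨[[]], List.mem_singleton_self _, [], rfl, List.nodup_singleton _, by simp, by simp⟩
  | w :: V, t0 => by
    obtain ⟨L, hL, hR⟩ := searchAll_spec V t0
    obtain ⟨L', hL', hR'⟩ := step_spec V t0 w L hR (∑ x, w x * w x).toNat _
      (Int.toNat_of_nonneg (Finset.sum_nonneg fun x _ => mul_self_nonneg _)).symm rfl
    exact ⟨L', List.mem_flatMap.2 ⟨L, hL, hL'⟩, hR'⟩

end Cfsg.Agent.LAE62.NineBig.Search
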